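import Cfsg.Agent.H2.Nd0

/-! `H21.Nd.pD`: piece `Der` of S4781 (if `N' ⊓ M` is abelian then `N'` centralizes it). -/

set_option autoImplicit false

namespace H21.Nd

open Subgroup Cfsg H18 H5 H6 H8 H2.Nd
open scoped commutatorElement

universe u

theorem ri {G : Type*} [Group G] [Finite G] {A P H : Subgroup G} [A.Normal] (hd : A ⊓ P = ⊥) (hA : A ≤ H) :
    H.relIndex (A ⊔ P) = H.relIndex P := by
  have n : ∀ X : Subgroup G, Nrm2 A X := fun X => (nml_top (K := A)).nrm2 le_top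
  have h1 := card_mul_relIndex' (A := H) (B := A ⊔ P)
  have h2 := card_mul_relIndex' (A := H) (B := P)
  rw [inf_comm, (n P).modular hA, (n P).card_sup_of_disj hd,
    (n _).card_sup_of_disj (eq_bot_iff.2 ((inf_le_inf_left _ inf_le_left).trans hd.le)), ← h2, inf_comm H P,
    mul_assoc] at h1
  exact Nat.eq_of_mul_eq_mul_left card_pos' (Nat.eq_of_mul_eq_mul_left card_pos' h1)

theorem pD : Der.{u} := by
  intro G _ _ N M P c p r h ab
  classical
  haveI := h.nN
  haveI := h.nM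
  haveI := Fintype.ofFinite G
  haveI := Fact.mk h.hp
  have hM : M ≤ N := h.sup ▸ le_sup_left
  have hP : P ≤ N := h.sup ▸ le_sup_right
  have mp : M ⊓ P = ⊥ := h.piM.inf_eq_bot' h.piP
  have c1 : ⁅N, M⁆ ≤ ⁅N, N⁆ ⊓ M := le_inf (comm_mono le_rfl hM) (comm_le_right norm_of_normal)
  have c2 : ⁅N, N⁆ ≤ (⁅N, N⁆ ⊓ M) ⊔ ⁅P, P⁆ := by
    conv_lhs => rw [← h.sup, der_sup]
    exact sup_le (sup_le (((comm_mono hM le_rfl).trans c1).trans le_sup_left)
      ((H18.comm_comm.le.trans ((comm_mono hP le_rfl).trans c1)).trans le_sup_left)) le_sup_right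
  refine c2.trans (sup_le ab (le_centralizer_of_inertia ab.comm fun θ hθ => ?_))
  by_contra k
  obtain ⟨χ, hχ, e⟩ := exists_irr_over hθ
  have d1 : (inertia θ).relIndex P ∣ charDegree χ := by
    refine Dvd.dvd.trans ?_ ((dvd_mul_right _ _).trans (index_inertia_mul_dvd hχ hθ e))
    have hK : (⁅N, N⁆ ⊓ M) ⊔ P ⊴ N := ⟨sup_le (inf_le_right.trans hM) hP, h.sup.ge.trans (sup_le
      (norm_of_comm_le_of_le (c1.trans le_sup_left) (sup_le (inf_le_right.trans hM) hP)) (le_norm le_sup_right))⟩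
    have t1 := hK.relIndex_dvd' (H := inertia θ ⊓ N) inf_le_right
    have t2 := (nml_top (K := N)).relIndex_dvd' (H := inertia θ) le_top
    rw [relIndex_top_right] at t2
    rw [H18.relIndex_inf_right, ri (eq_bot_iff.2 ((inf_le_inf_right _ inf_le_right).trans mp.le))
      (le_inf (le_inertia hθ.isClassFunction) (inf_le_right.trans hM)), ← H18.relIndex_inf_right, inf_assoc,
      inf_eq_right.2 hP, H18.relIndex_inf_right] at t1
    exact t1.trans t2
  have jp : (M ⊔ (P ⊓ inertia θ)) ⊓ P = P ⊓ inertia θ := by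
    rw [((nml_top (K := M)).nrm2 le_top).modular' inf_le_left, mp, bot_sup_eq]
  have hJ : (M ⊔ (P ⊓ inertia θ)).relIndex N = (inertia θ).relIndex P := by
    have := ri (H := M ⊔ (P ⊓ inertia θ)) mp le_sup_left
    rwa [h.sup, ← H18.relIndex_inf_right (B := P), jp, H18.relIndex_inf_left] at this
  set π := QuotientGroup.mk' (M.subgroupOf N)
  have kπ : π.ker ≤ (M ⊔ (P ⊓ inertia θ)).subgroupOf N := by
    rw [QuotientGroup.ker_mk']; exact subgroupOf_mono _ le_sup_left
  obtain ⟨ξ, hξ, lt, nk⟩ : ∃ ξ, IsIrrCharacter (N ⧸ M.subgroupOf N) ξ ∧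
      charDegree ξ < (((M ⊔ (P ⊓ inertia θ)).subgroupOf N).map π).index ∧ ¬ commutator _ ≤ charKer ξ := by
    by_contra hh
    push Not at hh
    have := (commutator_le_comap π).trans (comap_mono (le_of_small_ker hh))
    rw [comap_map_eq, sup_eq_left.2 kπ] at this
    have := map_mono (f := N.subtype) this
    rw [map_subtype_commutator, subgroupOf_map_subtype] at this
    exact k ((le_inf ((der_mono hP).trans (this.trans inf_le_left)) der_le).trans (jp.le.trans inf_le_right))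
  rw [index_map_eq _ (QuotientGroup.mk'_surjective _) kπ, ← relIndex, hJ] at lt
  have pX : IsPGroup p (N ⧸ M.subgroupOf N) := by
    obtain ⟨j, hj⟩ := (h.piP.relIndex (A := M)).eq_pow relIndex_ne_zero
    refine IsPGroup.of_card (n := j) ?_
    rw [← index_eq_card, ← relIndex, ← hj]
    conv_lhs => rw [← h.sup, ri mp le_rfl]
  obtain ⟨j, hj⟩ := deg_eq_pow pX hξ
  obtain ⟨i, hi⟩ := (h.piP.relIndex (A := inertia θ)).eq_pow relIndex_ne_zero
  have n1 := (not_le_ker_iff hξ).1 nk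
  obtain ⟨χ', b, hχ', b1, b2, b3⟩ := exists_deg_over hξ.inflate
  rw [charDegree_inflate] at b2
  have cp := h.cop χ' hχ' fun l => (not_le_ker_iff hξ.inflate).2 (by rwa [charDegree_inflate]) (le_trans (by
    rw [← map_subtype_commutator, map_le_iff_le_comap] at l
    exact l) b3)
  obtain rfl : b = 1 := Nat.eq_one_of_dvd_coprimes cp (b2 ▸ dvd_mul_right _ _) b1
  rw [one_mul] at b2
  have := h.nd χ' χ hχ' hχ (b2 ▸ n1) (by
    refine Dvd.dvd.trans ?_ d1
    rw [b2, hj, hi]
    rw [hj, hi] at lt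
    exact pow_dvd_pow p ((Nat.pow_lt_pow_iff_right h.hp.one_lt).1 lt).le)
  rw [← this, b2] at d1
  exact absurd (Nat.le_of_dvd (hj ▸ pow_pos h.hp.pos j) d1) (not_le.2 lt)

end H21.Nd
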