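import Cfsg.Agent.H20.Pw0

/-! Overgroups of product action wreath products: an element fixing two slices pointwise acts on one coordinate
(`pN2`); the statement on `U × W` (`Ab`, `Ab.key`). -/

set_option autoImplicit false
set_option linter.unusedSectionVars false

namespace H21.Pw
open Equiv Function H20.Pw

section
variable {U W : Type} [Fintype U] [DecidableEq U] [Fintype W] [DecidableEq W] {H : Subgroup (Perm (U × W))}
  {g : Perm (U × W)} {a b c d e : U}

structure Ab (H : Subgroup (Perm (U × W))) : Prop where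
  six : 6 ≤ Fintype.card U
  ev : ∀ σ ∈ alternatingGroup U, σ.prodCongr (Equiv.refl W) ∈ H
  p3 : ∀ h ∈ H, (∀ p, (h p).2 = p.2) → ∃ σ : Perm U, ∀ p, h p = (σ p.1, p.2)
  p5 : ∀ a b c, ∀ z ∈ H, (∀ p, (z p).1 = p.1) → (∀ p, p.1 ≠ a → p.1 ≠ b → p.1 ≠ c → z p = p) → z = 1

theorem Ab.fresh (hH : Ab H) (a b c d e : U) : ∃ u, u ≠ a ∧ u ≠ b ∧ u ≠ c ∧ u ≠ d ∧ u ≠ e := by
  by_contra h
  have h1 : (Finset.univ : Finset U) ⊆ {a, b, c, d, e} := fun u _ => by
    simp only [Finset.mem_insert, Finset.mem_singleton]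
    by_contra k
    simp only [not_or] at k
    exact h ⟨u, k⟩
  have h2 := (Finset.card_le_card h1).trans Finset.card_le_five
  have := hH.six
  rw [Finset.card_univ] at h2
  omega

theorem Ab.ex_x (hH : Ab H) (ab : a ≠ b) (ac : a ≠ c) (bc : b ≠ c) : ∃ x ∈ H, (∀ w, x (a, w) = (b, w)) ∧
    (∀ w, x (b, w) = (c, w)) ∧ (∀ w, x (c, w) = (a, w)) ∧ ∀ u w, u ≠ a → u ≠ b → u ≠ c → x (u, w) = (u, w) := by
  refine ⟨_, hH.ev (swap a c * swap a b) (by simp [Perm.mem_alternatingGroup, ab, ac]), fun w => ?_, fun w => ?_,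
    fun w => ?_, fun u w h1 h2 h3 => ?_⟩
  · simp [swap_apply_of_ne_of_ne ab.symm bc]
  · simp
  · simp [swap_apply_of_ne_of_ne ac.symm bc.symm]
  · simp [swap_apply_of_ne_of_ne h1 h2, swap_apply_of_ne_of_ne h1 h3]

theorem Ab.ex_y (hH : Ab H) (hg : g ∈ H) (ab : a ≠ b) (ac : a ≠ c) (bc : b ≠ c) : ∃ y ∈ H,
    (∀ w, y (g (a, w)) = g (b, w)) ∧ (∀ w, y (g (b, w)) = g (c, w)) ∧ (∀ w, y (g (c, w)) = g (a, w)) ∧
    ∀ u w, u ≠ a → u ≠ b → u ≠ c → y (g (u, w)) = g (u, w) := by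
  obtain ⟨x, hx, h1, h2, h3, h4⟩ := hH.ex_x ab ac bc
  refine ⟨g * x * g⁻¹, mul_mem (mul_mem hg hx) (inv_mem hg), fun w => by simp [h1], fun w => by simp [h2],
    fun w => by simp [h3], fun u w k1 k2 k3 => by simp [h4 u w k1 k2 k3]⟩

theorem ne_of_fix (fd : ∀ w, g (d, w) = (d, w)) (ad : a ≠ d) (w : W) : (g (a, w)).1 ≠ d := fun h => by
  have : g (a, w) = g (d, (g (a, w)).2) := by rw [fd, ← h]
  exact ad (congrArg Prod.fst (g.injective this))

theorem Ab.ex_h (hH : Ab H) (hg : g ∈ H) (de : d ≠ e) (ad : a ≠ d) (ae : a ≠ e) (fd : ∀ w, g (d, w) = (d, w))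
    (fe : ∀ w, g (e, w) = (e, w)) : ∃ h ∈ H, (∀ w, h (g (a, w)) = (a, w)) ∧
    (∀ w w', g (a, w) = (a, w') → h (e, w) = (e, w')) ∧ (∀ w, (g (a, w)).1 ≠ a → h (e, w) = g (a, w)) ∧
    (∀ w', (∀ w, g (a, w) ≠ (a, w')) → h (a, w') = (e, w')) ∧
    ∀ u w', u ≠ e → u ≠ a → (∀ w, g (a, w) ≠ (u, w')) → h (u, w') = (u, w') := by
  obtain ⟨y, hy, y1, y2, y3, y4⟩ := hH.ex_y hg de ad.symm ae.symm
  obtain ⟨x, hx, x1, x2, x3, x4⟩ := hH.ex_x ad.symm de ae
  simp only [fd, fe] at y1 y2 y3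
  have y5 : ∀ u w', u ≠ d → u ≠ e → (∀ w, g (a, w) ≠ (u, w')) → y (u, w') = (u, w') := fun u w' h1 h2 h3 => by
    obtain ⟨⟨v, w⟩, hv⟩ := g.surjective (u, w')
    rw [← hv]
    refine y4 v w ?_ ?_ ?_ <;> rintro rfl
    · rw [fd] at hv; exact h1 (congrArg Prod.fst hv).symm
    · rw [fe] at hv; exact h2 (congrArg Prod.fst hv).symm
    · exact h3 w hv
  refine ⟨x * y, mul_mem hx hy, fun w => by simp [y3, x1], fun w w' h => by simp [y2, h, x2], fun w h => ?_,
    fun w' h => by simp [y5 a w' ad ae h, x2], fun u w' h1 h2 h3 => ?_⟩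
  · rw [Perm.mul_apply, y2]
    exact x4 _ _ (ne_of_fix fd ad w) h (ne_of_fix fe ae w)
  · by_cases ud : u = d
    · subst ud; simp [y1, x3]
    · rw [Perm.mul_apply, y5 u w' ud h1 h3]
      exact x4 _ _ ud h2 h1

theorem surj_of (h : ∀ w, (g (a, w)).1 = b) (w' : W) : ∃ w, g (a, w) = (b, w') := by
  have : Injective fun w => (g (a, w)).2 := fun w v k =>
    congrArg Prod.snd (g.injective (Prod.ext ((h w).trans (h v).symm) k))
  obtain ⟨w, hw⟩ := Finite.injective_iff_surjective.1 this w'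
  exact ⟨w, Prod.ext (h w) hw⟩

theorem Ab.key (hH : Ab H) (n : ℕ) : ∀ g ∈ H, ∀ d e a : U, d ≠ e → (∀ w, g (d, w) = (d, w)) →
    (∀ w, g (e, w) = (e, w)) → (Finset.univ.filter fun w => g (a, w) ≠ (a, w)).card < n →
    ∃ c, ∀ w, g (a, w) = (c, w) := by
  classical
  induction n with
  | zero => intro _ _ _ _ _ _ _ _ h; omega
  | succ n ih =>
  intro g hg d e a de fd fe hn
  by_cases ad : a = d
  · exact ⟨a, ad ▸ fd⟩
  by_cases ae : a = e
  · exact ⟨a, ae ▸ fe⟩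
  obtain ⟨h, hh, h1, h2, h3, h4, h5⟩ := hH.ex_h hg de ad ae fd fe
  by_cases hall : ∀ w, (g (a, w)).1 = a
  · have o : ∀ u w', u ≠ e → u ≠ a → h (u, w') = (u, w') := fun u w' k1 k2 =>
      h5 u w' k1 k2 fun w k => k2 ((congrArg Prod.fst k).symm.trans (hall w))
    have := hH.p5 e a a h hh (by
      rintro ⟨u, w⟩
      by_cases k1 : u = e
      · rw [k1, h2 w (g (a, w)).2 (Prod.ext (hall w) rfl)]
      by_cases k2 : u = a
      · obtain ⟨v, hv⟩ := surj_of hall w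
        rw [k2, ← hv, h1, hv]
      · rw [o u w k1 k2]) fun p k1 k2 _ => o _ _ k1 k2
    exact ⟨a, fun w => by simpa [this] using h1 w⟩
  push Not at hall
  obtain ⟨w0, ba⟩ := hall
  obtain ⟨b, hb⟩ : ∃ b, (g (a, w0)).1 = b := ⟨_, rfl⟩
  have bd : b ≠ d := hb ▸ ne_of_fix fd ad w0
  have be : b ≠ e := hb ▸ ne_of_fix fe ae w0
  rw [hb] at ba
  have hd : ∀ w, h (d, w) = (d, w) := fun w =>
    h5 d w de (Ne.symm ad) fun v k => ne_of_fix fd ad v (congrArg Prod.fst k)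
  have h6 : ∀ u w, u ≠ e → u ≠ a → h (u, w) = (u, w) ∨ (h (u, w)).1 = a := fun u w k1 k2 => by
    by_cases k : ∀ v, g (a, v) ≠ (u, w)
    · exact Or.inl (h5 u w k1 k2 k)
    · push Not at k
      obtain ⟨v, hv⟩ := k
      right; rw [← hv, h1]
  have allb : ∀ w, g (a, w) ≠ (a, w) → (g (a, w)).1 = b := by
    by_contra k
    push Not at k
    obtain ⟨w1, k1, k2⟩ := k
    obtain ⟨c, c1, c2, c3, c4, -⟩ := hH.fresh d e a b b
    obtain ⟨d', d1, d2, d3, d4, d5⟩ := hH.fresh d e a b c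
    obtain ⟨y, hy, y1, -, -, y4⟩ := hH.ex_y hh bd.symm c1.symm c4.symm
    obtain ⟨x, hx, -, -, x3, x4⟩ := hH.ex_x c1.symm bd.symm c4
    have fx : ∀ u w, u ≠ d → u ≠ a → u ≠ b → u ≠ c → (x * y) (u, w) = (u, w) := fun u w u1 u2 u3 u4 => by
      obtain ⟨⟨v, w'⟩, hv⟩ := h.surjective (u, w)
      have : y (u, w) = (u, w) := by
        rw [← hv]
        refine y4 v w' ?_ ?_ ?_ <;> rintro rfl
        · rw [hd] at hv; exact u1 (congrArg Prod.fst hv).symm
        · rcases h6 v w' be ba with k | k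
          · rw [k] at hv; exact u3 (congrArg Prod.fst hv).symm
          · rw [hv] at k; exact u2 k
        · rcases h6 v w' c2 c3 with k | k
          · rw [k] at hv; exact u4 (congrArg Prod.fst hv).symm
          · rw [hv] at k; exact u2 k
      rw [Perm.mul_apply, this, x4 u w u1 u4 u3]
    have m1 : ∀ w, (∀ v, g (a, v) ≠ (b, w)) → (x * y) (d, w) = (d, w) := fun w k => by
      rw [Perm.mul_apply, ← hd, y1, h5 b w be ba k, x3, hd]
    have m2 : (x * y) (d, (g (a, w0)).2) = (a, w0) := by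
      rw [Perm.mul_apply, ← hd, y1, ← hb, Prod.mk.eta, h1, x4 a w0 ad c3.symm ba.symm]
    have lt : (Finset.univ.filter fun w => (x * y) (d, w) ≠ (d, w)).card <
        (Finset.univ.filter fun w => g (a, w) ≠ (a, w)).card := by
      have s1 : (Finset.univ.filter fun w => (x * y) (d, w) ≠ (d, w)) ⊆
          (Finset.univ.filter fun v => (g (a, v)).1 = b).image fun v => (g (a, v)).2 := fun w hw => by
        by_contra k
        refine (Finset.mem_filter.1 hw).2 (m1 w fun v hv => k (Finset.mem_image.2 ⟨v, ?_, by rw [hv]⟩))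
        simp [hv]
      refine ((Finset.card_le_card s1).trans Finset.card_image_le).trans_lt (Finset.card_lt_card ⟨fun v hv => ?_,
        fun k => k2 (Finset.mem_filter.1 (k (Finset.mem_filter.2 ⟨Finset.mem_univ _, k1⟩))).2⟩)
      refine Finset.mem_filter.2 ⟨Finset.mem_univ _, fun k => ba ?_⟩
      rw [← (Finset.mem_filter.1 hv).2, k]
    obtain ⟨c', hc⟩ := ih _ (mul_mem hx hy) e d' d d2.symm (fun w => fx e w de.symm (Ne.symm ae) be.symm c2.symm)
      (fun w => fx d' w d1 d3 d4 d5) (by omega)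
    have ca : c' = a := (congrArg Prod.fst ((hc _).symm.trans m2))
    have al : ∀ w ∈ Finset.univ, (x * y) (d, w) ≠ (d, w) := fun w _ k =>
      ad (ca.symm.trans (congrArg Prod.fst ((hc w).symm.trans k)))
    rw [Finset.filter_true_of_mem al] at lt
    exact absurd (Finset.card_le_univ _) (not_le.2 lt)
  have q1 : ∀ w, g (a, w) ≠ (a, w) → h (e, w) = g (a, w) := fun w k => h3 w (allb w k ▸ ba)
  have q2 : ∀ w, g (a, w) ≠ (a, w) → h (a, w) = (e, w) := fun w k => h4 w fun v hv => by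
    by_cases l : g (a, v) = (a, v)
    · exact k (by rw [← (Prod.mk.inj (l.symm.trans hv)).2, l])
    · exact ba ((allb v l).symm.trans (congrArg Prod.fst hv))
  have q3 : ∀ u w, u ≠ e → u ≠ a → u ≠ b → h (u, w) = (u, w) := fun u w k1 k2 k3 => h5 u w k1 k2 fun v hv => by
    by_cases l : g (a, v) = (a, v)
    · exact k2 (congrArg Prod.fst (hv.symm.trans l))
    · exact k3 ((congrArg Prod.fst hv).symm.trans (allb v l))
  have w0Q : g (a, w0) ≠ (a, w0) := fun k => ba (hb.symm.trans (congrArg Prod.fst k))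
  have QW : ∀ w, g (a, w) ≠ (a, w) := by
    obtain ⟨e', e1, e2, e3, -, -⟩ := hH.fresh e a b b b
    obtain ⟨a', a1, a2, a3, a4, -⟩ := hH.fresh e a b e' b
    obtain ⟨t, ht, t1, t2, t3, t4⟩ : ∃ t ∈ H, (∀ w, t (e', w) = (e, w)) ∧ (∀ w, t (a', w) = (a, w)) ∧
        (∀ w, t (a, w) = (a', w)) ∧ ∀ w, t (b, w) = (b, w) := by
      refine ⟨_, hH.ev (swap e e' * swap a a') (by simp [Perm.mem_alternatingGroup, e1.symm, a2.symm]),
        fun w => ?_, fun w => ?_, fun w => ?_, fun w => ?_⟩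
      · simp [swap_apply_of_ne_of_ne e2 a4.symm]
      · simp [swap_apply_of_ne_of_ne ae e2.symm]
      · simp [swap_apply_of_ne_of_ne a1 a4]
      · simp [swap_apply_of_ne_of_ne ba a3.symm, swap_apply_of_ne_of_ne be e3.symm]
    obtain ⟨k, hk, k0⟩ : ∃ k ∈ H, ∀ p, k (t p) = t (h p) :=
      ⟨t * h * t⁻¹, mul_mem (mul_mem ht hh) (inv_mem ht), fun p => by simp⟩
    have k1 : ∀ w, k (e, w) = (e, w) := fun w => by rw [← t1, k0, q3 e' w e1 e2 e3]
    have k2 : ∀ w, k (a, w) = (a, w) := fun w => by rw [← t2, k0, q3 a' w a1 a2 a3]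
    have k3 : ∀ w, g (a, w) ≠ (a, w) → k (g (a, w)) = (a', w) := fun w l => by
      have : t (g (a, w)) = g (a, w) := by
        rw [show g (a, w) = (b, (g (a, w)).2) from Prod.ext (allb w l) rfl, t4]
      rw [← this, k0, h1, t3]
    have kk : ∀ p, (k * h * k⁻¹) (k p) = k (h p) := fun p => by simp
    obtain ⟨σ, hσ⟩ := hH.p3 (k * h * k⁻¹) (mul_mem (mul_mem hk hh) (inv_mem hk)) fun p => by
      obtain ⟨⟨u, w⟩, rfl⟩ := k.surjective p
      rw [kk]
      by_cases u1 : u = e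
      · by_cases l : g (a, w) = (a, w)
        · rw [u1, h2 w w l]
        · rw [u1, q1 w l, k3 w l, k1]
      by_cases u2 : u = a
      · by_cases l : g (a, w) = (a, w)
        · have := h1 w
          rw [l] at this
          rw [u2, this]
        · rw [u2, q2 w l, k1, k2]
      by_cases l : ∀ v, g (a, v) ≠ (u, w)
      · rw [h5 u w u1 u2 l]
      · push Not at l
        obtain ⟨v, hv⟩ := l
        have l : g (a, v) ≠ (a, v) := fun l => u2 (congrArg Prod.fst (hv.symm.trans l))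
        rw [← hv, h1, k2, k3 v l]
    have s : ∀ w, k (h (e, w)) = (σ e, w) := fun w => by
      have := hσ (k (e, w))
      rwa [kk, k1] at this
    intro w l
    have s1 := s w0
    have s2 := s w
    rw [q1 w0 w0Q, k3 w0 w0Q] at s1
    rw [h2 w w l, k1] at s2
    exact a1 ((congrArg Prod.fst s1).trans (congrArg Prod.fst s2).symm)
  obtain ⟨x, hx, x1, x2, x3, x4⟩ := hH.ex_x be ba (Ne.symm ae)
  have z1 : ∀ w, (x * h) (e, w) = (e, (g (a, w)).2) := fun w => by
    rw [Perm.mul_apply, q1 w (QW w), ← x1, ← allb w (QW w)]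
  have z2 : ∀ u w, u ≠ e → u ≠ a → u ≠ b → (x * h) (u, w) = (u, w) := fun u w k1 k2 k3 => by
    rw [Perm.mul_apply, q3 u w k1 k2 k3, x4 u w k3 k1 k2]
  have := hH.p5 e a b (x * h) (mul_mem hx hh) (by
    rintro ⟨u, w⟩
    by_cases k1 : u = e
    · rw [k1, z1]
    by_cases k2 : u = a
    · rw [k2, Perm.mul_apply, q2 w (QW w), x2]
    by_cases k3 : u = b
    · obtain ⟨v, hv⟩ := surj_of (fun w => allb w (QW w)) w
      rw [k3, ← hv, Perm.mul_apply, h1, x3, hv]
    · rw [z2 u w k1 k2 k3]) fun p k1 k2 k3 => z2 _ _ k1 k2 k3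
  refine ⟨b, fun w => Prod.ext (allb w (QW w)) ?_⟩
  have l := z1 w
  rw [this] at l
  exact (congrArg Prod.snd l).symm

theorem Ab.main (hH : Ab H) (hg : g ∈ H) (de : d ≠ e) (fd : ∀ w, g (d, w) = (d, w))
    (fe : ∀ w, g (e, w) = (e, w)) : ∃ σ : Perm U, ∀ p, g p = (σ p.1, p.2) :=
  hH.p3 g hg fun p => by
    obtain ⟨c, hc⟩ := hH.key _ g hg d e p.1 de fd fe (Nat.lt_succ_self _)
    have := congrArg Prod.snd (hc p.2)
    exact this

end

theorem pN2 (h3 : P3) (h5 : P5) : PN2 := by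
  intro ι U _ _ _ _ H hH six i d e de g hg fx
  classical
  let s := Equiv.funSplitAt i U
  have s1 : ∀ f, (s f).1 = f i := fun _ => rfl
  have s2 : ∀ f j, (s f).2 j = f j := fun _ _ => rfl
  have sc : ∀ (σ : Perm U) f, s (co i σ f) = (σ (s f).1, (s f).2) := fun σ f =>
    Prod.ext (by simp [s1]) (funext fun j => by rw [s2, co_ne j.2, s2])
  let φ := (s.permCongrHom).symm
  have hφ : ∀ z f, s (φ z f) = z (s f) := fun z f => by simp [φ, permCongrHom, permCongr_apply]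
  have A : Ab (H.comap φ.toMonoidHom) := ⟨six, fun σ hσ => by
      have : φ (σ.prodCongr (Equiv.refl _)) = co i σ := Equiv.ext fun f => s.injective (by rw [hφ, sc]; rfl)
      exact Subgroup.mem_comap.2 (this ▸ hH.ev i σ hσ), fun h hh k => by
      obtain ⟨σ, hσ⟩ := h3 ι U H hH i _ hh fun f j hj => by
        have := congrFun (k (s f)) ⟨j, hj⟩
        rwa [← hφ] at this
      refine ⟨σ, fun p => ?_⟩
      obtain ⟨f, rfl⟩ := s.surjective p
      rw [← hφ, ← sc, ← hσ]; rfl, fun a b c z hz k1 k2 => by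
      have := h5 ι U H hH i a b c _ hz (fun f => by
        have := k1 (s f)
        rwa [← hφ] at this) fun f l1 l2 l3 => s.injective ((hφ z f).trans (k2 _ l1 l2 l3))
      exact φ.map_eq_one_iff.1 this⟩
  obtain ⟨z, rfl⟩ := φ.surjective g
  have fz : ∀ u, u = d ∨ u = e → ∀ w, z (u, w) = (u, w) := fun u hu w => by
    obtain ⟨f, hf⟩ := s.surjective (u, w)
    rw [← hf, ← hφ, fx f (by rwa [← s1 f, hf])]
  obtain ⟨σ, hσ⟩ := A.main (g := z) hg de (fz d (Or.inl rfl)) (fz e (Or.inr rfl))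
  exact ⟨σ, Equiv.ext fun f => s.injective (by rw [hφ, sc, hσ])⟩

end H21.Pw
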