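import Mathlib
import Cfsg.Agent.H1.SylowIn
import Cfsg.Agent.H2.Conj

/-! A Sylow subgroup meeting a nonabelian simple normal subgroup: `normalizer_inf_ne_top`; conjugating a Sylow
subgroup into a subgroup of coprime index (`exists_sylow_le_conj`). -/

namespace H21

open Subgroup
open scoped Pointwise

variable {G : Type*} [Group G] [Finite G]

theorem not_isPGroup_of_simple {T : Type*} [Group T] [Finite T] [IsSimpleGroup T] (hna : ¬ IsMulCommutative T)
    {r : ℕ} [Fact r.Prime] : ¬ IsPGroup r T := fun h => by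
  have := h.isNilpotent
  exact hna ⟨⟨IsSimpleGroup.comm_iff_isSolvable.mpr inferInstance⟩⟩

theorem normalizer_inf_ne_top (T : Subgroup G) [T.Normal] (hT : IsSimpleGroup T) (hna : ¬ IsMulCommutative T)
    {r : ℕ} [Fact r.Prime] {R : Subgroup G} (hR : IsPGroup r R) (hR0 : R ⊓ T ≠ ⊥) :
    normalizer ((R ⊓ T : Subgroup G) : Set G) ≠ ⊤ := by
  intro h
  have : (R ⊓ T).Normal := normalizer_eq_top_iff.mp h
  rcases hT.eq_bot_or_eq_top_of_normal ((R ⊓ T).subgroupOf T) inferInstance with h1 | h1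
  · rw [subgroupOf_eq_bot, disjoint_iff, inf_assoc, inf_idem] at h1
    exact hR0 h1
  · rw [subgroupOf_eq_top] at h1
    exact not_isPGroup_of_simple hna (hR.to_le (h1.trans inf_le_left))

theorem exists_sylow_le_conj {r : ℕ} [Fact r.Prime] (R : Sylow r G) {M : Subgroup G} (hM : ¬ r ∣ M.index) :
    ∃ g : G, (R : Subgroup G) ≤ MulAut.conj g • M := by
  obtain ⟨P, hP⟩ := H1.exists_isSylowIn r M
  have h1 : H1.IsSylowIn r P ⊤ := hP.trans le_top (by rwa [relIndex_top_right])
  obtain ⟨g, -, hg⟩ := h1.exists_conj (H1.isSylowIn_top R)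
  exact ⟨g, hg ▸ H2.conj_mono g hP.le⟩

theorem isCoatom_conj {G : Type*} [Group G] {M : Subgroup G} (hM : IsCoatom M) (g : G) :
    IsCoatom (MulAut.conj g • M) :=
  (OrderIso.isCoatom_iff (MulAut.conj g).mapSubgroup M).mpr hM

theorem exists_conj_normalizer_sylow {r : ℕ} [Fact r.Prime] (R : Sylow r G) {M : Subgroup G} {g : G}
    (h1 : (R : Subgroup G) ≤ M) (h2 : (R : Subgroup G) ≤ MulAut.conj g • M) :
    ∃ n ∈ normalizer ((R : Subgroup G) : Set G), MulAut.conj g • M = MulAut.conj n • M := by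
  have hR := H1.isSylowIn_top R
  obtain ⟨k, hk, e⟩ := ((hR.conj g).of_le (H2.conj_mono g h1) (H2.conj_mono g le_top)).exists_conj
    (hR.of_le h2 le_top)
  refine ⟨k * g, by rwa [← H2.conj_eq_iff, ← H2.conj_conj], ?_⟩
  rw [← H2.conj_conj, H2.conj_eq_of_mem hk]

end H21
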