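import Cfsg.Agent.H21.BGrp

/-! Solvable groups whose abelian subgroups of equal order are conjugate have all subgroups of equal order
conjugate (`BQ.cj`); the same holds in groups with cyclic Sylow subgroups (`ZGrp.cj_all`). -/

set_option autoImplicit false

namespace H21
open Cfsg Subgroup H18 H1
universe u

variable {G : Type u} [Group G] [Finite G] {A B E H K M N S T V X : Subgroup G} {p q r : ℕ} {a m : G}

def CJ (H : Subgroup G) : Prop := ∀ A ≤ H, ∀ B ≤ H, Nat.card A = Nat.card B → ∃ g ∈ H, B = cj g A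

theorem cj_step (s : Solv H) (hp : p.Prime) (hN : N ⊴ H) (pN : PiGrp {p} N) (ih : CJ (H ⫽ N)) (a : A ≤ H) (b : B ≤ H)
    (e : Nat.card A = Nat.card B) (k : (N ≤ A ∧ N ≤ B) ∨ ¬ p ∣ Nat.card A) : ∃ g ∈ H, B = cj g A := by
  have lift : ∀ A ≤ H, ∀ B ≤ H, N ≤ A → N ≤ B → Nat.card A = Nat.card B → ∃ g ∈ H, B = cj g A := by
    intro A a B b c d e
    obtain ⟨z, hz, e⟩ := ih (A ⫽ N) (mim_mono a) (B ⫽ N) (mim_mono b) (Nat.eq_of_mul_eq_mul_left (card_pos' (H := N))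
      (by rw [card_quo_mul (hN.of_le c a), card_quo_mul (hN.of_le d b), e]))
    obtain ⟨g, hg, rfl⟩ := (mem_quo hN.norm).1 hz
    exact ⟨g, hg, quo_inj (hN.of_le d b) (hN.of_le (by simpa only [cj_eq_self (hN.norm hg)] using cj_mono (g := g) c)
      (cj_le_of_mem a hg)) (e.trans (mim_cj (hN.norm hg)).symm)⟩
  rcases k with k | k
  · exact lift A a B b k.1 k.2 e
  have pA : PiGrp {p}ᶜ A := (piNat_compl_iff hp).2 k
  have pB : PiGrp {p}ᶜ B := (piNat_compl_iff hp).2 (e ▸ k)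
  obtain ⟨g, hg, e⟩ := lift (A ⊔ N) (sup_le a hN.le) (B ⊔ N) (sup_le b hN.le) le_sup_right le_sup_right (by
    rw [(hN.nrm2' a).card_sup_of_disj (pA.inf_eq_bot' pN), (hN.nrm2' b).card_sup_of_disj (pB.inf_eq_bot' pN), e])
  obtain ⟨y, hy, e⟩ := H23.hall_conj (s.of_le (sup_le b hN.le))
    (e ▸ (hall_of_sup pA pN.compl_compl (hN.nrm2' a)).cj g) (hall_of_sup pB pN.compl_compl (hN.nrm2' b))
  exact ⟨y * g, mul_mem (sup_le b hN.le hy) hg, e.trans cj_cj⟩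

theorem zgrp_cj (n : ℕ) : ∀ {G : Type u} [Group G] [Finite G] {H : Subgroup G}, Nat.card H = n → ZGrp H → CJ H := by
  induction n using Nat.strong_induction_on with | _ n ih => ?_
  intro G _ _ H hn z A a B b e
  by_cases h : H = ⊥
  · exact ⟨1, one_mem _, by rw [cj_one, le_bot_iff.1 (a.trans h.le), le_bot_iff.1 (b.trans h.le)]⟩
  obtain ⟨N, NH, hN⟩ := exists_minNorm h le_N
  obtain ⟨p, hp, -, el⟩ := hN.exists_elem (z.solv.of_le NH)
  have nN : N ⊴ H := ⟨NH, hN.norm⟩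
  have c := el.card_eq_of_cyc hp (z.cyc NH (el.pi hp)) hN.ne_bot
  have k : ∀ A ≤ H, p ∣ Nat.card A → N ≤ A := fun A a d => by
    obtain ⟨X, x1, x2⟩ := cauchy_sub hp d
    have := z.cyc (sup_le (x1.trans a) NH) ((piGrp_of_prime hp x2).sup (el.pi hp) (nN.nrm2' (x1.trans a)))
    exact (this.eq_of_card_eq le_sup_right le_sup_left (c.trans x2.symm)).le.trans x1
  exact cj_step z.solv hp nN (el.pi hp) (ih _ (hn ▸ card_quo_lt nN hN.ne_bot) rfl z.mim) a b e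
    ((em _).imp_left fun d => ⟨k A a d, k B b (e ▸ d)⟩)

/-- normal abelian subgroups of `G / C(N)` are cyclic -/
theorem BQ.cyc_act (h : BQ (⊥ : Subgroup G)) (hp : p.Prime) (hN : N ⊴ ⊤) (el : Elem p N) (hT : T ⊴ ⊤)
    (d : ⁅T, T⁆ ≤ C(N)) : Cyc (T ⫽ C(N)) := by
  by_contra nc
  have nC : T ≤ N(C(N)) := le_top.trans (norm_C hN.norm)
  obtain ⟨V, VN, hV⟩ := exists_minNorm (K := N) (fun e => nc (by rw [quo_eq_bot (by simp [e])]; exact cyc_bot))
    (le_top.trans hN.norm : T ≤ _)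
  obtain ⟨a, ha, l⟩ := hV.exists_gen (el.abel.mono VN) (d.trans (C_anti VN))
  obtain ⟨v, hv, v1⟩ := exists_mem_ne_one' hV.ne_bot
  have y1 : ¬ T ⊓ C1(v) ≤ C(N) := fun k => nc (H3.cyc_quo_of_le_sup nC (nC ha) (by
    rw [← inf_eq_left.2 l, Nrm2.modular_left (Or.inl (zpowers_le.2 (norm_C hV.norm ha))) (zpowers_le.2 ha), sup_comm]
    exact sup_le_sup_right ((inf_le_inf_left _ (C_le_C1 hv)).trans k) _))
  obtain ⟨w, hw, y2⟩ : ∃ w ∈ N, ¬ T ⊓ C1(v) ≤ C1(w) := by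
    by_contra! k
    exact y1 (cent_symm fun w hw => le_C1_iff.1 (k w hw))
  have hv := VN hv
  have eq : ∀ u ∈ N, u ≠ 1 → ∀ u' ∈ N, u' ≠ 1 → T ⊓ C1(u) ≤ C1(u') → T ⊓ C1(u') ≤ C1(u) := fun u a b u' a' b' k => by
    obtain ⟨g, hg⟩ := h.ab abel_zpowers abel_zpowers ((el.card_zpowers hp a b).trans (el.card_zpowers hp a' b').symm)
    refine (eq_of_card_eq (le_inf inf_le_left k) ?_).ge.trans inf_le_right
    rw [← C_zpowers (x := u'), hg, ← cj_C, C_zpowers, ← cj_eq_self (hT.norm (mem_top g)), ← cj_inf, card_cj,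
      cj_eq_self (hT.norm (mem_top g))]
  have w1 : w ≠ 1 := fun e => y2 (by simp [e])
  have vw : v * w ≠ 1 := fun e => y2 (by rw [eq_inv_of_mul_eq_one_right e, C1_inv]; exact inf_le_right)
  have cen : ∀ u ∈ N, ∀ t ∈ T, T ⊓ C1(u) ≤ C1(u⁻¹ * (t * u * t⁻¹)) := fun u hu t ht =>
    have k : u ∈ C(T ⊓ C1(u)) := le_C1_iff.1 inf_le_right
    le_C1_iff.2 (mul_mem (inv_mem k) (conj_mem (norm_C (norm_of_der_le (le_inf der_le (d.trans (C_le_C1 hu)))
      inf_le_left)) ht k))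
  refine y2 fun y hy => ?_
  have := mem_C1.1 (eq _ (mul_mem hv hw) vw v hv v1 (fun t ht => ?_) hy)
  · rw [← mul_assoc, mem_C1.1 hy.2, mul_assoc, mul_assoc] at this
    exact mem_C1.2 (mul_left_cancel this)
  by_contra n
  have c1 := conj_mem hN.norm (mem_top t) hv
  have c2 := conj_mem hN.norm (mem_top t) hw
  have e : w⁻¹ * (t * w * t⁻¹) = (v⁻¹ * (t * v * t⁻¹))⁻¹ := by
    rw [comm_of_cent el.abel (inv_mem hw) c2, eq_inv_iff_mul_eq_one, comm_of_cent el.abel (mul_mem c2 (inv_mem hw))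
      (mul_mem (inv_mem hv) c1)]
    calc _ = v⁻¹ * (t * (v * w)) * t⁻¹ * w⁻¹ := by group
      _ = 1 := by rw [mem_C1.1 ht.2]; group
  refine y2 (eq w hw w1 v hv v1 ((le_inf inf_le_left ((cen w hw t ht.1).trans (e ▸ C1_inv.le))).trans
    (eq v hv v1 _ (mul_mem (inv_mem hv) c1) (fun k => n (mem_C1.2 ?_)) (cen v hv t ht.1))))
  rw [inv_mul_eq_one, eq_mul_inv_iff_mul_eq] at k
  exact k.symm

/-- all normal abelian subgroups cyclic -/
def NAC (G : Type u) [Group G] : Prop := ∀ T : Subgroup G, T ⊴ ⊤ → Abel T → Cyc T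

theorem BQ.nac (h : BQ (⊥ : Subgroup G)) (hp : p.Prime) (hN : N ⊴ ⊤) (el : Elem p N) : NAC (Coset C(N)) :=
  fun T hT a => by
  have := h.cyc_act hp hN el (T := qpre C(N) T) ⟨le_top, norm_mpre (norm_C hN.norm) (le_top.trans hT.norm)⟩
    ((abel_quo_iff qpre_le).1 (by rwa [quo_qpre]))
  rwa [quo_qpre] at this

theorem NAC.exists_min (c : NAC G) (h : O[{q}]((⊤ : Subgroup G)) ≠ ⊥) :
    ∃ N ≤ O[{q}]((⊤ : Subgroup G)), N ⊴ ⊤ ∧ Nat.card N = q := by
  obtain ⟨N, l, hN⟩ := exists_minNorm h pcore_nml.norm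
  have el := hN.elem_of_pi (pcore_pi.of_le l)
  exact ⟨N, l, ⟨le_top, hN.norm⟩, el.card_eq_of_cyc (pcore_pi.prime h) (c N ⟨le_top, hN.norm⟩ el.abel) hN.ne_bot⟩

theorem le_fit_of_cent (s : Solv (⊤ : Subgroup G)) (k : ∀ q, q.Prime → O[{q}]((⊤ : Subgroup G)) ≠ ⊥ →
    X ≤ C(O[{q}]((⊤ : Subgroup G)))) : X ≤ F((⊤ : Subgroup G)) :=
  (le_inf le_top (cent_symm (fit_le_of_pcores fun q hq _ => (em _).elim (fun e => e.le.trans bot_le)
    fun e => cent_symm (k q hq e)))).trans (cent_sub_Fitting s)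

omit [Finite G] in
theorem ord_four {j : ℕ} (e : orderOf a = 2 ^ (j + 2)) : orderOf (a ^ 2 ^ j) = 4 := by
  rw [orderOf_pow_of_dvd (by positivity) (e ▸ pow_dvd_pow 2 (by omega)), e, pow_add,
    Nat.mul_div_cancel_left _ (by positivity)]
  rfl

theorem BQ.mc_le (h : BQ (⊥ : Subgroup G)) (hN : N ⊴ ⊤) (c : Nat.card N = 2) {k : ℕ} (mc : H9.MC S k a)
    (hK : K ⊴ ⊤) (hm : m ∈ K) (o : orderOf m = 4) : S ≤ K := by
  have inv : ∀ y : G, y * y = 1 → y ∈ N := fun y e => zpowers_le.1 (h.le_of_pow Nat.prime_two hN c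
    (H3.elem_zpowers (by rw [sq, e])).pow)
  have out : ∀ g ∈ S, g ∉ zpowers a → g ∈ K := fun g a b =>
    h.mem hK hm (o.trans ((mc.orderOf_out a b).resolve_left fun e => b (two_uniq c (inv _ mc.u_mul_u) (inv g e.1)
      mc.u_ne_one (fun z => b (z ▸ one_mem _)) ▸ mc.u_mem_x)).2.symm)
  obtain ⟨g, x, y⟩ := mc.exists_out
  have : a ∈ K := (mul_mem_cancel_right (out g x y)).1 (out (a * g) (mul_mem mc.xmem x)
    fun k => y ((mul_mem_cancel_left (mem_zpowers a)).1 k))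
  exact fun y hy => (em (y ∈ zpowers a)).elim (fun k => zpowers_le.2 this k) (out y hy)

theorem BQ.mc_le' (h : BQ (⊥ : Subgroup G)) (hN : N ⊴ ⊤) (c : Nat.card N = 2) {k : ℕ} (mc : H9.MC S k a)
    (hK : K ⊴ ⊤) (pX : PiGrp {2} X) (l : X ≤ K) (n : ¬ X ≤ N) : S ≤ K := by
  obtain ⟨f, hf, fN⟩ := SetLike.not_le_iff_exists.1 n
  obtain ⟨j, hj⟩ := (pX.elt hf).eq_pow (orderOf_pos f).ne'
  rcases j with _ | _ | j
  · exact (fN (orderOf_eq_one_iff.1 hj ▸ one_mem N)).elim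
  · exact (fN (zpowers_le.1 (h.le_of_pow Nat.prime_two hN c
      (H3.elem_zpowers (orderOf_dvd_iff_pow_eq_one.1 hj.dvd)).pow))).elim
  · exact h.mc_le hN c mc hK (pow_mem (l hf) _) (ord_four hj)

theorem BQ.no_pelem (h : BQ (⊥ : Subgroup G)) (s : Solv (⊤ : Subgroup G)) (c : NAC G) (hr : r.Prime)
    (hE : PElem r 2 E ⊤) : False := by
  haveI := Fact.mk hr
  have o : O[{r}]((⊤ : Subgroup G)) = ⊥ := by_contra fun e => by
    obtain ⟨N, -, n, cN⟩ := c.exists_min e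
    exact (H3.lt_sq hr).not_ge (hE.card.ge.trans ((card_le (h.le_of_pow hr n cN hE.elem.pow)).trans cN.le))
  refine hE.ne_bot hr two_ne_zero (eq_bot_iff.2 ((le_pcore_of_le_fit (le_fit_of_cent s fun q hq e => ?_)
    (hE.pi hr)).trans o.le))
  have ne : r ≠ q := by rintro rfl; exact e o
  have pE := (hE.pi hr).p'_of_ne ne
  have nQ : O[{q}]((⊤ : Subgroup G)) ⊴ ⊤ := pcore_nml
  have pQ : PiGrp {q} O[{q}]((⊤ : Subgroup G)) := pcore_pi
  obtain ⟨N, -, n, cN⟩ := c.exists_min e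
  generalize O[{q}]((⊤ : Subgroup G)) = Q at *
  suffices ∃ a ∈ E, a ≠ 1 ∧ a ∈ C(Q) by
    obtain ⟨a, a1, a2, a3⟩ := this
    exact fun b hb => (em (b = 1)).elim (· ▸ one_mem _) fun b1 => h.mem ⟨le_top, norm_C nQ.norm⟩ a3
      ((hE.elem.orderOf hr a1 a2).trans (hE.elem.orderOf hr hb b1).symm)
  rcases h.cyc_or hq n cN pQ with k | ⟨rfl, k, x, mc⟩
  · obtain ⟨M, -, m1, m2⟩ := pQ.exists_index_p (bot_lt_iff_ne_bot.2 e)
    obtain ⟨a, a1, a2, a3⟩ := exists_cent1_not_le hE.abel (hE.not_cyc hr le_rfl) (le_top.trans nQ.norm)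
      (pE.coprime' pQ) (X := M) fun l => hq.ne_one (m2.symm.trans (relIndex_eq_one_iff.2 l))
    exact ⟨a, a1, a2, le_C1_iff.1 (((eq_or_eq_of_prime_relIndex (m2.symm ▸ hq) ((k.total pQ inf_le_left m1.le).resolve_left a3)
      inf_le_left).resolve_left fun e => a3 e.le).ge.trans inf_le_right)⟩
  · have := card_mul_relIndex' (A := C1(x)) (B := E)
    have l := H3.relIndex_C1_le (A := E) (x := x) (K := Q) fun a _ => by
      rw [commutatorElement_def]; exact mul_mem (conj_mem nQ.norm (mem_top a) mc.xmem) (inv_mem mc.xmem)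
    have c8 : Nat.card Q ≤ 8 := by
      rcases k with _ | k
      · exact mc.card_eq.le
      · exact (mc.x_notMem_sq (mc.commutator_eq ▸ h.mc_le n cN mc nQ.der (mc.commutator_eq ▸ npow_mem_zpowers _ _)
          (ord_four mc.orderOf_sq) mc.xmem)).elim
    obtain ⟨a, ha, a1⟩ := exists_mem_ne_one' (H := C1(x) ⊓ E) fun e => by
      rw [e, card_bot, one_mul, hE.card] at this
      have := hr.two_le
      have : 3 ≤ r := by omega
      nlinarith
    refine ⟨a, ha.2, a1, zpowers_le.1 (coprime_nil_faithful_cent_stab (le_top.trans nQ.norm)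
      ((PiGrp.of_le pE (zpowers_le.2 ha.2)).coprime' pQ) pQ.nil fun y hy => ?_)⟩
    rw [C_zpowers] at hy ⊢
    exact zpowers_le.2 (mem_C1_comm.1 ha.1) (mc.mem_zpowers_of_commute hy.1 (mem_zpowers x)
      (by rw [← sq]; exact mc.sq_ne_one) (mem_C.1 hy.2 x ⟨mc.xmem, mem_C1_comm.1 ha.1⟩).symm)

theorem BQ.nml_two (h : BQ (⊥ : Subgroup G)) (s : Solv (⊤ : Subgroup G)) (c : NAC G) (hX : PiGrp {2} X)
    (na : ¬ Abel X) : X ⊴ ⊤ := by
  have cy : ∀ q, q.Prime → q ≠ 2 → O[{q}]((⊤ : Subgroup G)) ≠ ⊥ → Cyc O[{q}]((⊤ : Subgroup G)) := fun q hq q2 e =>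
    let ⟨_, _, n, cN⟩ := c.exists_min e
    (h.cyc_or hq n cN pcore_pi).resolve_right fun k => q2 k.1
  have o : O[{2}]((⊤ : Subgroup G)) ≠ ⊥ := fun o => na (abel_iff_der.2 (eq_bot_iff.2 ((le_pcore_of_le_fit
    (le_fit_of_cent s fun q hq e => (cy q hq (by rintro rfl; exact e o) e).der_cent (le_top.trans pcore_nml.norm))
    (hX.of_le der_le)).trans o.le)))
  obtain ⟨N, NO, n, cN⟩ := c.exists_min o
  have hall := (bt s h n cN hX).resolve_left na
  obtain ⟨-, k, x, mc⟩ := (h.cyc_or Nat.prime_two n cN hX).resolve_left fun k => na k.abel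
  suffices X ≤ O[{2}]((⊤ : Subgroup G)) from le_antisymm hall.pcore_le this ▸ pcore_nml
  by_cases e : O[{2}]((⊤ : Subgroup G)) ≤ N
  swap
  · exact h.mc_le' n cN mc pcore_nml pcore_pi le_rfl e
  have cz : X ≤ C(N) := hX.cent_prime Nat.prime_two cN (le_top.trans n.norm)
  refine le_pcore_of_le_fit (le_fit_of_cent s fun q hq o => ?_) hX
  by_cases q2 : q = 2
  · exact cz.trans (C_anti (q2 ▸ e))
  have nQ : X ≤ N(O[{q}]((⊤ : Subgroup G))) := le_top.trans pcore_nml.norm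
  obtain ⟨a, ha, l⟩ := exists_gen_of_cyc_mim nQ ((cy q hq q2 o).cyc_mim_actf hq q2 pcore_pi)
  refine h.mc_le' n cN mc ⟨le_top, norm_C pcore_nml.norm⟩ hX.inf_left inf_le_right fun k => na ?_
  rw [mker_actf] at l
  rw [← inf_eq_left.2 l, Nrm2.modular_left (Or.inl (zpowers_le.2 (N_le_N_C (nQ ha)))) (zpowers_le.2 ha)]
  exact (abel_zpowers.sup (abel_of_prime (cN.symm ▸ Nat.prime_two)) ((zpowers_le.2 ha).trans cz)).mono
    (sup_le_sup_left k _)

theorem norm_zpowers_of_all (hp : p.Prime) (el : Elem p N) (hX : X ≤ N(N)) (l : V < N) (ne : V ≠ ⊥)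
    (h : ∀ W ≤ N, Nat.card W = Nat.card V → X ≤ N(W)) (ha : a ∈ N) : X ≤ N(zpowers a) := by
  by_cases a1 : a = 1
  · simp [a1]
  refine norm_iff.2 fun x hx b hb => ?_
  suffices x * a * x⁻¹ ∈ zpowers a by
    obtain ⟨i, rfl⟩ := mem_zpowers_iff.1 hb
    rw [← conj_zpow]; exact zpow_mem this i
  by_contra n
  have hw := conj_mem hX hx ha
  have P := (⟨zpowers_le.2 ha, el.of_le (zpowers_le.2 ha), by simpa using el.card_zpowers hp ha a1⟩ :
    PElem p 1 (zpowers a) N).sup_elt hp hw (el.pow _ hw) (C_anti (zpowers_le.2 ha) (el.abel hw)) n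
  obtain ⟨D, hD⟩ := el.exists_compl hp P.le
  obtain ⟨d, hd⟩ := ((el.pi hp).of_le l.le).card_eq_pow
  rcases d with _ | d
  · exact ne (card_eq_one.1 hd)
  have DN : D ≤ N := le_sup_right.trans hD.sup.le
  obtain ⟨D', d1, d2⟩ := exists_sub_card_pow hp (H3.pow_dvd_card_of_le (n := d) hp ((el.pi hp).of_le DN) (by
    have := H3.card_mul_le_of_lt (el.pi hp) l
    rw [← hD.sup, card_sup_of_cent hD.cent hD.inf, P.card, hd, pow_succ, mul_assoc, ← sq, mul_comm] at this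
    exact Nat.le_of_mul_le_mul_left this (pow_pos hp.pos 2)))
  have c : zpowers a ≤ C(D') := cent_mono el.abel (zpowers_le.2 ha) (d1.trans DN)
  have k : ∀ U, U ≤ zpowers a ⊔ zpowers (x * a * x⁻¹) → U ⊓ D' = ⊥ := fun U hU =>
    eq_bot_iff.2 ((inf_le_inf hU d1).trans hD.inf.le)
  have := conj_mem (h (zpowers a ⊔ D') (sup_le (zpowers_le.2 ha) (d1.trans DN)) (by
    rw [card_sup_of_cent c (k _ le_sup_left), el.card_zpowers hp ha a1, d2, hd, pow_succ'])) hx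
    (mem_sup_left (mem_zpowers a))
  exact n (by
    have e := Nrm2.modular_left (H := zpowers a ⊔ zpowers (x * a * x⁻¹)) (Or.inl (cent_norm c)) le_sup_left
    rw [k _ le_rfl, sup_bot_eq] at e
    exact e.le ⟨mem_sup_right (mem_zpowers _), this⟩)

theorem BQ.cj_aux (n : ℕ) : ∀ {G : Type u} [Group G] [Finite G], Nat.card (⊤ : Subgroup G) = n →
    BQ (⊥ : Subgroup G) → Solv (⊤ : Subgroup G) → CJ (⊤ : Subgroup G) := by
  induction n using Nat.strong_induction_on with | _ n ih => ?_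
  intro G _ _ hn h s A a B b e
  have tp : ∀ N : Subgroup G, (⊤ : Subgroup G) ⫽ N = ⊤ := fun N => top_le_iff.1 (quo_N.ge.trans (mim_mono le_top))
  by_cases k : ∃ p N, p.Prime ∧ N ⊴ ⊤ ∧ N ≠ ⊥ ∧ PiGrp {p} N ∧ ((N ≤ A ∧ N ≤ B) ∨ ¬ p ∣ Nat.card A)
  · obtain ⟨p, N, hp, nN, ne, pN, k⟩ := k
    refine cj_step s hp nN pN ?_ a b e k
    rw [tp]
    exact ih _ (hn ▸ tp N ▸ card_quo_lt nN ne) rfl (BQ.quo nN (h.solv nN s)) (tp N ▸ s.mim)
  -- every `O_p` is a Sylow subgroup, elementary, cut properly by `A`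
  have str : ∀ p, p.Prime → O[{p}]((⊤ : Subgroup G)) ≠ ⊥ → Elem p O[{p}]((⊤ : Subgroup G)) ∧
      Hall {p} O[{p}]((⊤ : Subgroup G)) ⊤ ∧ O[{p}]((⊤ : Subgroup G)) ⊓ A ≠ ⊥ ∧ ¬ O[{p}]((⊤ : Subgroup G)) ≤ A := by
    intro p hp o
    haveI := Fact.mk hp
    obtain ⟨N, l, hN⟩ := exists_minNorm o pcore_nml.norm
    have el := hN.elem_of_pi (pcore_pi.of_le l)
    have nN : N ⊴ ⊤ := ⟨le_top, hN.norm⟩
    have d : p ∣ Nat.card A := by_contra fun d => k ⟨p, N, hp, nN, hN.ne_bot, el.pi hp, Or.inr d⟩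
    obtain ⟨t, ht⟩ := (el.pi hp).card_eq_pow
    rcases t with _ | _ | t
    · exact (hN.ne_bot (card_eq_one.1 ht)).elim
    · have u : ∀ A : Subgroup G, p ∣ Nat.card A → N ≤ A := fun A d =>
        let ⟨X, x1, x2⟩ := cauchy_sub hp d
        (eq_of_card_eq (h.le_of_pow hp nN (by simpa using ht) fun _ hy => x2 ▸ pow_card_eq_one_of_mem hy)
          (by simpa [x2] using ht.symm)).ge.trans x1
      exact (k ⟨p, N, hp, nN, hN.ne_bot, el.pi hp, Or.inl ⟨u A d, u B (e ▸ d)⟩⟩).elim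
    haveI := nN.normal
    obtain ⟨P⟩ : Nonempty (Sylow p G) := inferInstance
    have hall : Hall {p} N ⊤ := (Cfsg.Agent.S3909.result (fun A B a b => h.ab (abel_of_comm a) (abel_of_comm b)) N).2 p _
      (by omega) ht (H3.elem_iff.1 el) P ▸ hall_sylow_top hp P
    rw [hall.eq_of_le l le_top pcore_pi]
    have hA := hall.nml_inf hN.norm a
    refine ⟨el, hall, hA.ne_bot_p hp d, fun l => k ⟨p, N, hp, nN, hN.ne_bot, el.pi hp, Or.inl ⟨l, ?_⟩⟩⟩
    exact (eq_of_card_ge inf_le_left (Nat.le_of_dvd card_pos' ((hall.nml_inf hN.norm b).dvd_of_piNat hall.pi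
      (e ▸ card_dvd l)))).ge.trans inf_le_right
  have nF : F((⊤ : Subgroup G)) ⊴ ⊤ := fit_nml
  have abF : Abel F((⊤ : Subgroup G)) := cent_symm (fit_le_of_pcores fun q hq _ => (em (O[{q}]((⊤ : Subgroup G)) = ⊥)).elim
    (fun e => e.le.trans bot_le) fun o => le_trans (cent_sup ((str q hq o).1.abel.trans (C_anti pcore_fit.le))
      (pcore_fit.ge.trans pcore_cent_compl)) (C_anti (fit_nil.pcore_sup (π := {q})).ge))
  have ne : ∀ q, q.Prime → q ∣ Nat.card F((⊤ : Subgroup G)) → O[{q}]((⊤ : Subgroup G)) ≠ ⊥ := fun q hq d =>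
    pcore_hall_fit.ne_bot_p hq d
  have hF : Hall (primes (Nat.card F((⊤ : Subgroup G)))) F((⊤ : Subgroup G)) ⊤ := hall_of_sylows le_top piNat_primes
    fun q hq d _ => ⟨_, (str q hq (ne q hq d.2)).2.1, pcore_le_fit⟩
  generalize hπ : primes (Nat.card F((⊤ : Subgroup G))) = π at hF
  have hA := hF.nml_inf nF.norm a
  have hB := hF.nml_inf nF.norm b
  obtain ⟨g, hg⟩ := h.ab (abF.mono inf_le_left) (abF.mono inf_le_left) (Nat.dvd_antisymm
    (hA.dvd_of_piNat hB.pi (e ▸ card_dvd hB.le)) (hB.dvd_of_piNat hA.pi (e ▸ card_dvd hA.le)))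
  have hB' : Hall π (F((⊤ : Subgroup G)) ⊓ A) (cj g B) := hg ▸ hB.cj g
  have n1 : A ≤ N(F((⊤ : Subgroup G)) ⊓ A) := norm_inf (le_top.trans nF.norm) le_N
  have n2 : cj g B ≤ N(F((⊤ : Subgroup G)) ⊓ A) := hg ▸ cj_norm_iff.2 (norm_inf (le_top.trans nF.norm) le_N)
  obtain ⟨H, hH⟩ := H23.hall_exists πᶜ (s.of_le le_top : Solv N(F((⊤ : Subgroup G)) ⊓ A))
  have z : ZGrp H := by
    refine zgrp_of_sylow fun r hr X hX => ?_
    haveI := Fact.mk hr
    have act : ∀ Y ≤ H, Y ≠ ⊥ → ∃ q, q.Prime ∧ O[{q}]((⊤ : Subgroup G)) ≠ ⊥ ∧ ¬ Y ≤ C(O[{q}]((⊤ : Subgroup G))) :=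
      fun Y a b => by
      by_contra! k
      exact b ((hF.pi.of_le (le_fit_of_cent s k)).eq_bot (hH.pi.of_le a))
    rcases H9.cyclic_or_mc_or_normal hX.pi.isPGroup with c | ⟨rfl, j, x, mc⟩ | ⟨E, -, hE⟩
    · exact c
    · obtain ⟨q, hq, o, nc⟩ := act ⁅X, X⁆ (der_le.trans hX.le) fun e => mc.not_comm (abel_iff_der.2 e).comm
      obtain ⟨el, -, v1, v2⟩ := str q hq o
      have nQ : O[{q}]((⊤ : Subgroup G)) ⊴ ⊤ := pcore_nml
      have QF : O[{q}]((⊤ : Subgroup G)) ≤ F((⊤ : Subgroup G)) := pcore_le_fit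
      generalize O[{q}]((⊤ : Subgroup G)) = Q at nc el v1 v2 nQ QF
      have nC : C(Q) ⊴ ⊤ := ⟨le_top, norm_C nQ.norm⟩
      have := (BQ.quo nC (h.solv nC s)).nml_two (tp _ ▸ s.mim) (h.nac hq nQ el) (X := X ⫽ C(Q)) hX.pi.mim
        fun k => nc ((abel_quo_iff (le_top.trans nC.norm)).1 k)
      have nX : X ⊔ C(Q) ⊴ ⊤ := nml_of_quo nC.norm le_top le_sup_right (by
        rwa [quo_sup_self (le_top.trans nC.norm), tp])
      refine (nc (cent_symm fun a ha => le_C1_iff.1 ((cyc_zpowers.der_cent (norm_zpowers_of_all hq el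
        (le_top.trans nQ.norm) (V := Q ⊓ A) (inf_lt_left.2 v2) v1 (fun W w1 w2 => ?_) ha)).trans C_zpowers.le))).elim
      obtain ⟨y, rfl⟩ := h.ab (el.abel.mono inf_le_left) (el.abel.mono w1) w2.symm
      refine le_sup_left.trans ((cj_eq_self (nX.norm (mem_top y))).ge.trans (cj_norm_iff.2 (sup_le ?_
        (cent_norm (C_anti inf_le_left)))))
      rw [← inf_eq_left.2 QF, inf_assoc]
      exact norm_inf (le_top.trans nQ.norm) (hX.le.trans hH.le)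
    · obtain ⟨q, hq, o, nc⟩ := act E (hE.le.trans hX.le) (hE.ne_bot hr two_ne_zero)
      have nQ : O[{q}]((⊤ : Subgroup G)) ⊴ ⊤ := pcore_nml
      have nC : C(O[{q}]((⊤ : Subgroup G))) ⊴ ⊤ := ⟨le_top, norm_C nQ.norm⟩
      refine ((BQ.quo nC (h.solv nC s)).no_pelem (tp _ ▸ s.mim) (h.nac hq nQ (str q hq o).1) hr
        (hE.mim (f := coset _) (le_top.trans nC.norm) (by_contra fun k => nc fun b hb => ?_)).top).elim
      obtain ⟨a, ha, a1⟩ := exists_mem_ne_one' k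
      rw [mker_coset] at ha
      exact (em (b = 1)).elim (· ▸ one_mem _) fun b1 => h.mem nC ha.2
        ((hE.elem.orderOf hr ha.1 a1).trans (hE.elem.orderOf hr hb b1).symm)
  obtain ⟨A₀, a0⟩ := hA.exists_compl n1
  obtain ⟨B₀, b0⟩ := hB'.exists_compl n2
  obtain ⟨u, hu, au⟩ := H23.hall_le_cj (s.of_le le_top) hH (a0.le.trans n1) a0.pi
  obtain ⟨v, hv, bv⟩ := H23.hall_le_cj (s.of_le le_top) hH (b0.le.trans n2) b0.pi
  obtain ⟨y, hy, e2⟩ := zgrp_cj _ rfl z _ au _ bv (by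
    rw [card_cj, card_cj]
    refine Nat.eq_of_mul_eq_mul_left (card_pos' (H := F((⊤ : Subgroup G)) ⊓ A)) ?_
    rw [hA.card_mul_compl a0, hB'.card_mul_compl b0, card_cj, e])
  refine ⟨g⁻¹ * (v⁻¹ * (y * u)), trivial, ?_⟩
  rw [cj_mul, eq_cj_iff, inv_inv, ← hB'.sup_compl b0, ← hA.sup_compl a0, cj_sup,
    cj_eq_self (mul_mem (inv_mem hv) (mul_mem (hH.le hy) hu)), cj_mul, cj_mul, ← e2, cj_inv_cj, hA.sup_compl a0]

theorem BQ.cj (h : BQ (⊥ : Subgroup G)) (s : Solv (⊤ : Subgroup G)) : CJ (⊤ : Subgroup G) := BQ.cj_aux _ rfl h s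

end H21
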