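import Cfsg.Agent.H9.MS3
/-! The law of Bray, Wilson and Wilson: the map `bw y : s ↦ [y⁻¹ s y, s⁻¹]` has an invariant set avoiding `1` (`BW`) in
`SL(2, F)`, `SL(3, 3)` and `Sz(q)`, hence in every nonsolvable group (`bw_of_not_solv`). -/
set_option autoImplicit false
set_option linter.unusedSectionVars false
open Cfsg H18 Subgroup H9 H9.MSi H13 H13.Sz Matrix
open scoped MatrixGroups

namespace H21
universe u
variable {G : Type*} [Group G]

def bw (y s : G) : G := (y⁻¹ * s * y) * (s⁻¹) * (y⁻¹ * s * y)⁻¹ * (s⁻¹)⁻¹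

/-- `P` is invariant under `bw y` -/
def BWP (y : G) (P : G → Prop) : Prop := (∃ x, P x) ∧ ∀ s, P s → P (bw y s)
def BW (G : Type*) [Group G] : Prop := ∃ (y : G) (P : G → Prop), BWP y P ∧ ¬ P 1

theorem map_bw {Y : Type*} [Group Y] (f : G →* Y) (y s : G) : f (bw y s) = bw (f y) (f s) := by simp [bw]
theorem BWP.map {Y : Type*} [Group Y] {y : G} {P : G → Prop} (h : BWP y P) (f : G →* Y) (hf : ∀ s, P s → f s ≠ 1) :
    BW Y := ⟨f y, fun g => ∃ s, P s ∧ f s = g, ⟨let ⟨x, hx⟩ := h.1; ⟨_, x, hx, rfl⟩,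
      fun _ ⟨s, hs, e⟩ => ⟨_, h.2 s hs, e ▸ map_bw f y s⟩⟩, fun ⟨s, hs, e⟩ => hf s hs e⟩
theorem BW.map {Y : Type*} [Group Y] (h : BW G) (f : G →* Y) (hf : Function.Injective f) : BW Y :=
  let ⟨_, _, h, h1⟩ := h; h.map f fun s hs e => h1 (hf (e.trans (map_one f).symm) ▸ hs)
theorem BW.comap {Y : Type*} [Group Y] (h : BW Y) (f : G →* Y) (hf : Function.Surjective f) : BW G := by
  obtain ⟨y, P, ⟨⟨x, hx⟩, h⟩, h1⟩ := h
  obtain ⟨y, rfl⟩ := hf y
  obtain ⟨x, rfl⟩ := hf x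
  exact ⟨y, fun g => P (f g), ⟨⟨x, hx⟩, fun s hs => by simpa only [map_bw] using h _ hs⟩, by simpa using h1⟩

section SL2
open H10 Polynomial
variable {F : Type*} [Field F]
/-- the invariant set in `SL(2, F)` -/
def P2 (s z D : F) : Prop := s ≠ 0 ∧ z ≠ 0 ∧ D ≠ 0 ∧ ∀ m, m ≠ 0 → m ^ 2 * D ≠ -2

theorem P2.step {s z D : F} (h : P2 s z D) : P2 (2 + z ^ 2 * D) (-(s * z * D)) ((z * (D + 2)) ^ 2 * D) :=
  have k : z * (D + 2) ≠ 0 := mul_ne_zero h.2.1 fun e => h.2.2.2 1 one_ne_zero (by linear_combination e)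
  ⟨fun e => h.2.2.2 z h.2.1 (by linear_combination e), neg_ne_zero.2 (mul_ne_zero (mul_ne_zero h.1 h.2.1) h.2.2.1),
    mul_ne_zero (pow_ne_zero 2 k) h.2.2.1, fun m hm e => h.2.2.2 _ (mul_ne_zero hm k) (by linear_combination e)⟩
theorem slMk_inv' {a b c d : F} (h : a * d - b * c = 1) :
    (slMk a b c d h)⁻¹ = slMk d (-b) (-c) a (by linear_combination h) :=
  inv_eq_of_mul_eq_one_right (by
    rw [slMk_mul, ← slMk_one, slMk_inj]; exact ⟨by linear_combination h, by ring, by ring, by linear_combination h⟩)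
theorem sq_add_sq [Fintype F] (h2 : ringChar F ≠ 2) (x : F) : ∃ a b : F, a ^ 2 + b ^ 2 = x := by
  obtain ⟨a, b, e⟩ := FiniteField.exists_root_sum_quadratic (f := X ^ 2) (g := X ^ 2 - C x) (degree_X_pow 2)
    (degree_X_pow_sub_C two_pos x) (FiniteField.odd_card_of_char_ne_two h2)
  exact ⟨a, b, by simp at e; linear_combination e⟩
theorem exists_nonsq [Fintype F] (h2 : ringChar F ≠ 2) {c : F} (c0 : c ≠ 0) (c1 : c ^ 2 ≠ 1) :
    ∃ s : F, s ≠ 0 ∧ ¬ IsSquare (2 - s ^ 2) := by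
  by_contra h
  push Not at h
  let A : F → Prop := fun x => IsSquare x ∧ (IsSquare (2 : F) ∨ x ≠ 0)
  have σ : ∀ x, A x → A (2 - x) := fun x ⟨⟨r, e⟩, o⟩ => ⟨by
    by_cases r0 : r = 0
    · simpa [e, r0] using o
    · simpa [e, pow_two] using h r r0, or_iff_not_imp_left.2 fun n e' => n ⟨r, by linear_combination e' + e⟩⟩
  have μ : ∀ m x, m ≠ 0 → A x → A (m ^ 2 * x) := fun m x m0 ⟨s, o⟩ =>
    ⟨(Even.isSquare_pow even_two m).mul s, o.imp_right (mul_ne_zero (pow_ne_zero 2 m0))⟩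
  have τ : ∀ m x, A x → A (x + m ^ 2 * (2 - 2 * c ^ 2)) := fun m x hx => by
    by_cases m0 : m = 0
    · simpa [m0] using hx
    convert μ m _ m0 (σ _ (μ c _ c0 (σ _ (μ (m * c)⁻¹ _ (by simp [m0, c0]) hx)))) using 1
    field_simp; ring
  obtain ⟨n, hn⟩ := FiniteField.exists_nonsquare h2
  have t : (2 : F) - 2 * c ^ 2 ≠ 0 := fun e => c1 (mul_left_cancel₀ (Ring.two_ne_zero h2) (by linear_combination -e))
  obtain ⟨a, b, e⟩ := sq_add_sq h2 ((n - 1) / (2 - 2 * c ^ 2))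
  refine hn (by
    convert (τ b _ (τ a 1 ⟨IsSquare.one, .inr one_ne_zero⟩)).1 using 1
    rw [add_assoc, ← add_mul, e, div_mul_cancel₀ _ t]; ring)
theorem exists_ne3 [Fintype F] (h : 4 ≤ Fintype.card F) (a b c : F) : ∃ x, x ≠ a ∧ x ≠ b ∧ x ≠ c := by
  classical
  obtain ⟨x, -, hx⟩ := Finset.exists_mem_notMem_of_card_lt_card (s := {a, b, c}) (t := Finset.univ)
    (Finset.card_le_three.trans_lt h)
  exact ⟨x, by simpa [not_or] using hx⟩
theorem bw_PSL2 [Fintype F] (h : 4 ≤ Fintype.card F) : BW PSL(2, F) := by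
  refine BWP.map (y := slMk 0 1 (-1) 0 (by simp)) (P := fun s => P2 (s 0 0 + s 1 1) (s 1 0 - s 0 1)
    ((s 0 0 + s 1 1) ^ 2 + (s 1 0 - s 0 1) ^ 2 - 4)) ⟨?_, fun s hs => ?_⟩ (π F) fun s hs e => hs.2.1 ?_
  · by_cases h2 : ringChar F = 2
    · have t : (2 : F) = 0 := by simpa [h2] using ringChar.Nat.cast_ringChar (R := F)
      obtain ⟨c, c0, c1, -⟩ := exists_ne3 h 0 1 1
      have z : c - -c⁻¹ ≠ 0 := fun e => c1 (sub_eq_zero.1 (pow_eq_zero_iff two_ne_zero |>.1 (by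
        field_simp at e; linear_combination e - c * t)))
      obtain ⟨s, s0, s1, -⟩ := exists_ne3 h 0 (c - -c⁻¹) 0
      have D : (s + 0) ^ 2 + (c - -c⁻¹) ^ 2 - 4 ≠ 0 := fun e => s1 (sub_eq_zero.1 (pow_eq_zero_iff two_ne_zero |>.1 (by
        linear_combination e + (2 - s * c - s * c⁻¹) * t)))
      exact ⟨slMk s (-c⁻¹) c 0 (by simp [c0]), by simpa using s0, z, D, fun m hm e =>
        mul_ne_zero (pow_ne_zero 2 hm) D (e.trans (by simp [t]))⟩
    obtain ⟨c, c0, c1, c2⟩ := exists_ne3 h 0 1 (-1)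
    obtain ⟨s, s0, hs⟩ := exists_nonsq h2 c0 fun e => (mul_self_eq_one_iff.1 (pow_two c ▸ e)).elim c1 c2
    obtain ⟨X, Y, e⟩ := sq_add_sq h2 (2 * s ^ 2 - 4)
    have t := Ring.two_ne_zero h2
    refine ⟨slMk ((s + X) / 2) ((Y - s) / 2) ((Y + s) / 2) ((s - X) / 2) (by field_simp; linear_combination -e), ?_⟩
    change P2 ((s + X) / 2 + (s - X) / 2) ((Y + s) / 2 - (Y - s) / 2) (((s + X) / 2 + (s - X) / 2) ^ 2 +
      ((Y + s) / 2 - (Y - s) / 2) ^ 2 - 4)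
    rw [show (s + X) / 2 + (s - X) / 2 = s by field_simp; ring, show (Y + s) / 2 - (Y - s) / 2 = s by field_simp; ring]
    exact ⟨s0, s0, fun e => hs ⟨0, mul_left_cancel₀ t (by linear_combination -e)⟩, fun m hm e => hs ⟨m⁻¹,
      mul_left_cancel₀ (mul_ne_zero t (pow_ne_zero 2 hm)) (by
        linear_combination -e - 2 * (m * m⁻¹ + 1) * mul_inv_cancel₀ hm)⟩⟩
  · obtain ⟨a, b, c, d, hd, rfl⟩ := slMk_surj s
    have e1 : bw (slMk 0 1 (-1) 0 (by simp)) (slMk a b c d hd) 0 0 + bw (slMk 0 1 (-1) 0 (by simp)) (slMk a b c d hd) 1 1 =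
        2 + (c - b) ^ 2 * ((a + d) ^ 2 + (c - b) ^ 2 - 4) := by
      simp only [bw, slMk_inv', slMk_mul]
      simp only [slMk, SpecialLinearGroup.coe_mk, of_apply, cons_val', cons_val_zero, cons_val_one, cons_val_fin_one]
      linear_combination (2 * (a * d - b * c) + 2 - 4 * (c - b) ^ 2) * hd
    have e2 : bw (slMk 0 1 (-1) 0 (by simp)) (slMk a b c d hd) 1 0 - bw (slMk 0 1 (-1) 0 (by simp)) (slMk a b c d hd) 0 1 =
        -((a + d) * (c - b) * ((a + d) ^ 2 + (c - b) ^ 2 - 4)) := by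
      simp only [bw, slMk_inv', slMk_mul]
      simp only [slMk, SpecialLinearGroup.coe_mk, of_apply, cons_val', cons_val_zero, cons_val_one, cons_val_fin_one]
      linear_combination (4 * (a + d) * (c - b)) * hd
    rw [e1, e2]
    convert P2.step (s := a + d) (z := c - b) (D := (a + d) ^ 2 + (c - b) ^ 2 - 4) hs using 1
    ring
  · rcases (π_eq_one_iff s).1 e with rfl | rfl <;> simp
end SL2

theorem bw_SL33 : BW SL(3, ZMod 3) := by
  obtain ⟨y, a, b, c, h1, h2, h3, h⟩ : ∃ y a b c : SL(3, ZMod 3), bw y a = b ∧ bw y b = c ∧ bw y c = a ∧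
      1 ≠ a ∧ 1 ≠ b ∧ 1 ≠ c := ⟨⟨!![1, 0, 0; 0, 2, 2; 0, 1, 0], by decide⟩, ⟨!![1, 1, 0; 1, 1, 1; 0, 2, 0], by decide⟩,
    ⟨!![0, 0, 1; 2, 1, 2; 1, 1, 2], by decide⟩, ⟨!![2, 1, 0; 2, 2, 2; 1, 1, 0], by decide⟩,
    Subtype.ext (by decide +kernel), Subtype.ext (by decide +kernel), Subtype.ext (by decide +kernel), fun e => absurd (congrArg Subtype.val e) (by decide),
    fun e => absurd (congrArg Subtype.val e) (by decide), fun e => absurd (congrArg Subtype.val e) (by decide)⟩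
  exact ⟨y, fun s => s = a ∨ s = b ∨ s = c, ⟨⟨a, .inl rfl⟩, by rintro _ (rfl | rfl | rfl) <;> simp [*]⟩, by tauto⟩

section Sz
variable {F : Type*} [Field F] [Fintype F] {m : ℕ} [hF : IsSz F m]
theorem bw_w (k : Fˣ) (c d : F) : bw (u m 0 1) (w F m * (h m k * u m c d)) =
    u m 0 1 * (w F m * u m 0 (th m (k : F) * k ^ 2) * w F m) * u m 0 1 * (u m c d)⁻¹ *
      (w F m * u m 0 (th m (k : F) * k ^ 2) * w F m) * u m c d := by
  have y : (u m 0 (1 : F))⁻¹ = u m 0 1 := by simp [u_inv]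
  have cm : ∀ g, u m c d * (u m 0 1 * ((u m c d)⁻¹ * g)) = u m 0 1 * g := fun g => by
    rw [← mul_assoc, show u m c d * u m 0 1 = u m 0 1 * u m c d by simp [u_mul_u, add_comm], mul_assoc,
      mul_inv_cancel_left]
  have e := h_conj_u (m := m) k 0 1
  rw [mul_zero, mul_one] at e
  have e2 : ∀ g, (h m k)⁻¹ * (w F m * g) = w F m * (h m k * g) := fun g => by
    rw [← mul_assoc, h_inv, ← w_mul_h, mul_assoc]
  rw [← e, bw]
  simp only [_root_.mul_inv_rev, inv_inv, w_inv, y, mul_assoc, cm, e2]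
theorem mat_bw (k : Fˣ) (c d : F) : ∃ M, mat (bw (u m 0 1) (w F m * (h m k * u m c d))) = M ∧
    M 3 0 = (k * th m (k : F)) ^ 4 * nf m c (d + 1) + k ^ 4 * th m (k : F) ^ 2 * th m c * (1 + th m (k : F) * c) ∧
    M.trace = ((k * th m (k : F)) ^ 2 * nf m c (d + 1)) ^ 2 ∧
    M 2 0 + M 3 1 = k ^ 4 * th m (k : F) ^ 3 * c * (c * th m c + th m (k : F) * nf m c (d + 1)) ∧
    M 1 0 + M 3 2 + M 3 0 = k ^ 4 * th m (k : F) ^ 2 * (th m c * (1 + th m (k : F) * (1 + th m d + c)) +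
      th m (k : F) ^ 2 * (d + c * th m c) * nf m c (d + 1)) := by
  rw [bw_w]
  have e : th m (th m (k : F) * k ^ 2) = k ^ 2 * th m (k : F) ^ 2 := by simp
  generalize hβ : th m (k : F) * k ^ 2 = β at e
  have e1 : mat (w F m * u m 0 β * w F m) = !![1, 0, 0, 0; 0, 1, 0, 0; β, 0, 1, 0; th m β, β, 0, 1] := by
    ext i j
    fin_cases i <;> fin_cases j <;> simp [uMat, nf, suzukiForm, mul_apply, Fin.sum_univ_four]
  generalize w F m * u m 0 β * w F m = x at e1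
  refine ⟨_, rfl, ?_⟩
  simp only [mat_mul, e1, u_inv, mat_u, e]
  subst hβ
  simp [uMat, nf, mul_apply, Fin.sum_univ_four, trace]
  refine ⟨?_, ?_, ?_, ?_⟩ <;> grind
theorem fld1 {k c d : F} (k0 : k ≠ 0) (e : (k * th m k) ^ 4 * nf m c (d + 1) + k ^ 4 * th m k ^ 2 * th m c *
    (1 + th m k * c) = 0) : c = 0 ∧ d = 1 := by
  have K0 : th m k ≠ 0 := mt th_eq_zero.1 k0
  have := nf_eq_zero (m := m) (x := c) (y := d + 1 + c * k⁻¹ ^ 2 + th m c * (th m k)⁻¹) (mul_left_cancel₀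
    (pow_ne_zero 4 (mul_ne_zero k0 K0)) (by
      rw [mul_zero, ← e]
      simp only [nf, map_add, map_mul, map_pow, map_inv₀, th_th, map_one]
      grind))
  exact ⟨this.1, CharTwo.add_eq_zero.1 (by simpa [this.1] using this.2)⟩
theorem fld2 {k c d : F} (k0 : k ≠ 0) (n : ¬ (c = 0 ∧ d = 1))
    (e3 : k ^ 4 * th m k ^ 3 * c * (c * th m c + th m k * nf m c (d + 1)) = 0)
    (e4 : k ^ 4 * th m k ^ 2 * (th m c * (1 + th m k * (1 + th m d + c)) +
      th m k ^ 2 * (d + c * th m c) * nf m c (d + 1)) = 0) : k * th m c + k * th m k * nf m c d = 0 := by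
  have K0 : th m k ≠ 0 := mt th_eq_zero.1 k0
  have n1 : nf m c (d + 1) ≠ 0 := fun e => n ⟨(nf_eq_zero e).1, CharTwo.add_eq_zero.1 (nf_eq_zero e).2⟩
  by_cases c0 : c = 0
  · subst c0
    obtain rfl : d = 0 := by simpa [k0, K0, n1] using e4
    simp
  have C0 : th m c ≠ 0 := mt th_eq_zero.1 c0
  replace e3 := (mul_eq_zero.1 e3).resolve_left (by simp [k0, K0, c0])
  replace e4 := (mul_eq_zero.1 e4).resolve_left (by simp [k0, K0])
  simp only [nf, map_add, map_one] at e3 e4 ⊢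
  obtain rfl : c = 1 := eq_one_of_mul_th (m := m) (mul_left_cancel₀ C0 (by grind))
  simp only [map_one] at e3 ⊢
  grind
theorem inv_entries {g : Cfsg.Sz F m} (hg : g * g = 1) : mat g 2 0 = mat g 3 1 ∧ mat g 1 0 = mat g 3 2 := by
  have e : (mat g)ᵀ * suzukiForm F = suzukiForm F * mat g := by
    conv_rhs => rw [← preserves_form g, mul_assoc, ← mat_mul, hg, mat_one, mul_one]
  have h1 := congrFun (congrFun e 0) 1
  have h2 := congrFun (congrFun e 0) 2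
  simp [suzukiForm, mul_apply, Fin.sum_univ_four] at h1 h2
  exact ⟨h1.trans (by rfl), h2.trans (by rfl)⟩
theorem bw_Sz : BW (Cfsg.Sz F m) := by
  have yy : u m 0 (1 : F) * u m 0 1 = 1 := by simp [u_mul_u, CharTwo.add_self_eq_zero]
  refine ⟨u m 0 1, fun g => g ∉ B F m ∧ (mat g).trace ≠ 0 ∧ g * u m 0 1 * (g * u m 0 1) ≠ 1, ⟨?_, fun s hs => ?_⟩,
    fun h => h.1 (one_mem _)⟩
  · obtain ⟨d, d0, d1, -⟩ := exists_ne3 ((by norm_num : 4 ≤ 8).trans (eight_le_card (F := F))) 0 1 1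
    refine ⟨w F m * u m 0 d, fun h => w_not_mem_B ((mul_mem_cancel_right (U_le_B (u_mem_U 0 d))).1 h), ?_, fun e => d1 ?_⟩
    · simpa [uMat, nf, suzukiForm, mul_apply, Fin.sum_univ_four, trace, th_eq_zero] using d0
    · have := (inv_entries e).2
      simp [uMat, nf, suzukiForm, mul_apply, Fin.sum_univ_four] at this
      grind
  have cj : ∀ (a b : F) (g : Cfsg.Sz F m), (g ∉ B F m ∧ (mat g).trace ≠ 0 ∧ g * u m 0 1 * (g * u m 0 1) ≠ 1) →
      u m a b * g * (u m a b)⁻¹ ∉ B F m ∧ (mat (u m a b * g * (u m a b)⁻¹)).trace ≠ 0 ∧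
      u m a b * g * (u m a b)⁻¹ * u m 0 1 * (u m a b * g * (u m a b)⁻¹ * u m 0 1) ≠ 1 := fun a b g h => by
    have m1 := U_le_B (u_mem_U (m := m) a b)
    refine ⟨fun e => h.1 ((mul_mem_cancel_left m1).1 ((mul_mem_cancel_right (inv_mem m1)).1 e)), ?_, fun e => h.2.2 ?_⟩
    · rw [mat_mul, trace_mul_comm, ← mat_mul, inv_mul_cancel_left]; exact h.2.1
    · have c : (u m a b)⁻¹ * u m 0 1 = u m 0 1 * (u m a b)⁻¹ := by simp [u_inv, u_mul_u, add_comm]
      rw [mul_assoc _ _ (u m 0 1), c, ← mul_assoc (u m a b * g), mul_assoc (u m a b) g, conj_mul] at e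
      simpa using e
  obtain ⟨a, b, k, c, d, rfl⟩ : ∃ a b k c d, s = u m a b * (w F m * (h m k * u m c d)) * (u m a b)⁻¹ := by
    obtain ⟨a, b, k, e⟩ | ⟨a, b, c, d, k, rfl⟩ := bruhat s
    · exact absurd (mem_B_iff.2 ⟨a, b, k, e⟩) hs.1
    obtain ⟨c', d', k', e⟩ := mem_B_iff.1 (inv_mem (mul_mem (mem_B_iff.2 ⟨c, d, k, rfl⟩) (U_le_B (u_mem_U a b))))
    refine ⟨a, b, k'⁻¹, c', d' + th m c' * c', ?_⟩
    rw [← h_inv, ← u_inv, ← _root_.mul_inv_rev, ← e, inv_inv]; group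
  have hs' := cj a (b + th m a * a) _ hs
  rw [← u_inv, show ∀ x y : Cfsg.Sz F m, x⁻¹ * (x * y * x⁻¹) * x⁻¹⁻¹ = y from fun x y => by group] at hs'
  have c0 : u m a b * u m 0 1 * (u m a b)⁻¹ = u m 0 1 := by
    rw [mul_inv_eq_iff_eq_mul]; simp [u_mul_u, add_comm]
  have := map_bw (MulAut.conj (u m a b)).toMonoidHom (u m 0 1) (w F m * (h m k * u m c d))
  simp only [MulEquiv.coe_toMonoidHom, MulAut.conj_apply, c0] at this
  rw [← this]
  refine cj a b _ ?_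
  obtain ⟨M, e, e1, e2, e3, e4⟩ := mat_bw (m := m) k c d
  have k0 := k.ne_zero
  have K0 : th m (k : F) ≠ 0 := mt th_eq_zero.1 k0
  have n : ¬ (c = 0 ∧ d = 1) := fun ⟨h1, h2⟩ => hs'.2.2 (by
    rw [h1, h2, mul_assoc (w F m), mul_assoc (h m k), yy, mul_one, ← mul_assoc, w_h_w, ← h_inv, inv_mul_cancel])
  have n1 : nf m c (d + 1) ≠ 0 := fun e => n ⟨(nf_eq_zero e).1, CharTwo.add_eq_zero.1 (nf_eq_zero e).2⟩
  refine ⟨fun hB => ?_, by rw [e, e2]; simp [k0, K0, n1], fun hi => hs'.2.1 ?_⟩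
  · obtain ⟨a, b, t, e'⟩ := mem_B_iff.1 hB
    have : M 3 0 = 0 := by rw [← e, e']; simp [uMat, hMat, mul_apply, Fin.sum_univ_four]
    exact n (fld1 k0 (e1 ▸ this))
  have := inv_entries hi
  rw [mat_mul, e] at this
  simp [uMat, nf, mul_apply, Fin.sum_univ_four] at this
  simp [uMat, hMat, suzukiForm, mul_apply, Fin.sum_univ_four, trace]
  exact fld2 k0 n (by rw [← e3, this.1, CharTwo.add_self_eq_zero]) (by
    rw [← e4, this.2, add_right_comm, add_comm (M 3 0), add_assoc, add_comm (M 3 0), CharTwo.add_self_eq_zero])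
end Sz

theorem ML.bw (h : ML G) : BW G := by
  rcases h with ⟨F, _, _, h, ⟨e⟩⟩ | ⟨⟨e⟩⟩ | h
  · exact (bw_PSL2 h).map e.symm.toMonoidHom e.symm.injective
  · obtain ⟨f⟩ := iso33
    exact bw_SL33.map (f.trans e.symm).toMonoidHom (f.trans e.symm).injective
  · obtain ⟨F, _, _, m, _, ⟨e⟩⟩ := H27.isoSuzuki_iff.1 h
    exact bw_Sz.map e.symm.toMonoidHom e.symm.injective
theorem bw_of_not_solv [MS.{u}] {G : Type u} [Group G] [Finite G] (h : ¬ Group.IsSolvable G) : BW G :=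
  let ⟨D, N, _, _, h⟩ := exists_ML h
  ((ML.bw h).comap (QuotientGroup.mk' N) (QuotientGroup.mk'_surjective N)).map D.subtype D.subtype_injective
theorem s3936 [MS.{u}] {G : Type u} [Group G] [Finite G] : Group.IsSolvable G ↔ ∃ n : ℕ, ∀ x y : G,
    @Nat.rec (fun _ => G) x (fun _ s => bw y s) n = 1 := by
  refine ⟨fun ⟨n, hn⟩ => ⟨n, fun x y => mem_bot.1 (hn ▸ ?_)⟩, fun ⟨n, hn⟩ => by_contra fun h => ?_⟩
  · clear hn
    induction n with
    | zero => exact mem_top _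
    | succ n ih => exact commutator_mem_commutator (by
        simpa using (derivedSeries_normal G n).conj_mem _ ih y⁻¹) (inv_mem ih)
  obtain ⟨y, P, ⟨⟨x, hx⟩, h⟩, h1⟩ := bw_of_not_solv h
  refine h1 (hn x y ▸ ?_)
  clear hn
  induction n with
  | zero => exact hx
  | succ n ih => exact h _ ih

end H21
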