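import Cfsg.Agent.H21.CMax
import Cfsg.Agent.H13.CitJ
import Cfsg.Agent.H13.SzModel
import Cfsg.Agent.H23.BSW
import Cfsg.Agent.H9.ZStarMain
import Cfsg.Agent.H16.FC

/-! Groups all of whose element centralizers are TI-subgroups (`TC G`): `TC.cc`, `TC.compl`, `s4064`;
`nil_of_engel`, `Z_ne_bot_of_semireg` (a Frobenius complement has nontrivial centre). -/

set_option autoImplicit false
set_option linter.unusedSectionVars false

namespace H21
open Cfsg Subgroup H18 H1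
open scoped commutatorElement MatrixGroups

variable {G : Type*} [Group G] [Finite G] {A B H K L M N P Q R T : Subgroup G} {p q r : ℕ} {x y z g : G}

theorem mul_self_of_two (h : orderOf x = 2) : x * x = 1 := by rw [← sq, ← h, pow_orderOf_eq_one]

theorem nil_of_engel (h : ∀ y ∈ H, H ≤ N(C1(y))) : Nil H := nil_of_le_fit (H := H) fun y hy =>
  le_fit (nml_inf_of_norm (h y hy)).Z abel_Z.nil ⟨⟨hy, C1_self⟩, le_C1_iff.1 inf_le_right⟩

theorem Z_ne_bot_of_semireg (hn : R ≤ N(K)) (hK : K ≠ ⊥) (hR : R ≠ ⊥) (h : Semireg K R) : Z(R) ≠ ⊥ := by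
  have h1 : Nat.card R ≠ 1 := (one_lt_card hR).ne'
  have hp := Nat.minFac_prime h1
  by_cases ho : Odd (Nat.card R)
  · obtain ⟨X, x1, x2⟩ := cauchy_sub hp (Nat.minFac_dvd _)
    have n := prime_odd_regular_normal (x2 ▸ hp) ho x1 hn hK h
    have : C(X).relIndex R = 1 := Nat.eq_one_iff_not_exists_prime_dvd.2 fun q hq hd => by
      have a := Nat.minFac_le_of_dvd hq.two_le (hd.trans relIndex_dvd)
      have b := Nat.le_of_dvd (by have := hp.two_le; omega) (hd.trans (prime_relIndex_C_dvd hp x2 n))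
      have := hp.two_le
      omega
    exact fun e => ne_bot_of_prime (x2 ▸ hp) (eq_bot_iff.2 (e ▸ le_inf x1 (cent_symm (relIndex_eq_one_iff.1 this))))
  · obtain ⟨t, t1, t2⟩ := cauchy Nat.prime_two (even_iff_two_dvd.1 (Nat.not_odd_iff_even.1 ho))
    have fc : H16.FC R := H16.fc_of_semireg R.subtype (fun g => hn g.2) hK fun g e => h g g.2 (by simpa using e)
    refine ne_bot_of_mem (x := t) ⟨t1, mem_C.2 fun g hg => congrArg Subtype.val
      (fc.invol_comm (z := ⟨t, t1⟩) (Subtype.ext (mul_self_of_two t2)) ⟨g, hg⟩)⟩ ?_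
    rintro rfl
    simp at t2

/-- element centralizers are TI-subgroups -/
def TC (G : Type*) [Group G] : Prop := ∀ x : G, IsTISubset (C1(x) : Set G)

namespace TC
variable (h : TC G)
include h

theorem mem_N (hy : y ∈ C1(x)) (y1 : y ≠ 1) (e : g * y * g⁻¹ ∈ C1(x)) : g ∈ N(C1(x)) :=
  by_contra fun hg => y1 (h x g hg y hy e)

theorem le_N' (z1 : z ≠ 1) (hH : H ≤ C1(z)) (hy : y ∈ H) : H ≤ N(C1(y)) := fun g hg =>
  h.mem_N (mem_C1_comm.1 (hH hy)) z1 (by rw [conj_eq_self_of_C1 (hH hg)]; exact mem_C1_comm.1 (hH hy))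

theorem nil (z1 : z ≠ 1) (hH : H ≤ C1(z)) : Nil H := nil_of_engel fun _ hy => h.le_N' z1 hH hy

theorem cc (hp : p.Prime) (hP : Hall {p} P ⊤) (hz : z ∈ Z(P)) (z1 : z ≠ 1) : H13.CC C1(z) := by
  refine ⟨fun y hy y1 w hw => ?_, ne_bot_of_mem ⟨C1_self, le_C1_iff.1 le_rfl⟩ z1⟩
  have pz : P ≤ C1(z) := le_C1_iff.2 hz.2
  have n : C1(y) ≤ N(P) := fun g hg => (h.nil z1 le_rfl).norm_hall (hP.of_le pz le_top) le_rfl
    (h.mem_N hy y1 (by rwa [conj_eq_self_of_C1 hg]))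
  refine mem_of_parts (π := {p}) (pz ((hP.of_le le_N le_top).mem_of_nml le_rfl (n (piPart_mem hw)) piElt_piPart)) ?_
  rw [← C_zpowers]
  exact zpowers_le.1 (cent_symm ((h.nil y1 le_rfl).cent_pi (zpowers_le.2 (mem_C1_comm.1 hy))
    (zpowers_le.2 (piPart_mem hw)) (hP.pi.elt hz.1).zpowers (PiElt.zpowers piElt_piPart)))

theorem compl (f : Frob ⊤ K R) :
    IsCyclic R ∨ ∃ m : ℕ, Odd m ∧ Nonempty (R ≃* Multiplicative (ZMod m) × QuaternionGroup 2) := by
  obtain ⟨z, hz, z1⟩ := exists_mem_ne_one' (Z_ne_bot_of_semireg f.sd.norm f.ker_ne f.compl_ne f.reg)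
  have zR : R ≤ C1(z) := le_C1_iff.2 hz.2
  have hN := h.nil z1 zR
  have o : Odd (Nat.card O[{2}ᶜ](R)) :=
    Nat.odd_iff.2 (Nat.two_dvd_ne_zero.1 ((piNat_compl_iff Nat.prime_two).1 pcore_pi))
  have c : Cyc O[{2}ᶜ](R) := (odd_regular_zgrp o (pcore_le.trans f.sd.norm) f.ker_ne
    (semireg_mono f.reg le_rfl pcore_le)).cyc_of_nil (hN.of_le pcore_le)
  have fc : H16.FC R := H16.fc_of_semireg R.subtype (fun g => f.sd.norm g.2) f.ker_ne
    fun g e => f.reg g g.2 (by simpa using e)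
  rcases H9.isCyclic_or_qData (P := O[{2}](R)) pcore_pi.isPGroup (fun v hv w hw v2 w2 => congrArg Subtype.val
    (fc.invol_eq (z := ⟨v, pcore_le hv⟩) (w := ⟨w, pcore_le hw⟩)
      (fun e => by rw [show v = 1 from congrArg Subtype.val e] at v2; simp at v2)
      (Subtype.ext (mul_self_of_two v2))
      (fun e => by rw [show w = 1 from congrArg Subtype.val e] at w2; simp at w2)
      (Subtype.ext (mul_self_of_two w2)))) with e | ⟨n, a, b, e⟩
  · left
    have := Cyc.sup_coprime e c pcore_cent_compl (pcore_pi.coprime pcore_pi)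
    rwa [hN.pcore_sup] at this
  · have e1 : a * b * a⁻¹ ∈ C1(b) := conj_mem_N (h.le_N' z1 zR (pcore_le e.ymem) (pcore_le e.xmem)) C1_self
    have e2 : a ^ 4 = 1 := by
      have i : b * a = a⁻¹ * b := by rw [← e.inv]; group
      have i2 : b * a⁻¹ = a * b := by
        rw [← inv_inv a, ← e.inv]; simp only [inv_inv, mul_inv_rev]; rw [← e.inv]; group
      have := mem_C1.1 e1
      rw [mul_assoc a b, i2, ← mul_assoc b, i, ← mul_assoc (a⁻¹ * b) a b, mul_assoc a⁻¹ b a, i] at this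
      have e3 : a * a = a⁻¹ * a⁻¹ := mul_right_cancel (b := b * b) (by simpa [mul_assoc] using this)
      rw [show a ^ 4 = a * a * (a * a) by simp [pow_succ, mul_assoc]]
      nth_rewrite 1 [e3]; group
    have e3 : 2 ^ (n + 1) = 2 := by
      have := Nat.le_of_dvd (by decide) (e.ordx ▸ orderOf_dvd_of_pow_eq_one e2)
      have : 2 ≤ 2 ^ (n + 1) := Nat.le_self_pow (by omega) 2
      omega
    rw [e3] at e
    obtain ⟨φ⟩ := e.nonempty_equiv
    obtain ⟨ψ⟩ := H23.dp_equiv (A := O[{2}ᶜ](R)) (B := O[{2}](R)) (L := R)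
      ⟨cent_symm pcore_cent_compl, by rw [inf_comm]; exact pcore_inf_compl, by rw [sup_comm]; exact hN.pcore_sup⟩
    exact Or.inr ⟨_, o, ⟨ψ.trans ((zmodCyclicMulEquiv c).symm.prodCongr φ)⟩⟩

theorem not_sz : ¬ Lie.IsoSuzuki G := by
  rintro ⟨F, _, _, m, hm, hF, ⟨e⟩⟩
  haveI : H13.Sz.IsSz F m := ⟨hm, hF⟩
  set φ := (H13.Sz.lieEquiv F m).trans e.symm
  obtain ⟨s, hs⟩ : ∃ s : Fˣ, s ≠ 1 := by
    classical
    have : 1 < Fintype.card Fˣ := by
      rw [Fintype.card_units, hF]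
      have : 2 ^ 3 ≤ 2 ^ (2 * m + 1) := Nat.pow_le_pow_right (by decide) (by omega)
      omega
    exact Fintype.exists_ne_of_one_lt_card this 1
  have c : ∀ b : F, φ (H13.Sz.u m 0 b) ∈ C1(φ (H13.Sz.u m 1 0)) := fun b => mem_C1.2 (by
    rw [← map_mul, ← map_mul, H13.Sz.u_mul_u, H13.Sz.u_mul_u]; simp)
  have := conj_mem_N (h.mem_N (g := φ (H13.Sz.h m s)) (c 1) (by simp [H13.Sz.u_eq_one]) (by
    rw [← map_inv, ← map_mul, ← map_mul, H13.Sz.h_conj_u, mul_zero]; exact c _)) C1_self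
  rw [← map_inv, ← map_mul, ← map_mul, H13.Sz.h_conj_u, mem_C1, ← map_mul, ← map_mul, H13.Sz.u_mul_u, H13.Sz.u_mul_u,
    φ.apply_eq_iff_eq, H13.Sz.u_inj] at this
  have e1 := H13.Sz.eq_one_of_th_eq (s := H13.Sz.th m (s : F)) (by simp [H13.Sz.th_eq_zero]) (by simpa using this.2)
  exact hs (Units.ext (H13.Sz.th_injective (m := m) (by simpa using e1)))

end TC

theorem s4064 (h : TC G) : Group.IsNilpotent G ∨
    (∃ H : Subgroup G, IsFrobeniusComplement H ∧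
      (IsCyclic H ∨ ∃ m : ℕ, Odd m ∧ Nonempty (H ≃* Multiplicative (ZMod m) × QuaternionGroup 2))) ∨
    (∃ n : ℕ, 2 ≤ n ∧ Nonempty (G ≃* PSL(2, GaloisField 2 n))) := by
  by_cases hF : F((⊤ : Subgroup G)) = ⊥
  swap
  · obtain ⟨p, hp, h1⟩ := fit_nil.solv.exists_pcore_ne_bot hF
    rw [pcore_fit] at h1
    obtain ⟨P, hP⟩ := exists_sylow hp (⊤ : Subgroup G)
    obtain ⟨z, hz, z1⟩ := exists_mem_ne_one' (hP.pi.nil.Z_ne_bot fun e => h1 (eq_bot_iff.2 (e ▸ hP.pcore_le)))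
    have c := h.cc hp hP hz z1
    obtain ⟨x, hx, x1⟩ := exists_mem_ne_one' h1
    have l := hP.pcore_le.trans (le_C1_iff.2 hz.2)
    have n : C1(z) ⊴ ⊤ := ⟨le_top, fun g hg => c.mem_N (l hx) x1 (l (conj_mem pcore_nml.2 hg hx))⟩
    by_cases e : C1(z) = ⊤
    · exact Or.inl (nil_top_iff.1 (h.nil z1 e.ge))
    · obtain ⟨R, f⟩ := H23.exists_frob_of_cent n (ne_bot_of_mem C1_self z1) e
        fun k hk k1 => inf_le_right.trans (c.cent k hk k1)
      exact Or.inr (Or.inl ⟨R, H23.isFrobeniusComplement_of_frob f, h.compl f⟩)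
  by_cases h1 : (⊤ : Subgroup G) = ⊥
  · exact Or.inl (nil_top_iff.1 (h1 ▸ nil_bot))
  have sb : ∀ K : Subgroup G, K ⊴ ⊤ → Solv K → K = ⊥ := fun K k1 k2 => by_contra fun e =>
    k2.fit_ne_bot e (eq_bot_iff.2 (hF ▸ k1.fit_le_fit))
  obtain ⟨P, hP⟩ := exists_sylow Nat.prime_two (⊤ : Subgroup G)
  have P1 : P ≠ ⊥ := fun e => h1 (sb _ Nml.rfl (solv_of_odd (e ▸ hP).compl_of_eq_bot))
  obtain ⟨z, hz, z2⟩ := cauchy Nat.prime_two ((hP.pi.of_le inf_le_left).dvd_card (hP.pi.nil.Z_ne_bot P1))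
  have z1 : z ≠ 1 := by rintro rfl; simp at z2
  have c := h.cc Nat.prime_two hP hz z1
  have n : N(C1(z)) ≠ ⊤ := fun e => ne_bot_of_mem C1_self z1 (sb _ ⟨le_top, e.ge⟩ (h.nil z1 le_rfl).solv)
  by_cases rk : 1 < prank 2 C1(z)
  · rcases (c.zt rk n).2 with ⟨F, _, _, ⟨n, hn, hF⟩, ⟨e⟩⟩ | e
    · letI := Fintype.ofFinite (GaloisField 2 n)
      obtain ⟨f⟩ := H13.psl_congr (F := GaloisField 2 n) (K := F) (by
        rw [hF, ← Nat.card_eq_fintype_card, GaloisField.card 2 n (by omega)])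
      exact Or.inr (Or.inr ⟨n, hn, ⟨e.trans f⟩⟩)
    · exact (h.not_sz e).elim
  · refine (n (eq_top_iff.2 (le_norm fun g _ => mem_C1.2 (mem_center_iff.1 (H9.zstar_center ⟨z2, fun g e => ?_⟩
      (by rw [pPrimeCore_eq Nat.prime_two]; exact sb _ pcore_nml (solv_of_odd pcore_pi))) g)))).elim
    by_contra ne
    have el : ∀ v : G, orderOf v = 2 → Elem 2 (zpowers v) := fun v hv =>
      ⟨abel_zpowers, fun a ha => orderOf_dvd_iff_pow_eq_one.1 (hv ▸ orderOf_dvd_of_mem_zpowers ha)⟩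
    have o : orderOf (g * z * g⁻¹) = 2 := by rw [orderOf_conj, z2]
    have m : g * z * g⁻¹ ∈ C1(z) := mem_C1.2 e.symm.eq
    have e2 := (el z z2).sup (el _ o) (cent_symm (zpowers_le.2 (by rwa [C_zpowers])))
    obtain ⟨B, hB⟩ := e2.exists_pelem_two Nat.prime_two fun cy => by
      have := cy.eq_of_card_eq le_sup_left le_sup_right (by rw [card_zpowers', card_zpowers', o, z2])
      rcases H13.mem_zpowers_two (mul_self_of_two z2) (this.ge (mem_zpowers _)) with a | a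
      · rw [a] at o; simp at o
      · exact ne a
    exact rk ((hB.of_le (sup_le (zpowers_le.2 C1_self) (zpowers_le.2 m))).le_prank Nat.prime_two)

end H21
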