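import Cfsg.Agent.H3.Cb1
import Cfsg.Agent.H17.EP

/-! `H21.Cb.two`: under `H3.Cb.Hy`, if `b` acts nontrivially on a four-subgroup of `R`, then `R` is a `2`-group. -/

set_option autoImplicit false
set_option linter.unusedSectionVars false

namespace H21.Cb

open Subgroup Cfsg H18 H1 H3.Cb
open scoped commutatorElement

variable {G : Type*} [Group G] [Finite G] {V R X U T K Q Y : Subgroup G} {b : G}

theorem cmod {p : ℕ} (hp : p.Prime) (hT : Nat.card T = p) (hn : T ≤ N(K)) :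
    Nat.card K ≡ Nat.card ↥(K ⊓ C(T)) [MOD p] :=
  haveI := Fact.mk hp
  H3.card_modEq_card_inf_centralizer (piGrp_of_prime hp hT).isPGroup hn

theorem gl (hU : Elem 3 U) (hn : X ≤ N(U)) (hf : X ⊓ C(U) = ⊥) :
    ∃ e, Nat.card U = 3 ^ e ∧ Nat.card X ∣ ∏ i : Fin e, (3 ^ e - 3 ^ (i : ℕ)) := by
  haveI := Fact.mk Nat.prime_three
  obtain ⟨e, he⟩ := (hU.pi Nat.prime_three).card_eq_pow
  obtain ⟨ψ, hψ⟩ := H117.exists_aut_GL (fun x y : U => Subtype.ext (comm_of_cent hU.abel x.2 y.2))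
    (fun x : U => Subtype.ext (hU.pow x x.2)) he
  have h1 := (relIndex_C_dvd_card_aut hn).trans (card_dvd_of_injective ψ hψ)
  have h2 := card_mul_relIndex' (A := C(U)) (B := X)
  rw [inf_comm, hf, card_bot, one_mul] at h2
  rw [h2, Matrix.card_GL_field, ZMod.card] at h1
  exact ⟨e, he, h1⟩

theorem cop (h : Hy V R b) (hX : X ≤ R) : Cop X V :=
  cop_of_pi' (hX.trans h.nR) (h.pi.of_le hX) (h.el.pi Nat.prime_three) (Or.inr h.el.abel.solv)

theorem cb (h : Hy V R b) : Nat.card (zpowers b) = 3 := by rw [card_zpowers', h.ord]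

theorem copb (h : Hy V R b) (hX : X ≤ R) (hn : b ∈ N(X)) : Cop (zpowers b) X :=
  cop_of_pi (zpowers_le.2 hn) (piGrp_of_prime Nat.prime_three (cb h)) (h.pi.of_le hX) (Or.inl abel_zpowers.solv)

theorem faith (h : Hy V R b) (hX : X ≤ R) : X ⊓ C((⁅V, X⁆ : Subgroup G)) = ⊥ := by
  rw [eq_bot_iff, ← h.ff]
  refine le_inf (inf_le_left.trans (hX.trans le_sup_left)) ?_
  conv_rhs => rw [← (cop h hX).comm_sup]
  exact cent_sup inf_le_right (inf_le_left.trans (cent_symm inf_le_right))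

theorem bnd (h : Hy V R b) (hX : X ≤ R) (hc : Nat.card (⁅V, X⁆ : Subgroup G) ≤ 81) : Nat.card X ∣ 2 ^ 9 * 5 * 13 := by
  obtain ⟨e, he, h1⟩ := gl (h.el.of_le (h.cV hX)) norm_comm_right (faith h hX)
  have h4 : e ≤ 4 := by
    by_contra hh
    have := Nat.pow_le_pow_right (by norm_num : 0 < 3) (by omega : 5 ≤ e)
    omega
  refine PiNat.dvd_of_dvd_mul (n := 3 ^ 6) (h.pi.of_le hX) (piNat_pow_self Nat.prime_three 6).compl_compl (h1.trans ?_)
  interval_cases e <;> decide +kernel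

theorem bnd5 (h : Hy V R b) (hX : X ≤ R) (hc : Nat.card (⁅V, X⁆ : Subgroup G) ≤ 243) :
    Nat.card X ∣ 2 ^ 10 * 5 * 11 ^ 2 * 13 := by
  obtain ⟨e, he, h1⟩ := gl (h.el.of_le (h.cV hX)) norm_comm_right (faith h hX)
  have h4 : e ≤ 5 := by
    by_contra hh
    have := Nat.pow_le_pow_right (by norm_num : 0 < 3) (by omega : 6 ≤ e)
    omega
  refine PiNat.dvd_of_dvd_mul (n := 3 ^ 10) (h.pi.of_le hX) (piNat_pow_self Nat.prime_three 10).compl_compl
    (h1.trans ?_)
  interval_cases e <;> decide +kernel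

theorem c81 (h : Hy V R b) (hX : X ≤ R) (n1 : b ∈ N(X)) (c1 : b ∉ C(X))
    (hm : ∀ L : Subgroup G, b ∈ N(L) ∧ b ∉ C(L) → L ≤ X → L = X) : Nat.card (⁅V, X⁆ : Subgroup G) ≤ 81 := by
  obtain ⟨x, hx, hxb⟩ : ∃ x ∈ X, x * b ≠ b * x := by
    by_contra hh
    push Not at hh
    exact c1 (mem_C.2 hh)
  have b3 : b ^ 3 = 1 := by rw [← h.ord, pow_orderOf_eq_one]
  have hXH : X ≤ zpowers b ⊔ zpowers (x * b * x⁻¹) := by
    have hy : x * b * x⁻¹ * b⁻¹ ∈ X := by
      have := mul_mem hx (conj_mem_N n1 (inv_mem hx))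
      simpa only [mul_assoc] using this
    have := hm (X ⊓ (zpowers b ⊔ zpowers (x * b * x⁻¹))) ⟨zpowers_le.1 (norm_inf (zpowers_le.2 n1) (le_norm le_sup_left)),
      fun hh => hxb ?_⟩ inf_le_left
    · rw [← this]; exact inf_le_right
    have e := mem_C.1 hh _ ⟨hy, mul_mem (mem_sup_right (mem_zpowers _)) (mem_sup_left (inv_mem (mem_zpowers _)))⟩
    have e3 : (x * b * x⁻¹ * b⁻¹) ^ 3 = 1 := by
      have := (show Commute (x * b * x⁻¹ * b⁻¹) b from e).mul_pow 3
      rw [inv_mul_cancel_right, conj_pow, b3, mul_one, mul_one, mul_inv_cancel] at this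
      exact this.symm
    have := (piElt_of_pow_eq_one Nat.prime_three e3).eq_one' (h.pi.elt (hX hy))
    rwa [mul_inv_eq_one, mul_inv_eq_iff_eq_mul] at this
  have nx : x ∈ N(V) := h.nR (hX hx)
  have e1 : ⁅V, zpowers (x * b * x⁻¹)⁆ = cj x ⁅V, zpowers b⁆ := by rw [cj_comm, cj_zpowers, cj_eq_self nx]
  have w1 : ⁅V, zpowers b⁆ ≤ V := comm_le_left (zpowers_le.2 h.nb)
  have w2 : cj x ⁅V, zpowers b⁆ ≤ V := cj_le_of_mem_N w1 nx
  have hU : ⁅V, X⁆ ≤ ⁅V, zpowers b⁆ ⊔ cj x ⁅V, zpowers b⁆ :=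
    (comm_mono le_rfl hXH).trans (comm_sup_le' le_sup_left (e1.le.trans le_sup_right)
      (norm_of_comm_le_of_le le_sup_left (sup_le w1 w2))
      (norm_of_comm_le_of_le (e1.le.trans le_sup_right) (sup_le w1 w2)))
  have := Nat.le_of_dvd (Nat.mul_pos card_pos' card_pos') ((h.el.abel.nml w1).nrm2 w2).card_sup_dvd
  rw [card_cj] at this
  exact (card_le hU).trans (this.trans (Nat.mul_le_mul h.nine h.nine))

theorem exists13 (h : Hy V R b) {L : Subgroup G} (hL : L ≤ R) (h2 : PiGrp {2}ᶜ L) (hn : b ∈ N(L)) (hc : b ∉ C(L)) :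
    ∃ T ≤ R, b ∈ N(T) ∧ b ∉ C(T) ∧ Nat.card T = 13 ∧ Nat.card (⁅V, T⁆ : Subgroup G) ≤ 81 := by
  obtain ⟨X, hXL, ⟨n1, c1⟩, hm⟩ := exists_minimal_sub (fun X => b ∈ N(X) ∧ b ∉ C(X)) ⟨hn, hc⟩
  have hX := hXL.trans hL
  have c81 := c81 h hX n1 c1 hm
  have d65 : Nat.card X ∣ 5 * 13 := PiNat.dvd_of_dvd_mul (n := 2 ^ 9) (h2.of_le hXL)
    (piNat_pow_self Nat.prime_two 9).compl_compl (by have := bnd h hX c81; rwa [mul_assoc, mul_comm] at this)
  have p13 : Nat.Prime 13 := by norm_num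
  obtain ⟨T, hT, nT⟩ := (copb h hX n1).exists_sylow p13
  obtain ⟨S, hS, nS⟩ := (copb h hX n1).exists_sylow Nat.prime_five
  have hS' : S ≤ C(zpowers b) := by
    have d5 : Nat.card S ∣ 5 := PiNat.dvd_of_dvd_mul (n := 13) hS.pi ((piNat_prime p13).2 (by simp))
      ((card_dvd hS.le).trans d65)
    have m := cmod Nat.prime_three (cb h) nS
    rcases (Nat.dvd_prime Nat.prime_five).1 d5 with e | e
    · rw [card_eq_one.1 e]; exact bot_le
    · by_contra hh
      rw [prime_TI (e ▸ Nat.prime_five) hh, e, card_bot] at m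
      exact absurd m (by decide)
  have d13 : Nat.card T ∣ 13 := PiNat.dvd_of_dvd_mul (n := 5) hT.pi ((piNat_prime Nat.prime_five).2 (by simp))
    ((card_dvd hT.le).trans (by rwa [mul_comm] at d65))
  have cT : b ∉ C(T) := fun hh => c1 (zpowers_le.1 (cent_symm (le_of_sylows fun p hp hd => by
    rcases (Nat.Prime.dvd_mul hp).1 (hd.trans d65) with e | e
    · obtain rfl := (Nat.prime_dvd_prime_iff_eq hp Nat.prime_five).1 e
      exact ⟨S, hS, hS'⟩
    · obtain rfl := (Nat.prime_dvd_prime_iff_eq hp p13).1 e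
      exact ⟨T, hT, cent_symm (zpowers_le.2 hh)⟩)))
  refine ⟨T, hT.le.trans hX, zpowers_le.1 nT, cT, ((Nat.dvd_prime p13).1 d13).resolve_left fun e => cT ?_,
    (card_le (comm_mono le_rfl hT.le)).trans c81⟩
  rw [card_eq_one.1 e, C_bot]; trivial

theorem cent13 {p : ℕ} (hp : p.Prime) (h13 : p ≠ 13) (hT : Nat.card T = 13) (hn : T ≤ N(K)) (hK : PiGrp {p} K)
    (hd : Nat.card K ∣ 2 ^ 10 * 5 * 11 ^ 2 * 13) : K ≤ C(T) := by
  have m := cmod (by norm_num) hT hn
  obtain ⟨i, hi⟩ := hK.card_eq_pow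
  obtain ⟨j, hj⟩ := (hK.inf_left (B := C(T))).card_eq_pow
  have hji : j ≤ i := (Nat.pow_le_pow_iff_right hp.one_lt).1 (hi ▸ hj ▸ card_le inf_le_left)
  suffices i = j from inf_eq_left.1 (eq_of_card_eq inf_le_left (by rw [hi, hj, this]))
  rw [hi, hj] at m
  rw [hi] at hd
  rcases Nat.eq_zero_or_pos i with rfl | i0
  · omega
  have hp' := (dvd_pow_self p i0.ne').trans hd
  rw [hp.dvd_mul, hp.dvd_mul, hp.dvd_mul, Nat.prime_dvd_prime_iff_eq hp (by norm_num : Nat.Prime 13),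
    Nat.prime_dvd_prime_iff_eq hp Nat.prime_five] at hp'
  rcases hp' with ((e | rfl) | e) | e
  · obtain rfl := (Nat.prime_dvd_prime_iff_eq hp Nat.prime_two).1 (hp.dvd_of_dvd_pow e)
    have : i ≤ 10 := by
      by_contra hh
      exact absurd ((pow_dvd_pow 2 (by omega : 11 ≤ i)).trans hd) (by decide)
    interval_cases i <;> interval_cases j <;> first | rfl | exact absurd m (by decide)
  · have : i ≤ 1 := by
      by_contra hh
      exact absurd ((pow_dvd_pow 5 (by omega : 2 ≤ i)).trans hd) (by decide)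
    interval_cases i <;> interval_cases j <;> first | rfl | exact absurd m (by decide)
  · obtain rfl := (Nat.prime_dvd_prime_iff_eq hp (by norm_num : Nat.Prime 11)).1 (hp.dvd_of_dvd_pow e)
    have : i ≤ 2 := by
      by_contra hh
      exact absurd ((pow_dvd_pow 11 (by omega : 3 ≤ i)).trans hd) (by decide)
    interval_cases i <;> interval_cases j <;> first | rfl | exact absurd m (by decide)
  · exact absurd e h13

theorem irr13 (h : Hy V R b) (hT : T ≤ R) (c13 : Nat.card T = 13) (c27 : Nat.card (⁅V, T⁆ : Subgroup G) = 27)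
    (hY : Y ≤ ⁅V, T⁆) (hn : T ≤ N(Y)) (h1 : Y ≠ ⊥) : Y = ⁅V, T⁆ := by
  have m := cmod (by norm_num) c13 hn
  have e : Y ⊓ C(T) = ⊥ := eq_bot_iff.2 ((inf_le_inf_right _ hY).trans
    (abel_comm_inf_cent h.el.abel (cop h hT).norm (cop h hT).cop).le)
  rw [e, card_bot] at m
  have d := card_dvd hY
  have := one_lt_card h1
  refine eq_of_card_eq hY ?_
  rw [c27] at d ⊢
  have := Nat.le_of_dvd (by norm_num) d
  generalize Nat.card Y = n at *
  interval_cases n <;> first | rfl | exact absurd m (by decide) | exact absurd d (by decide)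

theorem no13 (h : Hy V R b) (hQ : Q ≤ R) (q : Fg Q b) (hT : T ≤ R) (nT : b ∈ N(T)) (cT : b ∉ C(T))
    (c13 : Nat.card T = 13) (t81 : Nat.card (⁅V, T⁆ : Subgroup G) ≤ 81) : False := by
  have p13 : Nat.Prime 13 := by norm_num
  have pT : (Nat.card T).Prime := c13 ▸ p13
  have wT := (h.lemB hT nT cT).1
  have wQ := (h.lemB hQ q.nb q.nc).1
  have vT := h.cV hT
  have vQ := h.cV hQ
  have w9 : 9 ≤ Nat.card (⁅V, zpowers b⁆ : Subgroup G) := by
    obtain ⟨k, hk⟩ := (h.piV.of_le h.wV).card_eq_pow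
    have := mt (h.small h.wV (norm_comm_right (mem_zpowers b))) h.cub
    rw [hk] at this ⊢
    exact Nat.pow_le_pow_right (by norm_num : 0 < 3) (show 2 ≤ k by
      by_contra hh
      exact this (Nat.pow_le_pow_right (by norm_num : 0 < 3) (show k ≤ 1 by omega)))
  have cT27 : Nat.card (⁅V, T⁆ : Subgroup G) = 27 := by
    have m := cmod (K := ⁅V, T⁆) p13 c13 norm_comm_right
    obtain ⟨k, hk⟩ := (h.piV.of_le vT).card_eq_pow
    have := w9.trans (card_le wT)
    rw [h.dis hT, card_bot] at m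
    rw [hk] at this m t81 ⊢
    have h4 : k ≤ 4 := by
      by_contra hh
      have := Nat.pow_le_pow_right (by norm_num : 0 < 3) (by omega : 5 ≤ k)
      omega
    interval_cases k <;> first | rfl | exact absurd m (by decide) | omega
  have q81 := c81 h hQ q.nb q.nc fun L hL l => (q.irr h.ord l hL.1).resolve_left fun e => hL.2 (by
    rw [e, C_bot]; trivial)
  have hJ : Q ⊔ T ≤ R := sup_le hQ hT
  have c243 : Nat.card (⁅V, Q ⊔ T⁆ : Subgroup G) ≤ 243 := by
    have hU : ⁅V, Q ⊔ T⁆ ≤ ⁅V, Q⁆ ⊔ ⁅V, T⁆ := comm_sup_le' le_sup_left le_sup_right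
      (norm_of_comm_le_of_le le_sup_left (sup_le vQ vT)) (norm_of_comm_le_of_le le_sup_right (sup_le vQ vT))
    have e := ((h.el.abel.nml vQ).nrm2 vT).card_sup
    have := w9.trans (card_le (le_inf wQ wT))
    rw [cT27] at e
    refine (card_le hU).trans ?_
    nlinarith
  have dJ := bnd5 h hJ c243
  have sT : Hall {13} T (Q ⊔ T) := ⟨le_sup_right, piGrp_of_prime p13 c13, (piNat_compl_iff p13).2 fun hd => by
    rw [← H18.card_mul_relIndex (le_sup_right : T ≤ Q ⊔ T), c13] at dJ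
    exact absurd ((Nat.mul_dvd_mul_left 13 hd).trans dJ) (by decide)⟩
  have oT : O[{13}](Q ⊔ T) ≤ T := sT.nml_le pcore_nml pcore_pi
  have tF : T ≤ F(Q ⊔ T) := (le_inf le_sup_right (cent_symm (fit_le_of_pcores fun p hp _ => by
    by_cases e : p = 13
    · subst e; exact oT.trans (abel_of_prime pT)
    · exact cent13 hp e c13 (le_sup_right.trans pcore_nml.norm) pcore_pi ((card_dvd pcore_le).trans dJ)))).trans
      (cent_sub_Fitting (h.solv.of_le hJ))
  have nQT : Q ≤ N(T) := by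
    rw [← le_antisymm oT (le_pcore_of_le_fit tF sT.pi)]
    exact le_sup_left.trans pcore_nml.norm
  have cQT : Q ≤ C(T) := by
    rw [← q.cm h.ord]
    exact (cyc_of_prime pT).comm_cent nQT (zpowers_le.2 nT)
  obtain ⟨a, ha, a1, hne⟩ := exists_cent1_ne_bot (K := ⁅V, T⁆) q.el.abel (fun hc => by
    have := q.el.card_le_of_cyc Nat.prime_two hc
    rw [q.card] at this; omega) (norm_comm (hQ.trans h.nR) nQT) (by rw [q.card, cT27]; decide) fun e => by
    rw [e, card_bot] at cT27; omega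
  have e3 := irr13 h hT c13 cT27 inf_le_left
    (norm_inf norm_comm_right (norm_C1 ((cent_symm cQT).trans (C_le_C1 ha)))) hne
  have e4 := (q.irr h.ord (A := Q ⊓ C((⁅V, T⁆ : Subgroup G))) inf_le_left (zpowers_le.1
    (norm_inf (zpowers_le.2 q.nb) (norm_C (zpowers_le.2 (h.nc nT)))))).resolve_left
    (ne_bot_of_mem ⟨ha, le_C1_iff.1 (inf_eq_left.1 e3)⟩ a1)
  exact h.lemC hQ q.nb q.nc ((inf_eq_left.1 e4).trans (C_anti wT))

theorem two : Two := fun G _ _ V R Q b h hQ q => by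
  have cp := copb h le_rfl h.nbR
  obtain ⟨L, hL, nL⟩ := coprime_Hall_exists {2}ᶜ cp abel_zpowers.solv h.solv
  have hc : b ∈ C(L) := by
    by_contra hc
    obtain ⟨T, hT, nT, cT, c13, t81⟩ := exists13 h hL.le hL.pi (zpowers_le.1 nL) hc
    exact no13 h hQ q hT nT cT c13 t81
  have := coprime_comm_pcore cp abel_zpowers.solv h.solv hL (cent_symm (zpowers_le.2 hc))
  rw [h.cm] at this
  exact pcore_pi.of_le this

end H21.Cb
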