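import Cfsg.Agent.H21.WClosed
import Cfsg.Agent.H17.Four

/-! Abelian 2-subgroups `W` whose conjugates are all conjugate to `W` inside a `W`-invariant
subgroup of odd order (`OC W`; e.g. extremely closed abelian 2-subgroups): inheritance, local
lemmas and the signalizer step `OC.sig`. -/

set_option autoImplicit false

namespace H21

open H18 H1 Subgroup
open scoped commutatorElement

variable {G : Type*} [Group G] {Q : Type*} [Group Q]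

/-- every conjugate of the abelian 2-group `W` is conjugate to `W` by an element of a `W`-invariant
subgroup of odd order -/
structure OC (W : Subgroup G) : Prop where
  abel : Abel W
  pi : PiGrp {2} W
  oc : ∀ g : G, ∃ O : Subgroup G, PiGrp {2}ᶜ O ∧ W ≤ N(O) ∧ ∃ o ∈ O, cj g W = cj o W

variable [Finite G] {H K W D S T R P L M A V : Subgroup G} {f : D →* Q} {a b c g t w x y z : G}

theorem OC.sub (h : OC W) (hV : V ≤ W) (hn : N(W) ≤ N(V)) : OC V := ⟨h.abel.mono hV, h.pi.of_le hV,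
  fun g => by
    obtain ⟨O, h1, h2, o, ho, e⟩ := h.oc g
    refine ⟨O, h1, hV.trans h2, o, ho, ?_⟩
    have : o⁻¹ * g ∈ N(W) := mem_N_iff_cj.2 (by rw [cj_mul, e, cj_inv_cj])
    rw [← cj_inj (g := o⁻¹), ← cj_mul, cj_inv_cj, cj_eq_self (hn this)]⟩

theorem OC.cj (h : OC W) (k : G) : OC (cj k W) := ⟨h.abel.cj k, h.pi.cj k, fun g => by
  obtain ⟨O, h1, h2, o, ho, e⟩ := h.oc (k⁻¹ * g * k)
  refine ⟨H18.cj k O, h1.cj k, cj_norm_iff.2 h2, k * o * k⁻¹, conj_mem_cj ho, ?_⟩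
  rw [cj_cj, cj_cj, inv_mul_cancel_right, cj_mul (g := k), ← e, cj_cj]
  congr 1; group⟩

theorem OC.hall (h : OC W) {O : Subgroup G} (h1 : PiGrp {2}ᶜ O) (h2 : W ≤ N(O)) :
    Hall {2} W (O ⊔ W) := hall_of_sup' h.pi h1 (Or.inl h2)

theorem OC.sc (h : OC W) (hP : PiGrp {2} P) (hW : W ≤ P) (hw : w ∈ W) (hg : g * w * g⁻¹ ∈ P) :
    g * w * g⁻¹ ∈ W := by
  obtain ⟨O, h1, h2, o, ho, e⟩ := h.oc g
  have h3 := (h.hall h1 h2).eq_of_le (le_inf hW le_sup_right) inf_le_right hP.inf_left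
  exact h3 ▸ (⟨hg, cj_le_of_mem le_sup_right (mem_sup_left ho) (e ▸ conj_mem_cj hw)⟩ :
    g * w * g⁻¹ ∈ P ⊓ (O ⊔ W))

theorem OC.mem_N (h : OC W) (hP : PiGrp {2} P) (hW : W ≤ P) (hg : g ∈ N(P)) : g ∈ N(W) :=
  mem_N_of_finite fun _ hw => h.sc hP hW hw (conj_mem_N hg (hW hw))

theorem OC.mim [Finite Q] (h : OC W) (hW : W ≤ D) (hD : mim f D = ⊤) : OC (mim f W) :=
  ⟨h.abel.mim, h.pi.mim, fun g' => by
    obtain ⟨g, -, hg, rfl⟩ := mem_mim.1 (hD ▸ mem_top g' : g' ∈ H18.mim f D)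
    obtain ⟨O, h1, h2, o, ho, e⟩ := h.oc g
    have hn : W ≤ N(O ⊓ D) := norm_inf h2 (le_norm hW)
    have h3 : H18.cj g W ≤ (O ⊓ D) ⊔ W := by
      rw [← Nrm2.modular' (Or.inr h2) hW]
      exact le_inf (e ▸ cj_le_of_mem le_sup_right (mem_sup_left ho)) (cj_le_of_mem hW hg)
    have h4 := h.hall h1.inf_left hn
    obtain ⟨k, hk, e'⟩ := sylow_conj Nat.prime_two h4 (h4.of_card h3 card_cj)
    obtain ⟨o', ho', w, hw, rfl⟩ := (mem_sup_of_norm' hn).1 hk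
    refine ⟨H18.mim f (O ⊓ D), h1.inf_left.mim, mim_norm hn, mfun f o', mfun_mem_mim ho', ?_⟩
    rw [← mim_cj hg, ← mim_cj ho'.2, e', cj_mul, cj_eq_self_of_mem hw]⟩

theorem OC.exists_cj (h : OC W) (hW : W ≤ O2[{2}ᶜ,{2}](H)) (hg : g ∈ H) :
    ∃ c ∈ ⁅O[{2}ᶜ](H), W⁆, H18.cj g W = H18.cj c W := by
  obtain ⟨R, hR, e⟩ := exists_sylow_le Nat.prime_two h.pi hW
  obtain ⟨k, hk, n, hn, rfl⟩ := frattini_elt Nat.prime_two hR (pcore2_nml.norm hg)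
  rw [← hR.sup_pcore2] at hk
  obtain ⟨o, ho, q, hq, rfl⟩ := (mem_sup_of_norm'
    ((hR.le.trans pcore2_le).trans pcore_nml.norm)).1 hk
  obtain ⟨y, hy, c, hc, rfl⟩ :=
    (cop_pi ((hW.trans pcore2_le).trans pcore_nml.norm) h.pi pcore_pi).exists_mul ho
  refine ⟨y, hy, ?_⟩
  rw [cj_mul, cj_mul, cj_mul, cj_eq_self (h.mem_N hR.pi e hn),
    cj_eq_self (h.mem_N hR.pi e (le_N hq)), cj_eq_self_of_cent hc.2]

theorem OC.N_sup (h : OC W) (hW : W ≤ O2[{2}ᶜ,{2}]((⊤ : Subgroup G))) :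
    N(W) ⊔ O[{2}ᶜ]((⊤ : Subgroup G)) = ⊤ := top_le_iff.1 fun g hg => by
  obtain ⟨c, hc, e⟩ := h.exists_cj hW hg
  have : c⁻¹ * g ∈ N(W) := mem_N_iff_cj.2 (by rw [cj_mul, e, cj_inv_cj])
  simpa using mul_mem (mem_sup_right (comm_le_left (le_top.trans pcore_nml.norm) hc))
    (mem_sup_left this : _ ∈ N(W) ⊔ O[{2}ᶜ]((⊤ : Subgroup G)))

theorem OC.comm_le (h : OC W) (hW : W ≤ O2[{2}ᶜ,{2}](H)) (hD : D ≤ H) (hD2 : PiGrp {2}ᶜ D)
    (hn : W ≤ N(D)) : ⁅D, W⁆ ≤ ⁅O[{2}ᶜ](H), W⁆ := by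
  have hO : W ≤ N(O[{2}ᶜ](H)) := (hW.trans pcore2_le).trans pcore_nml.norm
  have h1 : ⁅D, W⁆ ≤ ⁅O[{2}ᶜ](H), W⁆ ⊔ W := by
    refine commutator_le.2 fun d hd w hw => ?_
    obtain ⟨c, hc, e⟩ := h.exists_cj hW (hD hd)
    rw [commutatorElement_def]
    refine mul_mem ?_ (mem_sup_right (inv_mem hw))
    exact cj_le_of_mem le_sup_right (mem_sup_left hc) (e ▸ conj_mem_cj hw)
  have h2 : Hall {2}ᶜ ⁅O[{2}ᶜ](H), W⁆ (⁅O[{2}ᶜ](H), W⁆ ⊔ W) :=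
    hall_of_sup (pcore_pi.of_le (comm_le_left hO)) h.pi.compl_compl (Or.inr norm_comm_right)
  exact h2.le_of_nml (sup_le le_N norm_comm_right) h1 (hD2.of_le (comm_le_left hn))

/-- if `W` lies in a solvable normal subgroup and `O(G) = 1` then `W` is normal -/
theorem OC.le_pcore_of_solv (h : OC W) (hO : O[{2}ᶜ]((⊤ : Subgroup G)) = ⊥) (hR : R ⊴ ⊤)
    (hs : Solv R) (hW : W ≤ R) : W ≤ O[{2}]((⊤ : Subgroup G)) := by
  refine le_pcore ⟨le_top, fun g _ => ?_⟩ h.pi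
  have hOR : O[{2}ᶜ](R) = ⊥ := eq_bot_iff.2 (hO ▸ hR.pcore_le_pcore)
  have hF := cent_sub_Fitting hs
  rw [fit_eq_pcore hOR] at hF
  have hV : ∀ k : G, O[{2}](R) ≤ N(H18.cj k W) := fun k v hv => (h.cj k).mem_N
    (pcore_pi.sup_norm' (h.pi.cj k) (le_top.trans hR.pcore.norm)) le_sup_right (le_N (mem_sup_left hv))
  obtain ⟨O, h1, h2, o, ho, e⟩ := h.oc g
  have hL : W ⊔ H18.cj g W ≤ O ⊔ W :=
    sup_le le_sup_right (e ▸ cj_le_of_mem le_sup_right (mem_sup_left ho))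
  have hLR : W ⊔ H18.cj g W ≤ R := sup_le hW (cj_le_of_mem_N hW (hR.norm (mem_top g)))
  have h3 : Hall {2}ᶜ O (O ⊔ W) := hall_of_sup h1 h.pi.compl_compl (Or.inr h2)
  have h4 := (h3.nml_inf (sup_le le_N h2) hL).pcore_hall
    (nml_inf_of_norm' (hL.trans (sup_le le_N h2))).norm
  have h5 : O[{2}ᶜ](W ⊔ H18.cj g W) ≤ C(O[{2}](R)) := cent_of_norm_coprime
    (le_top.trans hR.pcore.norm) (norm_pcore (norm_sup (cj_one (H := W) ▸ hV 1) (hV g)))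
    (pcore_pi.coprime' pcore_pi)
  have h6 : O[{2}ᶜ](W ⊔ H18.cj g W) = ⊥ :=
    (pcore_pi.of_le ((le_inf (pcore_le.trans hLR) h5).trans hF)).eq_bot pcore_pi
  rw [h6] at h4
  exact mem_N_of_finite fun w hw => h.sc h4.compl_of_eq_bot.of_compl_compl le_sup_left hw
    (mem_sup_right (conj_mem_cj hw))

theorem OC.odd_le (h : OC W) (hc : ¬ Cyc W) {O : Subgroup G} (h1 : PiGrp {2}ᶜ O) (h2 : W ≤ N(O))
    (hM : ∀ w ∈ W, w ≠ 1 → O ⊓ C1(w) ≤ M) : O ≤ M :=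
  coprime_abelian_gen_cent1 h.abel hc h2 (h.pi.coprime h1) hM

/-- the signalizer step -/
theorem OC.sig (h : OC W) (hc : ¬ Cyc W) (hA : Elem 2 A) (h8 : 2 ^ 3 ≤ Nat.card A) (hWA : W ≤ A)
    (hAm : ∀ a ∈ A, a ∈ W ∨ C1(a) ⊓ C(W) ≤ C(A))
    (hall : ∀ a ∈ A, a ≠ 1 → W ≤ O2[{2}ᶜ,{2}](C1(a))) : W ≤ O2[{2}ᶜ,{2}]((⊤ : Subgroup G)) := by
  have hAC : ∀ a ∈ A, A ≤ C1(a) := fun a ha => le_C1_iff.2 (hA.abel ha)
  have hAW : A ≤ C(W) := cent_mono hA.abel le_rfl hWA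
  set Y := O[{2}ᶜ](C(W)) ⊔ O[{2}ᶜ](C(A)) with hY
  have hYC : Y ≤ C(W) := sup_le pcore_le (pcore_le.trans (C_anti hWA))
  have hY2 : PiGrp {2}ᶜ Y := pcore_pi.sup_norm' pcore_pi
    ((pcore_le.trans (C_anti hWA)).trans pcore_nml.norm)
  have hθ0 : ∀ a ∈ A, ⁅O[{2}ᶜ](C1(a)), W⁆ ≤ O[{2}ᶜ](C1(a)) := fun a ha =>
    comm_le_left ((hWA.trans (hAC a ha)).trans pcore_nml.norm)
  have hYn : ∀ a : G, C(W) ⊓ C1(a) ≤ N(⁅O[{2}ᶜ](C1(a)), W⁆) := fun a =>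
    norm_comm (inf_le_right.trans pcore_nml.norm) (inf_le_left.trans C_le_N)
  have hYn' : ∀ a : G, Y ⊓ C1(a) ≤ N(⁅O[{2}ᶜ](C1(a)), W⁆) := fun a =>
    (inf_le_inf_right _ hYC).trans (hYn a)
  set θ : G → Subgroup G := fun a => ⁅O[{2}ᶜ](C1(a)), W⁆ ⊔ (Y ⊓ C1(a)) with hθ
  have hpi : ∀ a ∈ A, PiGrp {2}ᶜ (θ a) := fun a ha =>
    (pcore_pi.of_le (hθ0 a ha)).sup_norm' hY2.inf_left (hYn' a)
  have hnorm : ∀ a ∈ A, A ≤ N(θ a) := fun a ha =>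
    norm_sup (norm_comm ((hAC a ha).trans pcore_nml.norm) (cent_norm hAW))
      (norm_inf (norm_sup (hAW.trans pcore_nml.norm) (hA.abel.trans pcore_nml.norm))
        (norm_C1 (hAC a ha)))
  have hs : H17.SF 2 A θ := by
    refine ⟨Nat.prime_two, hA, fun a ha _ => sup_le ((hθ0 a ha).trans pcore_le) inf_le_right,
      fun a ha _ => hpi a ha, fun a ha _ => hnorm a ha, fun a ha _ => solv_of_two' (hpi a ha),
      fun a ha h1 b hb h2 => ?_⟩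
    have hn : W ≤ N(θ a ⊓ C1(b)) := hWA.trans (norm_inf (hnorm a ha) (norm_C1 (hAC b hb)))
    rw [← (cop_pi hn h.pi (hpi a ha).inf_left).comm_sup]
    refine sup_le_sup (h.comm_le (hall b hb h2) inf_le_right (hpi a ha).inf_left hn)
      (le_inf ?_ (inf_le_left.trans inf_le_right))
    refine le_trans (inf_le_inf_right _ inf_le_left) ?_
    rw [Nrm2.modular' (Or.inr (hYn' a)) (inf_le_left.trans hYC)]
    refine sup_le ((inf_le_inf_right _ (hθ0 a ha)).trans ?_) inf_le_left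
    rcases hAm a ha with e | e
    · exact (inf_comm _ _).le.trans ((inf_pcore_le (C_le_C1 e)).trans le_sup_left)
    · exact le_trans (le_inf ((inf_le_inf_right _ pcore_le).trans e) inf_le_left)
        ((inf_pcore_le (C_le_C1 ha)).trans le_sup_right)
  have hM := hs.mem_WB h8
  refine le_O2_of_closure hM.pi h.pi (hWA.trans hM.norm) fun z hz g => ?_
  obtain ⟨O, h1, h2, o, ho, e⟩ := h.oc g
  set Θ := H17.WB (fun a => ⁅O[{2}ᶜ](C1(a)), W⁆) W with hΘ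
  have hΘn : C(W) ≤ N(Θ) := norm_iSup fun w =>
    (le_inf le_rfl (C_le_C1 w.2.1)).trans (hYn w)
  have hΘle : Θ ≤ H17.WB θ A := H17.WB_le fun w hw w1 =>
    le_sup_left.trans (H17.le_WB (θ := θ) (hWA hw) w1)
  have h3 : O ≤ Θ ⊔ C(W) := h.odd_le hc h1 h2 fun w hw w1 => by
    have hn : W ≤ N(O ⊓ C1(w)) := norm_inf h2 (norm_C1 (hWA.trans (hAC w (hWA hw))))
    rw [← (cop_pi hn h.pi h1.inf_left).comm_sup]
    exact sup_le_sup ((h.comm_le (hall w (hWA hw) w1) inf_le_right h1.inf_left hn).trans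
      (H17.le_WB (θ := fun a => ⁅O[{2}ᶜ](C1(a)), W⁆) hw w1)) inf_le_right
  obtain ⟨y, hy, c, hc', rfl⟩ := (mem_sup_of_norm' hΘn).1 (h3 ho)
  rw [cj_mul, cj_eq_self_of_cent hc'] at e
  exact cj_le_of_mem le_sup_right (mem_sup_left (hΘle hy)) (e ▸ conj_mem_cj hz)

/-- an involution of `W` centralized by `N(W)` is isolated -/
theorem OC.isolated (h : OC W) (hw : w ∈ W) (w2 : orderOf w = 2) (hN : N(W) ≤ C1(w)) :
    Cfsg.IsIsolatedInvolution w := H9.isolated_of_odd w2 fun g => by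
  obtain ⟨O, h1, h2, o, ho, e⟩ := h.oc g
  have h3 : o⁻¹ * g ∈ N(W) := mem_N_iff_cj.2 (by rw [cj_mul, e, cj_inv_cj])
  have h4 := conj_eq_self_of_C1 (hN h3)
  have h5 : w * (g * w * g⁻¹) = w * o * w⁻¹ * o⁻¹ := by
    rw [H9.inv_eq_of_orderOf w2]
    nth_rewrite 4 [← h4]; group
  have := h1.elt (h5 ▸ mul_mem (conj_mem h2 hw ho) (inv_mem ho) : w * (g * w * g⁻¹) ∈ O)
  exact Nat.odd_iff.2 (by have := (piNat_compl_iff Nat.prime_two).1 this; omega)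

/-- an element of odd order inverted by an element of `W` lies in a `W`-invariant odd subgroup, so
each prime dividing its order divides the order of an involution centralizer -/
theorem OC.exists_comm (h : OC W) (hc : ¬ Cyc W) (hw : w ∈ W) (hx : PiElt {2}ᶜ x)
    (hi : w * x * w⁻¹ = x⁻¹) {r : ℕ} (hr : r.Prime) (hd : r ∣ orderOf x) :
    ∃ y u : G, orderOf y = r ∧ orderOf u = 2 ∧ y * u = u * y := by
  obtain ⟨O, h1, h2, o, ho, e⟩ := h.oc x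
  have h3 : Hall {2}ᶜ O (O ⊔ W) := hall_of_sup h1 h.pi.compl_compl (Or.inr h2)
  have h4 : x * x ∈ O ⊔ W := by
    have : x * x = x * w⁻¹ * x⁻¹ * w := by rw [← hi]; group
    rw [this]
    exact mul_mem (cj_le_of_mem le_sup_right (mem_sup_left ho) (e ▸ conj_mem_cj (inv_mem hw)))
      (mem_sup_right hw)
  have h5 : x * x ∈ O := h3.mem_of_nml (sup_le le_N h2) h4 (hx.mul' hx rfl)
  have h6 : r ∣ Nat.card O := by
    refine Dvd.dvd.trans ?_ (H18.orderOf_dvd_card h5)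
    rwa [← pow_two, ((piNat_compl_iff_coprime Nat.prime_two).1 hx).orderOf_pow]
  obtain ⟨P, hP, hn⟩ := (cop_pi h2 h.pi h1).exists_sylow hr
  obtain ⟨a, ha, a1, e'⟩ := exists_cent1_ne_bot h.abel hc hn (h.pi.coprime (h1.of_le hP.le))
    (hP.ne_bot_p hr h6)
  obtain ⟨y, hy, e1⟩ := cauchy hr (hP.pi.inf_left.dvd_card e')
  obtain ⟨u, hu, e2⟩ := exists_inv_zpowers (h.pi.elt ha) a1
  exact ⟨y, u, e1, e2, mem_C1.1 (C1_le_of_mem_zpowers hu hy.2)⟩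

end H21
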