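import Cfsg.Agent.H21.ExtCl
import Cfsg.Agent.H18.Bender
import Cfsg.Agent.H18.GT1
import Cfsg.Agent.H22.GW
import Cfsg.Agent.H2.LyE
import Cfsg.Agent.H10.PSL2Sub
import Cfsg.Agent.S0516

/-! `OC.le_O2`: an abelian 2-subgroup with `OC W` lies in `O_{2',2}(G)` (signalizer functors, `Z*`,
and for rank two Gorenstein–Walter and Lyons).  Also `psl2_odd_real`: in `PSL₂(q)`, `q > 3` odd,
some involution inverts an element of odd prime order `r` with no element of order `2r`. -/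

set_option autoImplicit false

namespace H21

open H18 H1 Subgroup Cfsg
open scoped commutatorElement MatrixGroups

universe u

theorem dihedral_real {G : Type*} [Group G] {D : Subgroup G} {n : ℕ} (e : D ≃* DihedralGroup n) :
    ∃ s x : G, orderOf s = 2 ∧ orderOf x = n ∧ s * x * s⁻¹ = x⁻¹ := by
  refine ⟨e.symm (DihedralGroup.sr 0), e.symm (DihedralGroup.r 1), ?_, ?_, ?_⟩
  · rw [Subgroup.orderOf_coe, MulEquiv.orderOf_eq, DihedralGroup.orderOf_sr]
  · rw [Subgroup.orderOf_coe, MulEquiv.orderOf_eq, DihedralGroup.orderOf_r_one]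
  · rw [← coe_inv, ← coe_inv, ← coe_mul, ← coe_mul, ← map_inv, ← map_inv, ← map_mul, ← map_mul]
    simp

theorem psl2_odd_real {F : Type*} [Field F] [Fintype F] (ho : Odd (Fintype.card F))
    (h3 : 3 < Fintype.card F) : ∃ (s x : PSL(2, F)) (r : ℕ), orderOf s = 2 ∧ Odd (orderOf x) ∧
      s * x * s⁻¹ = x⁻¹ ∧ r.Prime ∧ r ∣ orderOf x ∧ ∀ y : PSL(2, F), orderOf y ≠ r * 2 := by
  classical
  obtain ⟨k, hk⟩ := ho
  obtain ⟨p, hp, m, pp, e⟩ := FiniteField.card' F
  haveI := Fact.mk pp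
  have hg : Nat.gcd 2 (Fintype.card F - 1) = 2 := Nat.gcd_eq_left ⟨k, by omega⟩
  have key : ∀ n : ℕ, Odd n → (n = k ∨ n = k + 1) → ∀ r : ℕ, r.Prime → r ∣ n →
      ∀ y : PSL(2, F), orderOf y ≠ r * 2 := fun n hn hnk r hr hd y hy => by
    have h1 := H10.orderOf_PSL2_dvd p (H10.ι_mem y)
    rw [orderOf_injective _ H10.ι_injective, hy, hg, show (Fintype.card F + 1) / 2 = k + 1 by omega,
      show (Fintype.card F - 1) / 2 = k by omega] at h1
    have h2 : ¬ 2 ∣ n := hn.not_two_dvd_nat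
    have h4 : ∀ a, r ∣ a → r ∣ a + 1 → False := fun a h h' =>
      hr.one_lt.ne' (Nat.dvd_one.1 ((Nat.dvd_add_right h).1 h'))
    rcases h1 with h1 | h1 | h1
    · have : p = 2 := ((Nat.prime_dvd_prime_iff_eq Nat.prime_two pp).1 (Dvd.dvd.trans (by simp) h1)).symm
      subst this
      have : 2 ∣ Fintype.card F := e ▸ dvd_pow_self 2 m.ne_zero
      omega
    · rcases hnk with rfl | rfl
      · exact h4 _ hd (Dvd.dvd.trans (by simp) h1)
      · exact h2 (Dvd.dvd.trans (by simp) h1)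
    · rcases hnk with rfl | rfl
      · exact h2 (Dvd.dvd.trans (by simp) h1)
      · exact h4 _ (Dvd.dvd.trans (by simp) h1) hd
  obtain ⟨n, hn, hnk, D, ⟨f⟩⟩ : ∃ n, Odd n ∧ (n = k ∨ n = k + 1) ∧ ∃ D : Subgroup PSL(2, F),
      Nonempty (D ≃* DihedralGroup n) := by
    rcases Nat.even_or_odd k with h | h
    · obtain ⟨D, -, -, -, -, f⟩ := H10.exists_dihedral_nonsplit (F := F)
      rw [hg, show (Fintype.card F + 1) / 2 = k + 1 by omega] at f
      exact ⟨k + 1, h.add_one, Or.inr rfl, D, f⟩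
    · obtain ⟨D, -, -, -, -, f⟩ := H10.exists_dihedral_split (F := F) (by omega)
      rw [hg, show (Fintype.card F - 1) / 2 = k by omega] at f
      exact ⟨k, h, Or.inl rfl, D, f⟩
  obtain ⟨s, x, h1, h2, h4⟩ := dihedral_real f
  obtain ⟨r, hr, hd⟩ := Nat.exists_prime_and_dvd (n := n) (by omega)
  exact ⟨s, x, r, h1, h2 ▸ hn, h4, hr, h2 ▸ hd, key n hn hnk r hr hd⟩

section
variable {G : Type u} [Group G] [Finite G] {W S M : Subgroup G}

theorem OC.not_se [IsSimpleGroup G] (h : OC W) (hc : ¬ Cyc W) (hM : IsStronglyEmbedded M) : False := by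
  have hM' := sein_top.2 hM
  obtain ⟨T, hT⟩ := exists_sylow Nat.prime_two M
  have hT' : Hall {2} T ⊤ := H17.hall_of_N_le Nat.prime_two (by rwa [inf_top_eq]) (hM'.norm_le hT.le
    (even_iff_two_dvd.2 (hT.dvd_card_p Nat.prime_two hM.2.1.two_dvd)))
  obtain ⟨k, -, e⟩ := sylow_le_cj Nat.prime_two hT' h.pi le_top
  have h' := h.cj k
  have hc' : ¬ Cyc (H18.cj k W) := fun c => hc (cyc_cj.1 c)
  have hWM := e.trans hT.le
  generalize H18.cj k W = V at h' hc' hWM
  have hn : normalClosure (V : Set G) ≤ M := by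
    refine (closure_le _).2 fun x hx => ?_
    obtain ⟨b, hb, hc⟩ := Group.mem_conjugatesOfSet_iff.1 hx
    obtain ⟨g, rfl⟩ := isConj_iff.1 hc
    obtain ⟨O, h1, h2, o, ho, e⟩ := h'.oc g
    have h3 : O ≤ M := h'.odd_le hc' h1 h2 fun w hw w1 => by
      obtain ⟨u, hu, u2⟩ := exists_inv_zpowers (h'.pi.elt hw) w1
      exact (inf_le_inf le_top (C1_le_of_mem_zpowers hu)).trans (hM'.C1_le
        (hWM (zpowers_le.2 hw hu)) (H9.mul_self_of_orderOf u2) (H9.ne_one_of_orderOf u2))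
    exact cj_le_of_mem hWM (h3 ho) (e ▸ conj_mem_cj hb)
  rcases (normalClosure_normal (s := (V : Set G))).eq_bot_or_eq_top with e | e
  · exact ne_bot_of_not_cyc hc' (eq_bot_iff.2 (e ▸ le_normalClosure))
  · exact hM.1 (top_le_iff.1 (e ▸ hn))

theorem OC.rank_two [IsSimpleGroup G] (hG : ¬ IsMulCommutative G) (h : OC W) (hE : Elem 2 W)
    (h4 : Nat.card W = 2 ^ 2) (hC : ∀ t ∈ C(W), t * t = 1 → t ∈ W) : False := by
  have hc : ¬ Cyc W := fun c => by have := hE.card_le_of_cyc Nat.prime_two c; omega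
  obtain ⟨S, hS, hWS⟩ := exists_sylow_le Nat.prime_two h.pi le_top
  have hn : S ≤ N(W) := fun g hg => h.mem_N hS.pi hWS (le_N hg)
  have hr : PRankLE 2 2 G := by
    rw [← prank_top_le_iff Nat.prime_two, ← prank_sylow Nat.prime_two hS]
    by_contra e
    have hb := H17.big_of_norm Nat.prime_two hS.pi hWS hn hE h4
      ((H17.big_bot_iff Nat.prime_two).2 (not_le.1 e))
    rw [H17.big_iff Nat.prime_two hWS hE] at hb
    obtain ⟨B, hB⟩ := exists_pelem_of_lt Nat.prime_two hb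
    have := card_le (show B ≤ W from fun b hb => hC b (hB.le hb).2 (by
      rw [← pow_two]; exact hB.elem.2 b hb))
    rw [hB.card, h4] at this
    omega
  have hinv : ∀ s ∈ S, s * s = 1 → s ∈ W := fun s hs ss => by
    rcases (Nat.dvd_prime Nat.prime_two).1 (H17.relIndex_C_dvd hS.pi Nat.prime_two hn h4) with e | e
    · exact hC s (relIndex_eq_one_iff.1 e hs) ss
    · obtain ⟨g, hg⟩ := GT.thompson (fun M hM => by
        haveI := normal_of_index_eq_two hM
        rcases (inferInstance : M.Normal).eq_bot_or_eq_top with e | e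
        · rw [e, index_bot] at hM
          have := card_le (le_top (a := W))
          rw [card_top] at this; omega
        · rw [e, index_top] at hM; omega) hS e hs ss
      have := hC _ hg (by
        calc g * s * g⁻¹ * (g * s * g⁻¹) = g * (s * s) * g⁻¹ := by group
          _ = 1 := by rw [ss]; group)
      have h1 := h.sc (g := g⁻¹) hS.pi hWS this (by simpa [mul_assoc] using hs)
      simpa [mul_assoc] using h1
  have hsq : ∀ x s : S, orderOf s = 2 → (x * s * x⁻¹ * s⁻¹) ^ 2 = 1 := fun x s hs => by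
    have h1 : (s : G) ∈ W := hinv s s.2 (by
      rw [← coe_mul, H9.mul_self_of_orderOf hs, coe_one])
    exact Subtype.ext (hE.2 _ (mul_mem (conj_mem hn x.2 h1) (inv_mem h1)))
  obtain ⟨P, rfl⟩ := hS.exists_sylow_top Nat.prime_two
  letI : Fintype (GaloisField 2 4) := Fintype.ofFinite _
  have hF : Fintype.card (GaloisField 2 4) = 16 := by
    rw [← Nat.card_eq_fintype_card, GaloisField.card 2 4 (by norm_num)]; norm_num
  obtain ⟨U⟩ : Nonempty (Sylow 2 (PSU 3 (GaloisField 2 4) 4)) := inferInstance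
  rcases Cfsg.Agent.S0516.result hG hr P hF U with ⟨n, hn2, ⟨e⟩⟩ | ⟨n, h3, -, x, y, hx, hy, e⟩ |
    ⟨n, h2, -, x, y, z, hx, hxy, hi, hz, e⟩ | e
  · rcases H22.gw_sylow hG P e with ⟨F, _, _, ho, h3, ⟨f⟩⟩ | ⟨⟨f⟩⟩
    · obtain ⟨s, x, r, s2, hx, hi, hr', hd, hno⟩ := psl2_odd_real ho h3
      have s2' : orderOf (f.symm s) = 2 := by rwa [MulEquiv.orderOf_eq]
      obtain ⟨g, -, hg⟩ := sylow_le_cj Nat.prime_two hS (piElt_of_two s2').zpowers le_top
      have hw : g * f.symm s * g⁻¹ ∈ W := hinv _ (hg (conj_mem_cj (mem_zpowers _)))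
        (H9.mul_self_of_orderOf (by rw [H18.orderOf_conj, s2']))
      have ho' : orderOf (g * f.symm x * g⁻¹) = orderOf x := by
        rw [H18.orderOf_conj, MulEquiv.orderOf_eq]
      obtain ⟨y, u, e1, e2, e3⟩ := h.exists_comm hc hw (x := g * f.symm x * g⁻¹)
        ((piNat_compl_iff Nat.prime_two).2 (ho' ▸ hx.not_two_dvd_nat)) (by
          have := congrArg f.symm hi
          rw [map_mul, map_mul, map_inv, map_inv] at this
          calc _ = g * (f.symm s * f.symm x * (f.symm s)⁻¹) * g⁻¹ := by group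
            _ = _ := by rw [this]; group) hr' (ho' ▸ hd)
      refine hno (f (y * u)) ?_
      rw [MulEquiv.orderOf_eq, (Commute.orderOf_mul_eq_mul_orderOf_of_coprime e3 ?_), e1, e2]
      rw [e1, e2]
      exact (Nat.coprime_primes hr' Nat.prime_two).2 fun e => hx.not_two_dvd_nat (e ▸ hd)
    · have h1 : (P : Subgroup G) ≤ W := fun g hg => by
        have key : ∀ i, ((e.symm (DihedralGroup.sr i) : P) : G) ∈ W := fun i => hinv _ (e.symm _).2 (by
          rw [← coe_mul, ← map_mul, DihedralGroup.sr_mul_sr, sub_self, DihedralGroup.r_zero, map_one, coe_one])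
        obtain ⟨d, hd⟩ := e.symm.surjective ⟨g, hg⟩
        have hd' : g = (e.symm d : P) := by rw [hd]
        rcases d with i | i
        · have := mul_mem (key 0) (key i)
          rwa [← coe_mul, ← map_mul, DihedralGroup.sr_mul_sr, sub_zero, ← hd'] at this
        · exact hd' ▸ key i
      have h2 : 2 ^ 3 ∣ Nat.card P := hS.dvd_of_piNat (piNat_pow_self Nat.prime_two 3) (by
        rw [card_top, Nat.card_congr f.toEquiv, nat_card_alternatingGroup]; simp; decide)
      have := Nat.le_of_dvd card_pos' (h2.trans (card_dvd h1))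
      omega
  · have h1 := hsq x y hy
    have h2 : x * y * x⁻¹ * y⁻¹ = x * (x ^ (2 ^ (n - 1) - 1))⁻¹ := by rw [← e]; group
    obtain ⟨m, rfl⟩ : ∃ m, n = m + 3 := ⟨n - 3, by omega⟩
    obtain ⟨k, hk⟩ : ∃ k, 2 ^ m = k + 1 := ⟨2 ^ m - 1, by have := Nat.one_le_two_pow (n := m); omega⟩
    have h5 : 2 ^ (m + 3 - 1) - 1 = 4 * k + 2 + 1 := by
      rw [show m + 3 - 1 = m + 2 by omega, pow_add, hk]; omega
    rw [h2, h5, pow_succ' x, mul_inv_rev, ← mul_assoc, ((Commute.refl x).pow_right _).inv_right.eq,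
      mul_inv_cancel_right, inv_pow, inv_eq_one, ← pow_mul] at h1
    have h6 := Nat.le_of_dvd (by omega) (hx ▸ orderOf_dvd_of_pow_eq_one h1)
    rw [pow_add, hk] at h6
    omega
  · have h1 := hsq x z hz
    have h3 : x * z * x⁻¹ * z⁻¹ = x * y⁻¹ := by rw [← e]; group
    rw [h3, (Commute.inv_right hxy).mul_pow, inv_pow, mul_inv_eq_one] at h1
    have h5 : x ^ 2 = 1 := eq_one_of_eq_bot hi ⟨pow_mem (mem_zpowers x) 2, h1 ▸ pow_mem (mem_zpowers y) 2⟩
    have h6 := Nat.le_of_dvd (by omega) (hx ▸ orderOf_dvd_of_pow_eq_one h5)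
    have := Nat.pow_le_pow_right two_pos h2
    omega
  · obtain ⟨M, hM⟩ := H2.lyons_se hF P U e
    exact h.not_se hc hM

theorem OC.simple [IsSimpleGroup G] (hG : ¬ IsMulCommutative G) (h : OC W) (hE : Elem 2 W)
    (hc : ¬ Cyc W) (ih : ∀ a : G, a ≠ 1 → W ≤ C1(a) → W ≤ O2[{2}ᶜ,{2}](C1(a))) :
    W ≤ O2[{2}ᶜ,{2}]((⊤ : Subgroup G)) := by
  obtain ⟨k, hk⟩ := h.pi.card_eq_pow
  have h4 : 2 ≤ k := by
    by_contra e
    exact hc (h.pi.cyc_of_card_le Nat.prime_two (hk ▸ (Nat.pow_le_pow_right two_pos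
      (show k ≤ 1 by omega)).trans (by norm_num)))
  by_cases h8 : 3 ≤ k
  · exact h.sig hc hE (hk ▸ Nat.pow_le_pow_right two_pos h8) le_rfl (fun a ha => Or.inl ha)
      fun a ha a1 => ih a a1 (le_C1_iff.2 (h.abel ha))
  obtain rfl : k = 2 := by omega
  by_cases hC : ∀ t ∈ C(W), t * t = 1 → t ∈ W
  · exact (h.rank_two hG hE hk hC).elim
  push Not at hC
  obtain ⟨t, tc, tt, tn⟩ := hC
  obtain ⟨hA, h8⟩ := H17.card_sup_elt Nat.prime_two hE hk.ge (by rwa [pow_two]) tc tn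
  refine h.sig hc hA h8 le_sup_left (fun a ha => ?_)
    fun a ha a1 => ih a a1 (le_C1_iff.2 (C_anti le_sup_left (hA.abel ha)))
  by_cases haW : a ∈ W
  · exact Or.inl haW
  refine Or.inr ?_
  have e : W ⊔ zpowers a = W ⊔ zpowers t := by
    obtain ⟨-, h8'⟩ := H17.card_sup_elt Nat.prime_two hE hk.ge (hA.2 a ha)
      (C_anti le_sup_left (hA.abel ha)) haW
    refine eq_of_card_ge (sup_le le_sup_left (zpowers_le.2 ha)) (le_trans ?_ h8')
    refine Nat.le_of_dvd (by norm_num) ((Nrm2.card_sup_dvd (Or.inr (zpowers_le.2 (C_le_N tc)))).trans ?_)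
    rw [hk, card_zpowers', H9.orderOf_eq_two.2 ⟨tt, fun e => tn (e ▸ one_mem _)⟩]
    norm_num
  rw [← e, C_sup, C_zpowers, inf_comm]

end

theorem OC.le_O2_aux (n : ℕ) : ∀ (G : Type u) [Group G] [Finite G] (W : Subgroup G),
    Nat.card G = n → OC W → W ≤ O2[{2}ᶜ,{2}]((⊤ : Subgroup G)) := by
  induction n using Nat.strong_induction_on with
  | _ n ih =>
  intro G _ _ W hn h
  have sub : ∀ V H : Subgroup G, OC V → V ≤ H → H ≠ ⊤ → V ≤ O2[{2}ᶜ,{2}](H) := fun V H hV hVH hH => by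
    have := ih _ (by
      have := card_lt (lt_top_iff_ne_top.2 hH)
      rwa [card_top, hn] at this) _ _ rfl (hV.mim (f := MonoidHom.id H) hVH
        (by rw [mim_id, subgroupOf_self]))
    rw [mim_id] at this
    have h2 := (mim_mono (f := H.subtype.comp (⊤ : Subgroup H).subtype) this).trans
      (mim_pcore2_le le_top)
    rwa [mim_subtype, mim_subtype, subgroupOf_map_subtype, inf_eq_left.2 hVH, ← MonoidHom.range_eq_map,
      range_subtype] at h2
  have quo : ∀ K : Subgroup G, K ⊴ ⊤ → K ≠ ⊥ → W ≤ qpre K O2[{2}ᶜ,{2}](⊤ ⫽ K) := fun K hK h1 => by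
    have e : (⊤ : Subgroup G) ⫽ K = ⊤ := top_le_iff.1 (quo_N.ge.trans (mim_mono le_top))
    refine (mim_le_iff (le_top.trans hK.norm)).1 (e ▸ ih _ ?_ _ _ rfl
      (h.mim (f := coset K) (le_top.trans hK.norm) quo_N))
    have := card_quo_lt hK h1
    rwa [e, card_top, card_top, hn] at this
  by_cases hO : O[{2}ᶜ]((⊤ : Subgroup G)) = ⊥
  swap
  · exact (quo _ pcore_nml hO).trans (qpre_pcore2 pcore_nml pcore_pi).le
  by_cases hO2 : O[{2}]((⊤ : Subgroup G)) = ⊥
  swap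
  · refine (h.le_pcore_of_solv hO (nml_qpre pcore_nml pcore2_nml) (solv_of_quo qpre_le ?_ pcore_pi.solv)
      (quo _ pcore_nml hO2)).trans pcore_le_pcore2'
    rw [quo_qpre]
    refine solv_of_quo pcore_nml_pcore2.norm ?_ (solv_of_two' pcore_pi)
    rw [quo_pcore2]; exact pcore_pi.solv
  rw [pcore2_eq_of_bot hO, hO2]
  have hZ : ∀ z : G, z ∈ C((⊤ : Subgroup G)) → z = 1 := fun z hz =>
    eq_one_of_eq_bot ((fit_eq_pcore hO).trans hO2) (Z_le_fit ⟨mem_top z, hz⟩)
  have big : ∀ V : Subgroup G, OC V → V ≠ ⊥ → ∀ M, M ⊴ ⊤ → M ≠ ⊥ → M ⊔ V = ⊤ := by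
    intro V hV V1 M hM M1
    by_contra e
    have h1 := sub V _ hV le_sup_right e
    have hMn : M ⊴ M ⊔ V := hM.of_le le_sup_left le_top
    have h2 : O[{2}ᶜ](M ⊔ V) = ⊥ := by
      have : O[{2}ᶜ](M ⊔ V) ≤ M := pcore_pi.le_of_nml pcore_le hMn (by
        rw [(hMn.nrm2 le_sup_right).relIndex_sup']; exact hV.pi.relIndex.compl_compl)
      exact eq_bot_iff.2 (hO ▸ (pcore_le_pcore_of_le le_sup_left this).trans hM.pcore_le_pcore)
    rw [pcore2_eq_of_bot h2] at h1
    have h3 : V ≤ C(M) := by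
      rw [← comm_eq_bot_iff, eq_bot_iff, ← hO2]
      refine le_trans ?_ hM.pcore_le_pcore
      rw [hMn.pcore_eq_inf, inf_comm]
      exact (comm_mono h1 le_rfl).trans (pcore_nml.comm_le_inf hMn)
    have h4 : C(M) ⊴ ⊤ := ⟨le_top, norm_C hM.norm⟩
    have h5 := (sub V _ hV h3 fun e' => M1 (eq_bot_iff.2 fun m hm =>
      hZ m (cent_symm e'.ge hm))).trans h4.pcore2_le_pcore2
    rw [pcore2_eq_of_bot hO, hO2] at h5
    exact V1 (eq_bot_iff.2 h5)
  have niso : ∀ V : Subgroup G, OC V → ∀ w ∈ V, orderOf w = 2 → ¬ N(V) ≤ C1(w) :=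
    fun V hV w hw w2 hN => H9.ne_one_of_orderOf w2 (hZ w (mem_C.2 fun a _ => mem_center_iff.1
      (H9.zstar_center (hV.isolated hw w2 hN) (by rw [pPrimeCore_eq Nat.prime_two, hO])) a))
  by_contra W1
  rw [le_bot_iff] at W1
  obtain ⟨w, hw, w2⟩ := cauchy Nat.prime_two (h.pi.dvd_card W1)
  haveI : Nontrivial G := ⟨w, 1, H9.ne_one_of_orderOf w2⟩
  haveI : IsSimpleGroup G := ⟨fun M hM => by
    by_contra e
    push Not at e
    by_cases h1 : W ⊓ M = ⊥
    · refine niso W h w hw w2 fun g hg => ?_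
      obtain ⟨m, hm, v, hv, rfl⟩ := (mem_sup_of_norm' norm_of_normal).1
        ((big W h W1 M nml_top e.1).ge (mem_top g))
      have hm' : m ∈ N(W) := by simpa using mul_mem hg (inv_mem (le_N hv))
      refine mul_mem (C_le_C1 hw ?_) (C_le_C1 hw (h.abel hv))
      exact cent_of_inf_eq_bot (A := M ⊓ N(W)) inf_le_right (norm_inf norm_of_normal (le_N.trans le_N))
        (eq_bot_iff.2 (h1 ▸ le_inf inf_le_right (inf_le_left.trans inf_le_left))) ⟨hm, hm'⟩
    · exact e.2 (by simpa using big _ (h.sub inf_le_left (norm_inf le_rfl norm_of_normal)) h1 M nml_top e.1)⟩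
  have h' : OC Ω[2](W) := h.sub omega_le (norm_omega le_rfl)
  have hw' : w ∈ Ω[2](W) := mem_omega hw (w2 ▸ pow_orderOf_eq_one w)
  have hc : ¬ Cyc Ω[2](W) := fun c => niso _ h' w hw' w2 <| by
    refine le_trans (c.N_le (zpowers_le.2 hw')) ?_
    rw [← C_zpowers]
    have := prime_relIndex_C_dvd Nat.prime_two (X := zpowers w) (by rw [card_zpowers', w2]) le_rfl
    exact relIndex_eq_one_iff.1 (by simpa using this)
  have := h'.simple (fun c => H9.ne_one_of_orderOf w2 (hZ w (mem_C.2 fun a _ => c.1.1 a w)))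
    h.abel.omega_elem hc fun a a1 ha => sub _ _ h' ha fun e => a1 (hZ a (le_C1_iff.1 e.ge))
  rw [pcore2_eq_of_bot hO, hO2] at this
  exact H9.ne_one_of_orderOf w2 (this hw')

theorem OC.le_O2 {G : Type u} [Group G] [Finite G] {W : Subgroup G} (h : OC W) :
    W ≤ O2[{2}ᶜ,{2}]((⊤ : Subgroup G)) := OC.le_O2_aux _ G W rfl h

end H21
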