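import Cfsg.Agent.H11.Gm0

/-! Minimal degree of `G₂(q)` in characteristic three (`p3`): counting joint weight spaces of the commuting root
subgroups `8, 9, 10, 11`. -/
set_option autoImplicit false
set_option linter.unusedSectionVars false
namespace H21.Gm3
open H24 H11.Gm Module

section
variable {F G M : Type*} [Field F] [Fintype F] [Group G] [AddCommGroup M] [Module ℂ M] [FiniteDimensional ℂ M]
  {S : Sy F G} {ρ : G →* End ℂ M} {ψ : AddChar F ℂ}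

theorem x0 (S : Sy F G) (r : ℕ) : S.x r 0 = 1 := by simpa using S.add r 0 0

theorem J_iff {r s : ℕ} {m ε : F} {g : G} (e0 : ε ≠ 0) (hg : ∀ t, g * S.x r t * g⁻¹ = S.x s (ε * t)) {v : M} :
    ρ g v ∈ J S ρ ψ s (m / ε) ↔ v ∈ J S ρ ψ r m := ⟨fun h t => inj (ρ := ρ) g (by
  rw [← app, mul_inv_eq_iff_eq_mul.1 (hg t), app, mem_J.1 h, map_smul]
  congr 2; field_simp), J_conj e0 hg⟩

theorem fr_eq (g : G) {U U' : Submodule ℂ M} (h : ∀ v, ρ g v ∈ U' ↔ v ∈ U) : finrank ℂ U = finrank ℂ U' :=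
  le_antisymm (fr_le g fun v hv => (h v).2 hv) (fr_le (ρ := ρ) g⁻¹ fun v hv => (h _).1 (by simpa [← app] using hv))

theorem Jt {e r : ℕ} (he : e ∈ [6, 7, 8, 9, 10, 11]) (hr : r ∈ [6, 7, 8, 9, 10, 11]) (z : Fˣ) {m m' : F}
    (h : m = m' * (z : F) ^ pr e r) {v : M} : ρ (S.h e z) v ∈ J S ρ ψ r m' ↔ v ∈ J S ρ ψ r m := by
  have z0 : ((z ^ pr e r : Fˣ) : F) ≠ 0 := Units.ne_zero _
  rw [← J_iff (m := m) z0 (S.tor e he r hr z), h, ← Units.val_zpow_eq_zpow_val, mul_div_cancel_right₀ _ z0]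

theorem cj {r s : ℕ} (h : (r, s) ∈ [(6, 8), (6, 9), (6, 11), (7, 10), (7, 11), (8, 10), (8, 11), (9, 10), (9, 11),
    (10, 11)]) {m t : F} {v : M} (hv : v ∈ J S ρ ψ r m) : ρ (S.x s t) v ∈ J S ρ ψ r m :=
  J_comm (fun u => S.cm _ h u t) hv

theorem cj' {r s : ℕ} (h : (s, r) ∈ [(6, 8), (6, 9), (6, 11), (7, 10), (7, 11), (8, 10), (8, 11), (9, 10), (9, 11),
    (10, 11)]) {m t : F} {v : M} (hv : v ∈ J S ρ ψ r m) : ρ (S.x s t) v ∈ J S ρ ψ r m :=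
  J_comm (fun u => (S.cm _ h t u).symm) hv

theorem self {r : ℕ} {m t : F} {v : M} (hv : v ∈ J S ρ ψ r m) : ρ (S.x r t) v ∈ J S ρ ψ r m := by
  rw [mem_J.1 hv]; exact Submodule.smul_mem _ _ hv

theorem mv {r : ℕ} {g : G} {k : F → G} {m : F} {c : F → F} {m' : F} {v : M}
    (h : ∀ u, S.x r u * g = g * S.x r u * k u) (hv : v ∈ J S ρ ψ r m) (hk : ∀ u, ρ (k u) v = ψ (c u) • v)
    (e : ∀ u, c u + u * m = u * m') : ρ g v ∈ J S ρ ψ r m' := fun u => by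
  change ρ _ _ = _
  rw [← app, h, app, app, hk, map_smul, map_smul, mem_J.1 hv, map_smul, smul_smul, ← AddChar.map_add_eq_mul, e]

theorem m6A {a b t : F} {v : M} (h1 : v ∈ J S ρ ψ 10 a) (h2 : v ∈ J S ρ ψ 11 b) :
    ρ (S.x 6 t) v ∈ J S ρ ψ 10 (a - t * b) :=
  mv (S.c6A t) h1 (fun u => mem_J.1 h2 _) fun u => by ring

theorem mA6 {a t : F} {v : M} (h1 : v ∈ J S ρ ψ 6 a) (h2 : v ∈ J S ρ ψ 11 0) : ρ (S.x 10 t) v ∈ J S ρ ψ 6 a :=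
  fun u => by
  change ρ _ _ = _
  have := congrArg (fun g => ρ g v) (S.c6A u t)
  simp only [app, mem_J0.1 h2, mem_J.1 h1, map_smul] at this
  exact this.symm

variable (h3 : (3 : F) = 0)
include h3

theorem m78 {a b t : F} {v : M} (h1 : v ∈ J S ρ ψ 8 a) (h2 : v ∈ J S ρ ψ 9 b) :
    ρ (S.x 7 t) v ∈ J S ρ ψ 8 (a + 2 * t * b) :=
  mv (S.c78 t) h1 (fun u => by simpa [h3, x0] using mem_J.1 h2 (2 * t * u)) fun u => by ring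

theorem m79 {a t : F} {v : M} (h1 : v ∈ J S ρ ψ 9 a) : ρ (S.x 7 t) v ∈ J S ρ ψ 9 a :=
  J_comm (fun u => by simpa [h3, x0, commute_iff_eq] using S.c79 t u) h1

theorem m89 {a t : F} {v : M} (h1 : v ∈ J S ρ ψ 9 a) : ρ (S.x 8 t) v ∈ J S ρ ψ 9 a :=
  J_comm (fun u => by simpa [h3, x0, commute_iff_eq] using S.c89 t u) h1

end

section
variable {F G M : Type*} [Field F] [Fintype F] [Group G] [AddCommGroup M] [Module ℂ M] [FiniteDimensional ℂ M]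
  (S : Sy F G) (ρ : G →* End ℂ M) (ψ : AddChar F ℂ)

/-- joint weight space -/
noncomputable def K (a1 a2 m1 m2 : F) : Submodule ℂ M :=
  J S ρ ψ 11 m2 ⊓ J S ρ ψ 9 a2 ⊓ J S ρ ψ 8 a1 ⊓ J S ρ ψ 10 m1
noncomputable def N (a1 a2 m1 m2 : F) : ℕ := finrank ℂ (K S ρ ψ a1 a2 m1 m2)
noncomputable def Q (a1 a2 m2 : F) : ℕ := finrank ℂ ↥(J S ρ ψ 11 m2 ⊓ J S ρ ψ 9 a2 ⊓ J S ρ ψ 8 a1)
noncomputable def P (a2 m1 m2 : F) : ℕ := finrank ℂ ↥(J S ρ ψ 11 m2 ⊓ J S ρ ψ 9 a2 ⊓ J S ρ ψ 10 m1)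
noncomputable def R (a2 m2 : F) : ℕ := finrank ℂ ↥(J S ρ ψ 11 m2 ⊓ J S ρ ψ 9 a2)
noncomputable def A (a0 a1 : F) : ℕ := finrank ℂ ↥(K S ρ ψ a1 0 0 0 ⊓ J S ρ ψ 7 a0)
noncomputable def C (a1 m1 b : F) : ℕ := finrank ℂ ↥(K S ρ ψ a1 0 m1 0 ⊓ J S ρ ψ 6 b)
noncomputable def D (b a0 : F) : ℕ := finrank ℂ ↥(K S ρ ψ 0 0 0 0 ⊓ J S ρ ψ 6 b ⊓ J S ρ ψ 7 a0)

variable {S ρ ψ}

theorem mK {a1 a2 m1 m2 : F} {v : M} : v ∈ K S ρ ψ a1 a2 m1 m2 ↔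
    ((v ∈ J S ρ ψ 11 m2 ∧ v ∈ J S ρ ψ 9 a2) ∧ v ∈ J S ρ ψ 8 a1) ∧ v ∈ J S ρ ψ 10 m1 := Iff.rfl

theorem k6 {a1 a2 m1 m2 t : F} {v : M} (h : v ∈ K S ρ ψ a1 a2 m1 m2) :
    ρ (S.x 6 t) v ∈ K S ρ ψ a1 a2 (m1 - t * m2) m2 :=
  ⟨⟨⟨cj' (by simp) h.1.1.1, cj' (by simp) h.1.1.2⟩, cj' (by simp) h.1.2⟩, m6A h.2 h.1.1.1⟩

theorem k7 (h3 : (3 : F) = 0) {a1 a2 m1 m2 t : F} {v : M} (h : v ∈ K S ρ ψ a1 a2 m1 m2) :
    ρ (S.x 7 t) v ∈ K S ρ ψ (a1 + 2 * t * a2) a2 m1 m2 :=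
  ⟨⟨⟨cj' (by simp) h.1.1.1, m79 h3 h.1.1.2⟩, m78 h3 h.1.2 h.1.1.2⟩, cj' (by simp) h.2⟩

theorem k76 {a1 m1 b t : F} {v : M} (h : v ∈ K S ρ ψ a1 0 m1 0) (h6 : v ∈ J S ρ ψ 6 b) :
    ρ (S.x 7 t) v ∈ J S ρ ψ 6 (b + (t * a1 - t ^ 3 * m1)) :=
  mv (c := fun u => -(t ^ 3 * u) * m1 + t * u * a1) (S.c76 t) h6 (fun u => by
    simp only [app, mem_J0.1 h.1.1.1, mem_J.1 h.2, map_smul, mem_J0.1 h.1.1.2, mem_J.1 h.1.2, smul_smul,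
      AddChar.map_add_eq_mul]) fun u => by ring

theorem k67 {a1 a0 t : F} {v : M} (h : v ∈ K S ρ ψ a1 0 0 0) (h7 : v ∈ J S ρ ψ 7 a0) :
    ρ (S.x 6 t) v ∈ J S ρ ψ 7 (a0 - t * a1) :=
  mv (c := fun u => -(t * u) * a1) (S.c67 t) h7 (fun u => by
    simp only [app, mem_J0.1 h.1.1.1, mem_J0.1 h.2, mem_J0.1 h.1.1.2, mem_J.1 h.1.2]) fun u => by ring

theorem kt {e : ℕ} (he : e ∈ [6, 7, 8, 9, 10, 11]) (z : Fˣ) {a1 a2 m1 m2 b1 b2 n1 n2 : F}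
    (h1 : a1 = b1 * (z : F) ^ pr e 8) (h2 : a2 = b2 * (z : F) ^ pr e 9) (h3 : m1 = n1 * (z : F) ^ pr e 10)
    (h4 : m2 = n2 * (z : F) ^ pr e 11) (v : M) :
    ρ (S.h e z) v ∈ K S ρ ψ b1 b2 n1 n2 ↔ v ∈ K S ρ ψ a1 a2 m1 m2 := by
  rw [mK, mK, Jt he (by simp) z h1, Jt he (by simp) z h2, Jt he (by simp) z h3, Jt he (by simp) z h4]

theorem t6 {z : F} (hz : z ≠ 0) (a1 a2 m1 m2 : F) : N S ρ ψ (a1 * z) a2 m1 (m2 * z) = N S ρ ψ a1 a2 (m1 * z) m2 :=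
  fr_eq _ (kt (e := 6) (by simp) (Units.mk0 z hz) (by simp [pr]) (by simp [pr]) (by simp [pr, hz]) (by simp [pr]))

theorem t7 {z : F} (hz : z ≠ 0) (a2 m2 : F) : N S ρ ψ 0 (a2 * z) 0 m2 = N S ρ ψ 0 a2 0 m2 :=
  fr_eq _ (kt (e := 7) (by simp) (Units.mk0 z hz) (by simp) (by simp [pr]) (by simp) (by simp [pr]))

theorem tA {z : F} (hz : z ≠ 0) (a1 m1 : F) : N S ρ ψ a1 0 (m1 * z ^ 2) 0 = N S ρ ψ a1 0 m1 0 :=
  fr_eq _ (kt (e := 10) (by simp) (Units.mk0 z hz) (by simp [pr]) (by simp) (by simp [pr])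
    (by simp))

theorem t9 {z : F} (hz : z ≠ 0) (b a0 : F) : D S ρ ψ b (a0 * z) = D S ρ ψ b a0 :=
  fr_eq (ρ := ρ) (S.h 9 (Units.mk0 z hz)) fun v => by
    simp only [Submodule.mem_inf]
    rw [kt (e := 9) (a1 := 0) (a2 := 0) (m1 := 0) (m2 := 0) (by simp) _ (by simp) (by simp) (by simp) (by simp),
      Jt (e := 9) (r := 6) (m := b) (by simp) (by simp) _ (by simp [pr]),
      Jt (e := 9) (r := 7) (m := a0 * z) (by simp) (by simp) _ (by simp [pr])]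

theorem wy (S : Sy F G) (ρ : G →* End ℂ M) (ψ : AddChar F ℂ) {e r s : ℕ} (h : (e, r, s) ∈ [(6, 7, 8), (6, 8, 7),
    (6, 9, 9), (6, 10, 11), (6, 11, 10), (7, 6, 10), (7, 10, 6), (7, 8, 9), (7, 9, 8), (7, 11, 11)]) :
    ∃ ε : F, ε ≠ 0 ∧ ∀ m v, ρ (S.n e) v ∈ J S ρ ψ s m ↔ v ∈ J S ρ ψ r (m * ε) := by
  obtain ⟨ε, h1, h2⟩ := S.wy _ h
  exact ⟨ε, h1, fun m v => by rw [← J_iff h1 h2, mul_div_cancel_right₀ _ h1]⟩

theorem n6 (S : Sy F G) (ρ : G →* End ℂ M) (ψ : AddChar F ℂ) : ∃ e1 e2 e3 e4 e5 : F, e1 ≠ 0 ∧ e2 ≠ 0 ∧ e3 ≠ 0 ∧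
    e4 ≠ 0 ∧ e5 ≠ 0 ∧ (∀ a2 m1 m2, P S ρ ψ (a2 * e1) (m2 * e2) (m1 * e3) = P S ρ ψ a2 m1 m2) ∧
    (∀ a0 a1, A S ρ ψ (a1 * e4) (a0 * e5) = A S ρ ψ a0 a1) ∧
    ∀ m v, v ∈ J S ρ ψ 10 (m * e2) → (ρ (S.n 6) v ∈ J S ρ ψ 11 m → ρ (S.n 6) v ∈ J S ρ ψ 8 0) →
      v ∈ J S ρ ψ 7 0 := by
  obtain ⟨e1, h1, k1⟩ := wy S ρ ψ (e := 6) (r := 9) (s := 9) (by simp)
  obtain ⟨e2, h2, k2⟩ := wy S ρ ψ (e := 6) (r := 10) (s := 11) (by simp)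
  obtain ⟨e3, h3, k3⟩ := wy S ρ ψ (e := 6) (r := 11) (s := 10) (by simp)
  obtain ⟨e4, h4, k4⟩ := wy S ρ ψ (e := 6) (r := 7) (s := 8) (by simp)
  obtain ⟨e5, h5, k5⟩ := wy S ρ ψ (e := 6) (r := 8) (s := 7) (by simp)
  refine ⟨e1, e2, e3, e4, e5, h1, h2, h3, h4, h5, fun a2 m1 m2 => fr_eq (ρ := ρ) (S.n 6) fun v => ?_,
    fun a0 a1 => fr_eq (ρ := ρ) (S.n 6) fun v => ?_, fun m v h k => by simpa using (k4 0 v).1 (k ((k2 m v).2 h))⟩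
  · simp only [Submodule.mem_inf, k1, k2, k3]; tauto
  · simp only [Submodule.mem_inf, mK, k1, k2, k3, k4, k5, zero_mul]; tauto

theorem n7 (S : Sy F G) (ρ : G →* End ℂ M) (ψ : AddChar F ℂ) : ∃ e1 e2 e3 e4 e5 : F, e1 ≠ 0 ∧ e2 ≠ 0 ∧ e3 ≠ 0 ∧
    e4 ≠ 0 ∧ e5 ≠ 0 ∧ (∀ a1 a2 m2, Q S ρ ψ (a2 * e1) (a1 * e2) (m2 * e3) = Q S ρ ψ a1 a2 m2) ∧
    ∀ m1 b, C S ρ ψ 0 (b * e4) (m1 * e5) = C S ρ ψ 0 m1 b := by
  obtain ⟨e1, h1, k1⟩ := wy S ρ ψ (e := 7) (r := 8) (s := 9) (by simp)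
  obtain ⟨e2, h2, k2⟩ := wy S ρ ψ (e := 7) (r := 9) (s := 8) (by simp)
  obtain ⟨e3, h3, k3⟩ := wy S ρ ψ (e := 7) (r := 11) (s := 11) (by simp)
  obtain ⟨e4, h4, k4⟩ := wy S ρ ψ (e := 7) (r := 10) (s := 6) (by simp)
  obtain ⟨e5, h5, k5⟩ := wy S ρ ψ (e := 7) (r := 6) (s := 10) (by simp)
  refine ⟨e1, e2, e3, e4, e5, h1, h2, h3, h4, h5, fun a1 a2 m2 => fr_eq (ρ := ρ) (S.n 7) fun v => ?_,
    fun m1 b => fr_eq (ρ := ρ) (S.n 7) fun v => ?_⟩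
  · simp only [Submodule.mem_inf, k1, k2, k3]; tauto
  · simp only [Submodule.mem_inf, mK, k1, k2, k3, k4, k5, zero_mul]; tauto

variable (hψ : ψ ≠ 1) (h3 : (3 : F) = 0)
include hψ

theorem sQ (a1 a2 m2 : F) : ∑ m1, N S ρ ψ a1 a2 m1 m2 = Q S ρ ψ a1 a2 m2 :=
  sum_fr hψ fun _ _ h => ⟨⟨self_or h.1.1, cj (by simp) h.1.2⟩, cj (by simp) h.2⟩
where self_or {m t : F} {v : M} (hv : v ∈ J S ρ ψ 11 m) : ρ (S.x 10 t) v ∈ J S ρ ψ 11 m := cj' (by simp) hv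

theorem sR' (a2 m2 : F) : ∑ m1, P S ρ ψ a2 m1 m2 = R S ρ ψ a2 m2 :=
  sum_fr hψ fun _ _ h => ⟨cj' (by simp) h.1, cj (by simp) h.2⟩

theorem sJ (m2 : F) : ∑ a2, R S ρ ψ a2 m2 = finrank ℂ (J S ρ ψ 11 m2) :=
  sum_fr hψ fun _ _ h => cj' (by simp) h

theorem s0 : ∑ m2, finrank ℂ (J S ρ ψ 11 m2) = finrank ℂ M := by
  have := sum_fr (S := S) (ρ := ρ) hψ (U := ⊤) (r := 11) fun _ _ _ => trivial
  rw [finrank_top] at this
  rw [← this]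
  exact Finset.sum_congr rfl fun a _ => by rw [top_inf_eq]

theorem sC (a1 m1 : F) : ∑ b, C S ρ ψ a1 m1 b = N S ρ ψ a1 0 m1 0 :=
  sum_fr hψ fun _ _ h => by simpa using k6 h

include h3

theorem sP (a2 m1 m2 : F) : ∑ a1, N S ρ ψ a1 a2 m1 m2 = P S ρ ψ a2 m1 m2 := by
  rw [P, ← sum_fr (S := S) (ρ := ρ) hψ (r := 8) (U := J S ρ ψ 11 m2 ⊓ J S ρ ψ 9 a2 ⊓ J S ρ ψ 10 m1)
    fun _ _ h => ⟨⟨cj' (by simp) h.1.1, m89 h3 h.1.2⟩, cj' (by simp) h.2⟩]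
  exact Finset.sum_congr rfl fun a1 _ => by rw [N, K, inf_right_comm]

theorem sR (a2 m2 : F) : ∑ a1, Q S ρ ψ a1 a2 m2 = R S ρ ψ a2 m2 :=
  sum_fr hψ fun _ _ h => ⟨cj' (by simp) h.1, m89 h3 h.2⟩

theorem sA (a1 : F) : ∑ a0, A S ρ ψ a0 a1 = N S ρ ψ a1 0 0 0 :=
  sum_fr hψ fun _ _ h => by simpa using k7 h3 h

theorem sD (b : F) : ∑ a0, D S ρ ψ b a0 = C S ρ ψ 0 0 b :=
  sum_fr hψ fun _ _ h => ⟨by simpa using k7 h3 h.1, by simpa using k76 h.1 h.2⟩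

omit h3 in
theorem sD' (a0 : F) : ∑ b, D S ρ ψ b a0 = A S ρ ψ a0 0 := by
  rw [A, ← sum_fr (S := S) (ρ := ρ) hψ (r := 6) (U := K S ρ ψ 0 0 0 0 ⊓ J S ρ ψ 7 a0)
    fun _ _ h => ⟨by simpa using k6 h.1, by simpa using k67 h.1 h.2⟩]
  exact Finset.sum_congr rfl fun a1 _ => by rw [D, inf_right_comm]

omit hψ h3 in
theorem u6 {m2 : F} (h : m2 ≠ 0) (a1 a2 m1 : F) : N S ρ ψ a1 a2 m1 m2 = N S ρ ψ a1 a2 0 m2 :=
  le_antisymm (fr_le (S.x 6 (m1 / m2)) fun v hv => by simpa [h] using k6 (t := m1 / m2) hv)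
    (fr_le (S.x 6 (-(m1 / m2))) fun v hv => by simpa [h] using k6 (t := -(m1 / m2)) hv)

omit hψ in
theorem u7 {a2 : F} (h : a2 ≠ 0) (a1 m1 m2 : F) : N S ρ ψ a1 a2 m1 m2 = N S ρ ψ 0 a2 m1 m2 := by
  have e : ∀ t a : F, a + 2 * t * a2 = a - t * a2 := fun t a => by linear_combination (t * a2) * h3
  exact le_antisymm (fr_le (S.x 7 (a1 / a2)) fun v hv => by simpa only [e, div_mul_cancel₀ _ h, sub_self] using k7 h3 (t := a1 / a2) hv)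
    (fr_le (S.x 7 (-(a1 / a2))) fun v hv => by
      simpa only [e, neg_mul, div_mul_cancel₀ _ h, zero_sub, neg_neg] using k7 h3 (t := -(a1 / a2)) hv)

omit hψ in
theorem uC (a1 m1 b t : F) : C S ρ ψ a1 m1 b ≤ C S ρ ψ a1 m1 (b + (t * a1 - t ^ 3 * m1)) :=
  fr_le (S.x 7 t) fun v hv => ⟨by simpa using k7 h3 hv.1, k76 hv.1 hv.2⟩

omit hψ h3 in
theorem uA {a1 : F} (h : a1 ≠ 0) (a0 : F) : A S ρ ψ a0 a1 = A S ρ ψ 0 a1 :=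
  le_antisymm (fr_le (S.x 6 (a0 / a1)) fun v hv =>
      ⟨by simpa using k6 hv.1, by simpa [h] using k67 (t := a0 / a1) hv.1 hv.2⟩)
    (fr_le (S.x 6 (-(a0 / a1))) fun v hv =>
      ⟨by simpa using k6 hv.1, by simpa [h] using k67 (t := -(a0 / a1)) hv.1 hv.2⟩)

end

section
variable {F : Type*} [Field F] [Fintype F] {f : F → ℕ} {c : ℕ}

theorem sum_ge (h : ∀ a ≠ 0, c ≤ f a) : f 0 + (Fintype.card F - 1) * c ≤ ∑ a, f a := by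
  classical
  rw [← Finset.add_sum_erase _ _ (Finset.mem_univ 0), ← Finset.card_univ, ← Finset.card_erase_of_mem (Finset.mem_univ 0)]
  exact Nat.add_le_add_left (Finset.card_nsmul_le_sum _ _ _ fun a ha => h a (Finset.ne_of_mem_erase ha)) _

theorem sum_ne (h : ∀ a ≠ 0, f a = c) : ∑ a, f a = f 0 + (Fintype.card F - 1) * c := by
  classical
  rw [← Finset.add_sum_erase _ _ (Finset.mem_univ 0), ← Finset.card_univ, ← Finset.card_erase_of_mem (Finset.mem_univ 0),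
    Finset.sum_const_nat fun a ha => h a (Finset.ne_of_mem_erase ha)]

theorem sum_c (h : ∀ a, f a = c) : ∑ a, f a = Fintype.card F * c := by
  rw [Finset.sum_const_nat fun a _ => h a, Finset.card_univ]

theorem sum_sq {m : F} (hm : m ≠ 0) (h : ∀ z ≠ 0, c ≤ f (m * z ^ 2)) : (Fintype.card F - 1) * c ≤ 2 * ∑ a, f a := by
  classical
  have h1 := Finset.card_le_mul_card_image (f := fun z => m * z ^ 2) (Finset.univ.erase (0 : F)) 2 fun y hy => by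
    obtain ⟨z, -, rfl⟩ := Finset.mem_image.1 hy
    refine (Finset.card_le_card fun w hw => ?_).trans (Finset.card_le_two (a := z) (b := -z))
    simpa using sq_eq_sq_iff_eq_or_eq_neg.1 (mul_left_cancel₀ hm (Finset.mem_filter.1 hw).2)
  have h2 := Finset.card_nsmul_le_sum ((Finset.univ.erase (0 : F)).image fun z => m * z ^ 2) f c fun y hy => by
    obtain ⟨z, hz, rfl⟩ := Finset.mem_image.1 hy
    exact h z (Finset.ne_of_mem_erase hz)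
  have h3 := Finset.sum_le_sum_of_subset (f := f)
    (Finset.subset_univ ((Finset.univ.erase (0 : F)).image fun z => m * z ^ 2))
  rw [Finset.card_erase_of_mem (Finset.mem_univ 0), Finset.card_univ] at h1
  rw [smul_eq_mul] at h2
  nlinarith

theorem fresh (h : 9 ≤ Fintype.card F) (a b c : F) : ∃ t, t ≠ a ∧ t ≠ b ∧ t ≠ c := by
  classical
  by_contra k
  have h1 : (Finset.univ : Finset F) ⊆ {a, b, c} := fun u _ => by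
    simp only [Finset.mem_insert, Finset.mem_singleton]
    by_contra l
    simp only [not_or] at l
    exact k ⟨u, l⟩
  have h2 := (Finset.card_le_card h1).trans Finset.card_le_three
  rw [Finset.card_univ] at h2
  omega

theorem cube (h3 : (3 : F) = 0) (a : F) : ∃ t, t ^ 3 = a :=
  (Finite.injective_iff_surjective (f := fun t : F => t ^ 3)).1 (fun x y k => sub_eq_zero.1 (pow_eq_zero_iff (n := 3)
    (by norm_num) |>.1 (by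
      simp only at k
      linear_combination k + (x * y ^ 2 - x ^ 2 * y) * h3))) a

end

theorem arith {r m e1 e2 g0 g1 : ℕ} (hr : 8 ≤ r) (hm : 1 ≤ m)
    (h : m = 1 → 3 * r ^ 2 + 6 * r ≤ r * (r + 2) * e2 + r * (r + 1) * e1 + r * g1 + g0) :
    (r + 1) ^ 4 + (r + 1) ^ 2 ≤ g0 + r * g1 + r * (e2 + r * m) + r * ((r + 1) * e2 + r * ((r + 1) * m)) +
      r * ((r + 1) * e1 + r * ((r + 1) * m) + r * ((r + 1) * ((r + 1) * m))) + 2 := by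
  rcases hm.eq_or_lt with rfl | k
  · have := h rfl
    nlinarith
  · obtain ⟨m, rfl⟩ := Nat.exists_eq_add_of_lt k
    have : 3 * r ^ 2 + 6 * r ≤ r ^ 2 * (r + 2) ^ 2 := by nlinarith
    have e : g0 + r * g1 + r * (e2 + r * (1 + m + 1)) + r * ((r + 1) * e2 + r * ((r + 1) * (1 + m + 1))) +
      r * ((r + 1) * e1 + r * ((r + 1) * (1 + m + 1)) + r * ((r + 1) * ((r + 1) * (1 + m + 1)))) + 2 =
      2 * (r ^ 2 * (r + 2) ^ 2) + 2 + (r ^ 2 * (r + 2) ^ 2 * m + r * (r + 2) * e2 + r * (r + 1) * e1 + r * g1 + g0) := by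
      ring
    rw [e]
    refine le_trans ?_ (Nat.le_add_right _ _)
    nlinarith

universe u v w

theorem p3 : P3.{u, v, w} := by
  intro F G M _ _ _ _ _ _ S ρ h3 hq hx _
  classical
  obtain ⟨ψ, hψ⟩ := exists_addChar_complex F
  obtain ⟨r, hr⟩ : ∃ r, Fintype.card F = r + 1 := ⟨_, (Nat.succ_pred_eq_of_pos (by omega)).symm⟩
  have r1 : Fintype.card F - 1 = r := by omega
  obtain ⟨ε1, ε2, ε3, ε4, ε5, z1, z2, z3, z4, z5, nP, nA, n67⟩ := n6 S ρ ψ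
  obtain ⟨δ1, δ2, δ3, δ4, δ5, y1, y2, y3, y4, y5, nQ, nC⟩ := n7 S ρ ψ
  obtain ⟨m, hm⟩ : ∃ m, N S ρ ψ 0 1 0 1 = m := ⟨_, rfl⟩
  obtain ⟨e1, he1⟩ : ∃ m, N S ρ ψ 0 0 0 1 = m := ⟨_, rfl⟩
  obtain ⟨e2, he2⟩ : ∃ m, N S ρ ψ 0 1 0 0 = m := ⟨_, rfl⟩
  obtain ⟨g1, hg1⟩ : ∃ m, N S ρ ψ 0 0 1 0 = m := ⟨_, rfl⟩
  obtain ⟨g2, hg2⟩ : ∃ m, N S ρ ψ 1 0 0 0 = m := ⟨_, rfl⟩
  have c1 : ∀ a2 m2, m2 ≠ 0 → N S ρ ψ 0 a2 0 m2 = N S ρ ψ 0 a2 0 1 := fun a2 m2 h => by simpa using t6 h 0 a2 0 1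
  have c2 : ∀ a2 m2, a2 ≠ 0 → N S ρ ψ 0 a2 0 m2 = N S ρ ψ 0 1 0 m2 := fun a2 m2 h => by simpa using t7 h 1 m2
  have Nm : ∀ a1 a2 m1 m2, a2 ≠ 0 → m2 ≠ 0 → N S ρ ψ a1 a2 m1 m2 = m := fun a1 a2 m1 m2 h k => by
    rw [u6 k, u7 h3 h, c1 _ _ k, c2 _ _ h, hm]
  have Ne1 : ∀ m2, m2 ≠ 0 → N S ρ ψ 0 0 0 m2 = e1 := fun m2 k => by rw [c1 _ _ k, he1]
  have Ne2 : ∀ a2, a2 ≠ 0 → N S ρ ψ 0 a2 0 0 = e2 := fun a2 k => by rw [c2 _ _ k, he2]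
  have Ng1 : ∀ m1, m1 ≠ 0 → N S ρ ψ 0 0 m1 0 = g1 := fun m1 k => by
    rw [← hg1]; simpa using (t6 k 0 0 1 0).symm
  have Ng2 : ∀ a1, a1 ≠ 0 → N S ρ ψ a1 0 0 0 = g2 := fun a1 k => by
    rw [← hg2]; simpa using t6 k 1 0 0 0
  have Qq : ∀ a1 a2 m2, m2 ≠ 0 → Q S ρ ψ a1 a2 m2 = (r + 1) * N S ρ ψ a1 a2 0 m2 := fun a1 a2 m2 k => by
    rw [← sQ hψ, sum_c (u6 k a1 a2), hr]
  have Pq : ∀ a2 m1 m2, a2 ≠ 0 → P S ρ ψ a2 m1 m2 = (r + 1) * N S ρ ψ 0 a2 m1 m2 := fun a2 m1 m2 k => by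
    rw [← sP hψ h3, sum_c fun a => u7 h3 k a m1 m2, hr]
  have Qm : ∀ a1 m2, a1 ≠ 0 → m2 ≠ 0 → Q S ρ ψ a1 0 m2 = (r + 1) * m := fun a1 m2 h k => by
    rw [← nQ, Qq _ _ _ (mul_ne_zero k y3), Nm _ _ _ _ (mul_ne_zero h y2) (mul_ne_zero k y3)]
  have Pm : ∀ a2 m1, a2 ≠ 0 → m1 ≠ 0 → P S ρ ψ a2 m1 0 = (r + 1) * m := fun a2 m1 h k => by
    rw [← nP, Pq _ _ _ (mul_ne_zero h z1), Nm _ _ _ _ (mul_ne_zero h z1) (mul_ne_zero k z3)]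
  have Q0 : ∀ a1, a1 ≠ 0 → Q S ρ ψ a1 0 0 = e2 + r * m := fun a1 h => by
    have h' := mul_ne_zero h y2
    rw [← nQ, zero_mul, zero_mul, ← sQ hψ, sum_ne (c := m) fun a k =>
      Nat.eq_of_mul_eq_mul_left r.succ_pos ((Pq _ _ _ h').symm.trans (Pm _ _ h' k)), Ne2 _ h', r1]
  have P0 : ∀ m1, m1 ≠ 0 → P S ρ ψ 0 m1 0 = e1 + r * m := fun m1 h => by
    have h' := mul_ne_zero h z3
    rw [← nP, zero_mul, zero_mul, ← sP hψ h3, sum_ne (c := m) fun a k =>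
      Nat.eq_of_mul_eq_mul_left r.succ_pos ((Qq _ _ _ h').symm.trans (Qm _ _ k h')), Ne1 _ h', r1]
  have R11 : ∀ a2 m2, a2 ≠ 0 → m2 ≠ 0 → R S ρ ψ a2 m2 = (r + 1) * ((r + 1) * m) := fun a2 m2 h k => by
    rw [← sR hψ h3, sum_c fun a => (Qq a _ _ k).trans (by rw [Nm _ _ _ _ h k]), hr]
  have R01 : ∀ m2, m2 ≠ 0 → R S ρ ψ 0 m2 = Q S ρ ψ 0 0 m2 + r * ((r + 1) * m) := fun m2 k => by
    rw [← sR hψ h3, sum_ne fun a h => Qm a _ h k, r1]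
  have R10 : ∀ a2, a2 ≠ 0 → R S ρ ψ a2 0 = (r + 1) * e2 + r * ((r + 1) * m) := fun a2 k => by
    rw [← sR' hψ, sum_ne fun a h => Pm _ a k h, r1, Pq _ _ _ k, Ne2 _ k]
  have R00 : R S ρ ψ 0 0 = N S ρ ψ 0 0 0 0 + r * g1 + r * (e2 + r * m) := by
    rw [← sR hψ h3, sum_ne Q0, r1, ← sQ hψ, sum_ne Ng1, r1]
  have J1 : ∀ m2, m2 ≠ 0 → finrank ℂ (J S ρ ψ 11 m2) =
      Q S ρ ψ 0 0 m2 + r * ((r + 1) * m) + r * ((r + 1) * ((r + 1) * m)) := fun m2 k => by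
    rw [← sJ hψ, sum_ne fun a h => R11 a _ h k, r1, R01 _ k]
  have m1 : 1 ≤ m := by
    by_contra k
    have m0 : m = 0 := by omega
    have E : ∀ m2, m2 ≠ 0 → ∀ v ∈ J S ρ ψ 11 m2, v ∈ J S ρ ψ 9 0 ∧ v ∈ J S ρ ψ 8 0 := fun m2 h v hv => by
      have := Submodule.eq_of_le_of_finrank_eq (S₁ := J S ρ ψ 11 m2 ⊓ J S ρ ψ 9 0 ⊓ J S ρ ψ 8 0)
        (S₂ := J S ρ ψ 11 m2) (inf_le_left.trans inf_le_left) (by rw [J1 _ h, m0]; rfl)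
      rw [← this] at hv
      exact ⟨hv.1.2, hv.2⟩
    have E7 : ∀ m1, m1 ≠ 0 → ∀ v ∈ J S ρ ψ 10 m1, v ∈ J S ρ ψ 7 0 := fun m1 h v hv =>
      n67 (m1 / ε2) v (by rwa [div_mul_cancel₀ _ z2]) fun l => (E _ (div_ne_zero h z2) _ l).2
    have e0 : e1 ≠ 0 := by
      rintro rfl
      have := s0 (S := S) (ρ := ρ) hψ
      rw [sum_ne (c := 0) fun a h => by rw [J1 a h, Qq _ _ _ h, Ne1 a h, m0]; rfl, mul_zero, add_zero] at this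
      refine hx (LinearMap.ext fun v => (mem_J0 (ψ := ψ)).1 ?_ 1)
      rw [Submodule.eq_top_of_finrank_eq this]; trivial
    have : K S ρ ψ 0 0 1 1 ≠ ⊥ := fun l => e0 (by
      rw [← he1, ← u6 one_ne_zero 0 0 1, N, l, finrank_bot])
    obtain ⟨v, hv, v0⟩ := Submodule.exists_mem_ne_zero_of_ne_bot this
    obtain ⟨t, t0, t1, t2⟩ := fresh hq (0 : F) 1 (-1)
    have l1 := mem_J0.1 (E7 _ one_ne_zero v hv.2)
    have l2 := mem_J0.1 (E7 _ (by simpa using sub_ne_zero.2 t1.symm) _ (k6 (t := t) hv).2)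
    have : t - 2 * t ^ 2 = 0 := eq_zero_of_forall_addChar_mul hψ fun c => by
      obtain ⟨u, rfl⟩ := cube h3 c
      have := congrArg (fun g => ρ g v) (S.c67 t u)
      simp only [app, l2, mem_J.1 hv.1.1.1, mem_J.1 hv.2, mem_J0.1 hv.1.1.2, mem_J0.1 hv.1.2, map_smul, l1,
        smul_smul, ← AddChar.map_add_eq_mul] at this
      have w0 : ρ (S.x 6 t) v ≠ 0 := fun l => v0 (inj (ρ := ρ) _ (l.trans (map_zero _).symm))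
      nth_rw 1 [← one_smul ℂ (ρ (S.x 6 t) v)] at this
      rw [smul_left_injective ℂ w0 this]
      congr 1; ring
    have : t * (t + 1) = 0 := by linear_combination this + t ^ 2 * h3
    rcases mul_eq_zero.1 this with l | l
    · exact t0 l
    · exact t2 (eq_neg_of_add_eq_zero_left l)
  rw [← s0 (S := S) (ρ := ρ) hψ, sum_ne fun a h => (J1 a h).trans (by rw [Qq _ _ _ h, Ne1 a h]), r1, ← sJ hψ,
    sum_ne R10, r1, R00, hr]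
  have r8 : 8 ≤ r := by omega
  refine arith r8 m1 fun m1 => ?_
  subst m1
  by_cases hf : ∃ a1 m1, a1 ≠ 0 ∧ m1 ≠ 0 ∧ N S ρ ψ a1 0 m1 0 ≠ 0
  · obtain ⟨a1, m1, ha, hm1, hf⟩ := hf
    have three : 3 ≤ N S ρ ψ a1 0 m1 0 := by
      rw [← sC hψ] at hf ⊢
      obtain ⟨b, -, hb⟩ := Finset.exists_ne_zero_of_sum_ne_zero hf
      obtain ⟨t, ht⟩ : ∃ t, t * a1 - t ^ 3 * m1 ≠ 0 := by
        by_contra l
        push Not at l
        obtain ⟨t, t0, t1, t2⟩ := fresh hq (0 : F) 1 (-1)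
        have : t * (t - 1) * (t + 1) * m1 = 0 := by linear_combination t * l 1 - l t
        simp only [mul_eq_zero, sub_eq_zero, add_eq_zero_iff_eq_neg] at this
        tauto
      have i1 := uC (S := S) (ρ := ρ) (ψ := ψ) h3 a1 m1 b t
      have i2 := uC (S := S) (ρ := ρ) (ψ := ψ) h3 a1 m1 (b + (t * a1 - t ^ 3 * m1)) t
      generalize t * a1 - t ^ 3 * m1 = γ at *
      have d1 : b ≠ b + γ := by simpa using ht
      have d2 : b + γ ≠ b + γ + γ := by simpa using ht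
      have d3 : b ≠ b + γ + γ := fun l => ht (by linear_combination l + γ * h3)
      have := Finset.sum_le_sum_of_subset (f := C S ρ ψ a1 m1) (Finset.subset_univ {b, b + γ, b + γ + γ})
      rw [Finset.sum_insert (by simp only [Finset.mem_insert, Finset.mem_singleton]; tauto),
        Finset.sum_pair d2] at this
      omega
    have := sum_sq (f := fun μ => N S ρ ψ a1 0 μ 0) (c := 3) hm1 fun z hz => by rwa [tA hz]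
    rw [sQ hψ, Q0 _ ha, r1] at this
    have : 3 ≤ e2 := by omega
    nlinarith [Nat.mul_le_mul_left (r * (r + 2)) this]
  push Not at hf
  have G2 : g2 = e2 + r * 1 := by
    rw [← Q0 1 one_ne_zero, ← sQ hψ, sum_ne fun a h => hf 1 a one_ne_zero h, hg2]; rfl
  have G1 : g1 = e1 + r * 1 := by
    rw [← P0 1 one_ne_zero, ← sP hψ h3, sum_ne fun a h => hf a 1 h one_ne_zero, hg1]; rfl
  have hA : ∀ a0, a0 ≠ 0 → (r + 1) * A S ρ ψ a0 0 = g2 := fun a0 h => by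
    have h' := mul_ne_zero h z5
    rw [← nA, zero_mul, ← Ng2 _ h', ← sA hψ h3, sum_c (uA h'), hr]
  have hC : ∀ b, b ≠ 0 → (r + 1) * C S ρ ψ 0 0 b = g1 := fun b h => by
    have h' := mul_ne_zero h y4
    have le : ∀ x y, C S ρ ψ 0 (b * δ4) x ≤ C S ρ ψ 0 (b * δ4) y := fun x y => by
      obtain ⟨t, ht⟩ := cube h3 ((x - y) / (b * δ4))
      have := uC (S := S) (ρ := ρ) (ψ := ψ) h3 0 (b * δ4) x t
      rwa [ht, div_mul_cancel₀ _ h', show x + (t * 0 - (x - y)) = y by ring] at this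
    rw [← nC, zero_mul, ← Ng1 _ h', ← sC hψ, sum_c fun x => le_antisymm (le x 0) (le 0 x), hr]
  have A1 : ∀ a0, a0 ≠ 0 → 1 ≤ A S ρ ψ a0 0 := fun a0 h => Nat.pos_of_ne_zero fun l => by
    have := hA a0 h
    rw [l] at this; omega
  have E2 : 1 ≤ e2 := by
    have := Nat.mul_le_mul_left (r + 1) (A1 1 one_ne_zero)
    rw [hA 1 one_ne_zero] at this; omega
  have k1 := hC 1 one_ne_zero
  rcases lt_trichotomy (C S ρ ψ 0 0 1) 1 with l | l | l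
  · rw [show C S ρ ψ 0 0 1 = 0 by omega] at k1; omega
  · rw [l] at k1
    have C1 : ∀ b, b ≠ 0 → C S ρ ψ 0 0 b = 1 := fun b h =>
      Nat.eq_of_mul_eq_mul_left r.succ_pos ((hC b h).trans k1.symm)
    have D0 : ∀ a0, a0 ≠ 0 → ∀ b, b ≠ 0 → D S ρ ψ b a0 = 0 := fun a0 h b h' => by
      have := sD (S := S) (ρ := ρ) hψ h3 b
      have e : ∀ a ≠ 0, D S ρ ψ b a = D S ρ ψ b 1 := fun a k => by simpa using t9 k b 1
      rw [sum_ne e, r1, C1 b h'] at this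
      rw [e a0 h]
      by_contra l
      have := Nat.mul_le_mul_left r (Nat.pos_of_ne_zero l)
      omega
    have D1 : ∀ a0 ≠ 0, 1 ≤ D S ρ ψ 0 a0 := fun a0 h => by
      have := sD' (S := S) (ρ := ρ) hψ a0
      rw [sum_ne (D0 a0 h)] at this
      have := A1 a0 h
      omega
    have s1 := sum_ge D1
    rw [sD hψ h3, r1] at s1
    have s2 := sC (S := S) (ρ := ρ) hψ 0 0
    rw [sum_ne C1, r1] at s2
    have : e1 = 1 := by omega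
    subst this
    nlinarith [Nat.mul_le_mul_left (r * (r + 2)) E2]
  · have := Nat.mul_le_mul_left (r + 1) (show 2 ≤ C S ρ ψ 0 0 1 from l)
    have : r + 2 ≤ e1 := by omega
    nlinarith [Nat.mul_le_mul_left (r * (r + 1)) this, Nat.mul_le_mul_left (r * r) r8]

end H21.Gm3
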