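import Cfsg.Agent.H21.ExtraClass
import Cfsg.Prelude.Def_KGroupFacts
import Cfsg.Prelude.Def_Classical

/-! Heisenberg type groups `Heis β` (`β` biadditive): models of the extraspecial groups (`Heis.es`), the models
`Heis (bPlus n)`, `Heis (bMinus n)` of both types, and `Heis.out_equiv` : the outer automorphism group of an
extraspecial `2`-group is the isometry group of its quadratic form. -/

set_option autoImplicit false

namespace H21

open Subgroup H18 Cfsg Matrix
open scoped commutatorElement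

/-- the central extension of `V` by `A` with cocycle `β` -/
@[ext] structure Heis {V A : Type*} [AddCommGroup V] [AddCommGroup A] (β : V →+ V →+ A) where
  v : V
  a : A

/-- the sign character of `ZMod 2` -/
def chi2 (a : ZMod 2) : ℤ := if a = 0 then 1 else -1

namespace Heis

variable {V A : Type*} [AddCommGroup V] [AddCommGroup A] {β : V →+ V →+ A}

instance : Mul (Heis β) := ⟨fun x y => ⟨x.v + y.v, x.a + y.a + β x.v y.v⟩⟩
instance : One (Heis β) := ⟨⟨0, 0⟩⟩
instance : Inv (Heis β) := ⟨fun x => ⟨-x.v, -x.a + β x.v x.v⟩⟩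

@[simp] theorem mul_v (x y : Heis β) : (x * y).v = x.v + y.v := rfl
@[simp] theorem mul_a (x y : Heis β) : (x * y).a = x.a + y.a + β x.v y.v := rfl
@[simp] theorem one_v : (1 : Heis β).v = 0 := rfl
@[simp] theorem one_a : (1 : Heis β).a = 0 := rfl
@[simp] theorem inv_v (x : Heis β) : x⁻¹.v = -x.v := rfl
@[simp] theorem inv_a (x : Heis β) : x⁻¹.a = -x.a + β x.v x.v := rfl

instance : Group (Heis β) := Group.ofLeftAxioms
  (fun x y z => by ext <;> simp <;> abel) (fun x => by ext <;> simp) (fun x => by ext <;> simp)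

/-- the underlying set -/
def equivProd : Heis β ≃ V × A := ⟨fun x => (x.v, x.a), fun x => ⟨x.1, x.2⟩, fun _ => rfl, fun _ => rfl⟩

theorem card_eq : Nat.card (Heis β) = Nat.card V * Nat.card A := by rw [Nat.card_congr equivProd, Nat.card_prod]

instance [Finite V] [Finite A] : Finite (Heis β) := Finite.of_equiv _ equivProd.symm

theorem pow_v (x : Heis β) (n : ℕ) : (x ^ n).v = n • x.v := by
  induction n with
  | zero => simp
  | succ n ih => rw [pow_succ, mul_v, ih, succ_nsmul]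

theorem pow_a (x : Heis β) (n : ℕ) : (x ^ n).a = n • x.a + n.choose 2 • β x.v x.v := by
  induction n with
  | zero => simp
  | succ n ih =>
    rw [pow_succ, mul_a, ih, pow_v, Nat.choose_succ_succ' n 1, Nat.choose_one_right, map_nsmul, succ_nsmul, add_nsmul]
    simp only [AddMonoidHom.smul_apply]
    abel

theorem comm_iff (x y : Heis β) : x * y = y * x ↔ β x.v y.v = β y.v x.v := by
  simp [Heis.ext_iff, add_comm]

theorem comm_v (x y : Heis β) : ⁅x, y⁆.v = 0 := by simp [commutatorElement_def]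

theorem mem_Z (h : ∀ v, (∀ w, β w v = β v w) → v = 0) {x : Heis β} : x ∈ Z((⊤ : Subgroup (Heis β))) ↔ x.v = 0 := by
  simp only [mem_inf, mem_top, true_and, mem_C, comm_iff, true_imp_iff]
  exact ⟨fun h1 => h _ fun w => h1 ⟨w, 0⟩, fun h1 y => by simp [h1]⟩

theorem es (h : ∀ v, (∀ w, β w v = β v w) → v = 0) : ES (Nat.card A) (⊤ : Subgroup (Heis β)) := by
  refine ⟨Nat.card_congr ⟨fun x => x.1.a, fun a => ⟨⟨0, a⟩, (mem_Z h).2 rfl⟩,
    fun x => Subtype.ext (Heis.ext ((mem_Z h).1 x.2).symm rfl), fun _ => rfl⟩, ?_⟩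
  rw [commutator_le]
  exact fun x _ y _ => ((mem_Z h).2 (comm_v x y)).2

theorem not_abel [Nontrivial V] (h : ∀ v, (∀ w, β w v = β v w) → v = 0) : ¬ Abel (⊤ : Subgroup (Heis β)) := fun h1 => by
  obtain ⟨v, hv⟩ := exists_ne (0 : V)
  exact hv ((mem_Z h (x := ⟨v, 0⟩)).1 ⟨trivial, h1 trivial⟩)

section two

variable {ι : Type} [Fintype ι] [DecidableEq ι] {β : (ι → ZMod 2) →+ (ι → ZMod 2) →+ ZMod 2}

theorem sq_eq (x : Heis β) : x ^ 2 = ⟨0, β x.v x.v⟩ := by
  ext : 1
  · rw [pow_v, two_nsmul]; ext i; exact CharTwo.add_self_eq_zero _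
  · rw [pow_a, two_nsmul, CharTwo.add_self_eq_zero]; simp

theorem exists_half (γ : (ι → ZMod 2) →+ (ι → ZMod 2) →+ ZMod 2) (h : ∀ v, γ v v = 0) :
    ∃ δ : (ι → ZMod 2) →+ (ι → ZMod 2) →+ ZMod 2, ∀ v w, γ v w = δ v w + δ w v := by
  let e := Fintype.equivFin ι
  let B : LinearMap.BilinForm (ZMod 2) (ι → ZMod 2) :=
    (((AddMonoidHom.toZModLinearMapEquiv 2).toAddMonoidHom.comp γ).toZModLinearMap 2)
  let D := Matrix.toBilin' (Matrix.of fun i j => if e i < e j then γ (Pi.single i 1) (Pi.single j 1) else 0)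
  have hs : ∀ v w, γ v w = γ w v := fun v w => by
    have := h (v + w)
    simp only [map_add, AddMonoidHom.add_apply, h, zero_add, add_zero] at this
    exact (CharTwo.add_eq_zero.1 this).symm
  have e1 : B = D + D.flip := by
    refine LinearMap.BilinForm.ext_basis (Pi.basisFun _ _) fun i j => ?_
    simp only [Pi.basisFun_apply, LinearMap.add_apply, LinearMap.BilinForm.flip_apply, D, Matrix.toBilin'_single,
      Matrix.of_apply]
    show γ _ _ = _
    rcases lt_trichotomy (e i) (e j) with h1 | h1 | h1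
    · simp [h1, h1.not_gt]
    · simp [e.injective h1, h]
    · simp [h1, h1.not_gt, hs (Pi.single i 1)]
  exact ⟨LinearMap.toAddMonoidHom'.comp D.toAddMonoidHom,
    fun v w => congrArg (fun B : LinearMap.BilinForm (ZMod 2) (ι → ZMod 2) => B v w) e1⟩

variable (h : ∀ v, (∀ w, β w v = β v w) → v = 0)
include h

theorem aut_v (σ : MulAut (Heis β)) (x : Heis β) : (σ x).v = (σ ⟨x.v, 0⟩).v := by
  have e : x = ⟨x.v, 0⟩ * ⟨0, x.a⟩ := by ext <;> simp
  have h1 : (σ ⟨0, x.a⟩).v = 0 := by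
    rw [← mem_Z h, Z_top]
    exact (center _).mem_comap.1 ((characteristic_iff_le_comap.1 inferInstance σ) (Z_top (G := Heis β) ▸ (mem_Z h).2 rfl))
  conv_lhs => rw [e, map_mul, mul_v, h1, add_zero]

/-- the linear map induced by an automorphism -/
def autLin (σ : MulAut (Heis β)) : (ι → ZMod 2) →ₗ[ZMod 2] (ι → ZMod 2) :=
  (AddMonoidHom.mk' (fun v => (σ ⟨v, 0⟩).v) fun v w => by
    rw [← mul_v, ← map_mul, aut_v h σ (_ * _)]; rfl).toZModLinearMap 2

/-- the action of the automorphism group on `E / Z(E)` -/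
noncomputable def autGL : MulAut (Heis β) →* GL ι (ZMod 2) :=
  MonoidHom.toHomUnits
    { toFun := fun σ => LinearMap.toMatrix' (autLin h σ)
      map_one' := by rw [← LinearMap.toMatrix'_id]; rfl
      map_mul' := fun σ τ => by
        rw [← LinearMap.toMatrix'_comp]
        exact congrArg _ (LinearMap.ext fun v => aut_v h σ (τ ⟨v, 0⟩)) }

theorem autGL_mulVec (σ : MulAut (Heis β)) (x : Heis β) :
    (autGL h σ : Matrix ι ι (ZMod 2)) *ᵥ x.v = (σ x).v :=
  (LinearMap.toMatrix'_mulVec _ _).trans (aut_v h σ x).symm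

theorem ker_autGL [Nonempty ι] : (autGL h).ker = Inn (Heis β) := by
  ext σ
  constructor
  · intro hσ
    have he : ES 2 (⊤ : Subgroup (Heis β)) := by simpa using es h
    obtain ⟨a, -, e⟩ := he.exists_conj Nat.prime_two (not_abel h) σ (fun b _ c _ => map_mul σ b c) fun b _ => by
      rw [mem_Z h, mul_v, ← autGL_mulVec h, MonoidHom.mem_ker.1 hσ]; simp
    exact ⟨a, MulEquiv.ext fun x => (e x trivial).symm⟩
  · rintro ⟨a, rfl⟩
    refine Units.ext (Matrix.toLin'.injective (LinearMap.ext fun v => ?_))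
    rw [Matrix.toLin'_apply, autGL_mulVec h _ ⟨v, 0⟩]
    simp

theorem range_autGL : (autGL h).range = isometryGroup (ZMod 2) fun v => β v v := by
  ext g
  constructor
  · rintro ⟨σ, rfl⟩ u -
    have h1 := map_pow σ ⟨u, 0⟩ 2
    rw [sq_eq, sq_eq, ← autGL_mulVec h] at h1
    have h2 : ∀ a b : ZMod 2, (a = 0 ↔ b = 0) → a = b := by decide
    refine h2 _ _ ?_
    have h3 : ∀ a : ZMod 2, a = 0 ↔ (⟨0, a⟩ : Heis β) = 1 := fun a => by simp [Heis.ext_iff]
    rw [h3, h3, ← map_eq_one_iff σ σ.injective (x := ⟨0, β u u⟩), h1]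
    rfl
  · intro hg
    let f : (ι → ZMod 2) →+ (ι → ZMod 2) := (Matrix.toLin' (g : Matrix ι ι (ZMod 2))).toAddMonoidHom
    obtain ⟨δ, hδ⟩ := exists_half ((β.compl₂ f).comp f - β) fun v => sub_eq_zero.2 (hg v 0)
    let φ : Heis β →* Heis β := MonoidHom.mk' (fun x => ⟨f x.v, x.a + δ x.v x.v⟩) fun x y => by
      have := hδ x.v y.v
      ext : 1
      · exact map_add f _ _
      · simp only [mul_a, mul_v, map_add, AddMonoidHom.add_apply]
        change β (f x.v) (f y.v) - β x.v y.v = _ at this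
        linear_combination -this
    have hφ : Function.Injective φ := (injective_iff_map_eq_one φ).2 fun x hx => by
      have h1 : x.v = 0 := by
        have : (g : Matrix ι ι (ZMod 2)) *ᵥ x.v = 0 := congrArg Heis.v hx
        simpa using congrArg (fun v => ((g⁻¹ : GL ι (ZMod 2)) : Matrix ι ι (ZMod 2)) *ᵥ v) this
      have h2 : x.a + δ x.v x.v = 0 := congrArg Heis.a hx
      exact Heis.ext h1 (by simpa [h1] using h2)
    refine ⟨MulEquiv.ofBijective φ hφ.bijective_of_finite,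
      Units.ext (Matrix.toLin'.injective (LinearMap.ext fun v => ?_))⟩
    exact autGL_mulVec h _ ⟨v, 0⟩

theorem out_equiv [Nonempty ι] : Nonempty (Out (Heis β) ≃* isometryGroup (ZMod 2) fun v => β v v) :=
  ⟨(QuotientGroup.quotientMulEquivOfEq (ker_autGL h).symm).trans
    ((QuotientGroup.quotientKerEquivRange _).trans (MulEquiv.subgroupCongr (range_autGL h)))⟩

omit h in
theorem ssum_eq : ssum (⊤ : Subgroup (Heis β)) = 2 * ∑ v, chi2 (β v v) := by
  have e : ∑ x ∈ fs (⊤ : Subgroup (Heis β)), sg (x ^ 2) = ∑ x : (ι → ZMod 2) × ZMod 2, chi2 (β x.1 x.1) :=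
    Finset.sum_equiv equivProd (by simp) fun x _ => by
      by_cases h : β x.v x.v = 0 <;> simp [sq_eq, sg, chi2, Heis.ext_iff, equivProd, h]
  rw [ssum, e, Fintype.sum_prod_type, Finset.mul_sum]
  simp

end two

end Heis

/-- the cocycle of the extraspecial group of plus type -/
def bPlus (n : ℕ) (R : Type*) [CommRing R] : (Fin n ⊕ Fin n → R) →+ (Fin n ⊕ Fin n → R) →+ R :=
  AddMonoidHom.mk' (fun v => AddMonoidHom.mk' (fun w => ∑ i, v (.inl i) * w (.inr i)) fun w w' => by
    simp [mul_add, Finset.sum_add_distrib]) fun v v' => by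
    ext w; simp [add_mul, Finset.sum_add_distrib]

/-- the cocycle of the extraspecial `2`-group of minus type -/
def bMinus (n : ℕ) : ((Fin n ⊕ Fin n) ⊕ Fin 2 → ZMod 2) →+ ((Fin n ⊕ Fin n) ⊕ Fin 2 → ZMod 2) →+ ZMod 2 :=
  AddMonoidHom.mk' (fun v => AddMonoidHom.mk' (fun w => ∑ i, v (.inl (.inl i)) * w (.inl (.inr i)) +
    (v (.inr 0) * w (.inr 0) + v (.inr 0) * w (.inr 1) + v (.inr 1) * w (.inr 1))) fun w w' => by
    simp [mul_add, Finset.sum_add_distrib]; ring) fun v v' => by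
    ext w; simp [add_mul, Finset.sum_add_distrib]; ring

theorem bPlus_apply {n : ℕ} {R : Type*} [CommRing R] (v w : Fin n ⊕ Fin n → R) :
    bPlus n R v w = ∑ i, v (.inl i) * w (.inr i) := rfl

theorem bMinus_apply {n : ℕ} (v w : (Fin n ⊕ Fin n) ⊕ Fin 2 → ZMod 2) :
    bMinus n v w = ∑ i, v (.inl (.inl i)) * w (.inl (.inr i)) +
      (v (.inr 0) * w (.inr 0) + v (.inr 0) * w (.inr 1) + v (.inr 1) * w (.inr 1)) := rfl

theorem bPlus_nondeg (n : ℕ) (R : Type*) [CommRing R] (v : Fin n ⊕ Fin n → R)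
    (h : ∀ w, bPlus n R w v = bPlus n R v w) : v = 0 := by
  ext (i | i)
  · simpa [bPlus_apply, Pi.single_apply] using (h (Pi.single (.inr i) 1)).symm
  · simpa [bPlus_apply, Pi.single_apply] using h (Pi.single (.inl i) 1)

theorem bMinus_nondeg (n : ℕ) (v : (Fin n ⊕ Fin n) ⊕ Fin 2 → ZMod 2)
    (h : ∀ w, bMinus n w v = bMinus n v w) : v = 0 := by
  ext ((i | i) | i)
  · simpa [bMinus_apply, Pi.single_apply] using (h (Pi.single (.inl (.inr i)) 1)).symm
  · simpa [bMinus_apply, Pi.single_apply] using h (Pi.single (.inl (.inl i)) 1)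
  · fin_cases i
    · simpa [bMinus_apply, Pi.single_apply] using (h (Pi.single (.inr 1) 1)).symm
    · simpa [bMinus_apply, Pi.single_apply] using h (Pi.single (.inr 0) 1)

theorem bPlus_quad (n : ℕ) : (fun v => bPlus n (ZMod 2) v v) = quadFormPlus n (ZMod 2) := rfl

theorem bMinus_quad (n : ℕ) : (fun v => bMinus n v v) = quadFormMinus n (ZMod 2) 1 1 := by
  ext v; simp [bMinus_apply, quadFormMinus, sq]

theorem es_plus (n p : ℕ) : ES p (⊤ : Subgroup (Heis (bPlus n (ZMod p)))) := by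
  simpa using Heis.es (bPlus_nondeg n (ZMod p))

theorem es_minus (n : ℕ) : ES 2 (⊤ : Subgroup (Heis (bMinus n))) := by
  simpa using Heis.es (bMinus_nondeg n)

theorem card_plus (n p : ℕ) : Nat.card (Heis (bPlus n (ZMod p))) = p ^ (2 * n + 1) := by
  simp [Heis.card_eq, Nat.card_fun, pow_succ, two_mul]

theorem card_minus (n : ℕ) : Nat.card (Heis (bMinus n)) = 2 ^ (2 * (n + 1) + 1) := by
  simp [Heis.card_eq, Nat.card_fun, pow_succ, two_mul, pow_add]; ring

theorem ssum_plus (n : ℕ) : ssum (⊤ : Subgroup (Heis (bPlus n (ZMod 2)))) = 2 ^ (n + 1) := by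
  let f : Multiplicative ((Fin n → ZMod 2) × ZMod 2) →* Heis (bPlus n (ZMod 2)) :=
    MonoidHom.mk' (fun x => ⟨Sum.elim x.toAdd.1 0, x.toAdd.2⟩) fun x y => by
      ext : 1
      · ext (i | i) <;> simp
      · simp [bPlus_apply]
  have hf : Function.Injective f := fun x y h =>
    Multiplicative.toAdd.injective (Prod.ext (funext fun i => congrFun (congrArg Heis.v h) (.inl i))
      (congrArg Heis.a h))
  refine (es_plus n 2).ssum_of_pelem (A := f.range) (card_top.trans (card_plus n 2)) ⟨le_top, ⟨?_, ?_⟩, ?_⟩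
  · exact abel_of_comm inferInstance
  · rintro _ ⟨x, rfl⟩
    simp [Heis.sq_eq, f, bPlus_apply, Heis.ext_iff]
  · rw [← Nat.card_congr (MonoidHom.ofInjective hf).toEquiv]
    simp [pow_succ]

theorem ssum_minus (n : ℕ) : ssum (⊤ : Subgroup (Heis (bMinus n))) = -2 ^ (n + 1 + 1) := by
  have h1 := ssum_plus n
  rw [Heis.ssum_eq] at h1 ⊢
  have h2 : ∀ a b : ZMod 2, chi2 (a + b) = chi2 a * chi2 b := by decide
  have h3 : ∑ v : Fin 2 → ZMod 2, chi2 (v 0 * v 0 + v 0 * v 1 + v 1 * v 1) = -2 := by decide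
  rw [← (Equiv.sumArrowEquivProdArrow _ _ _).symm.sum_comp, Fintype.sum_prod_type]
  simp only [bMinus_apply, bPlus_apply, Equiv.sumArrowEquivProdArrow_symm_apply_inl,
    Equiv.sumArrowEquivProdArrow_symm_apply_inr, h2 _ (_ + _ + _), ← Finset.mul_sum, h3, ← Finset.sum_mul] at h1 ⊢
  rw [← mul_assoc, h1]
  ring

theorem out_congr {G G' : Type*} [Group G] [Group G'] (e : G ≃* G') : Nonempty (Out G ≃* Out G') := by
  refine ⟨QuotientGroup.congr _ _ (MulAut.congr e) ?_⟩
  ext σ
  constructor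
  · rintro ⟨_, ⟨a, rfl⟩, rfl⟩
    exact ⟨e a, by ext x; simp⟩
  · rintro ⟨a, rfl⟩
    exact ⟨_, ⟨e.symm a, rfl⟩, by ext x; simp⟩

end H21
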