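import Cfsg.Agent.H21.LX2

/-! Singular subgroups for a large extraspecial subgroup (`Sing U`: every `u ∈ U#` has `O₂(C(u))` large extraspecial
and containing `U`). -/

set_option autoImplicit false

namespace H21

open Subgroup H18 H1 Cfsg
open scoped commutatorElement

variable {G : Type*} [Group G] [Finite G] {A Q U W : Subgroup G} {x y z g u v : G}

theorem LX.exists_conj_cent (h : LX Q z) (hz : z ∈ A) (hA : A ≤ Q) (hx : x ∈ Q) (hx' : x ∉ A) :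
    ∃ q ∈ Q ⊓ C(A), q * x * q⁻¹ = x * z := by
  by_contra hc
  push Not at hc
  rw [← h.es.cent_cent Nat.prime_two (h.zp_eq ▸ zpowers_le.2 hz) hA] at hx'
  exact hx' ⟨hx, mem_C.2 fun q hq => by
    have := (h.lw.conj_or hx hq.1).resolve_right (hc q hq)
    rwa [mul_inv_eq_iff_eq_mul] at this⟩

structure Sing (U : Subgroup G) : Prop where
  lx : ∀ u ∈ U, u ≠ 1 → LX O[{2}](C1(u)) u
  le : ∀ u ∈ U, u ≠ 1 → U ≤ O[{2}](C1(u))

theorem sing_of {Q : G → Subgroup G} (hQ : ∀ x : G, Q x = (pCore 2 C1(x)).map C1(x).subtype) (hz : orderOf z = 2)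
    (hE : IsExtraspecial 2 (Q z)) (hC : C(Q z) ≤ Q z) (hS : ∀ u ∈ U, u ≠ 1 → ∃ g : G, g * z * g⁻¹ = u)
    (hO : ∀ u ∈ U, ∀ v ∈ U, u ≠ 1 → v ≠ 1 → v ∈ Q u) : Sing U ∧ Q = fun x => O[{2}](C1(x)) := by
  simp only [pCore_map Nat.prime_two] at hQ
  refine ⟨⟨fun u hu h1 => ?_, fun u hu h1 v hv => ?_⟩, funext hQ⟩
  · obtain ⟨g, rfl⟩ := hS u hu h1
    have := (lx_of_O2 hz (hQ z).symm hE hC).cj g
    rwa [hQ, cj_pcore, cj_C1] at this
  · by_cases e : v = 1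
    · exact e ▸ one_mem _
    · exact hQ u ▸ hO u hu v hv h1 e

namespace Sing

theorem sq (h : Sing U) (hu : u ∈ U) : u * u = 1 := by
  by_cases e : u = 1
  · simp [e]
  · exact (h.lx u hu e).lw.sq

theorem abel (h : Sing U) : Abel U := cent_iff.2 fun a ha b hb => by
  rw [← inv_of_sq (h.sq (mul_mem ha hb)), mul_inv_rev, inv_of_sq (h.sq ha), inv_of_sq (h.sq hb)]

theorem norm (h : Sing U) (hu : u ∈ U) (h1 : u ≠ 1) : O[{2}](C1(u)) ≤ N(U) :=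
  (h.lx u hu h1).lw.norm_of_le hu (h.le u hu h1)

theorem L_norm (h : Sing U) : (⨆ u ∈ (U : Set G) \ {1}, O[{2}](C1(u))) ≤ N(U) :=
  iSup₂_le fun _ hu => h.norm hu.1 hu.2

theorem le_L (hu : u ∈ U) (h1 : u ≠ 1) : O[{2}](C1(u)) ≤ ⨆ u ∈ (U : Set G) \ {1}, O[{2}](C1(u)) :=
  le_iSup₂ (f := fun u (_ : u ∈ (U : Set G) \ {1}) => O[{2}](C1(u))) u ⟨hu, h1⟩

theorem exists_conj (h : Sing U) (hW : W ≤ U) (hu : u ∈ U) (hv : v ∈ U) (h1 : u ∉ W) (h2 : v ∉ W) :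
    ∃ q ∈ (⨆ u ∈ (U : Set G) \ {1}, O[{2}](C1(u))) ⊓ C(W), q * u * q⁻¹ = v := by
  by_cases e : u⁻¹ * v = 1
  · exact ⟨1, one_mem _, by simpa [inv_mul_eq_one] using e⟩
  have hm := mul_mem (inv_mem hu) hv
  obtain ⟨q, hq, e'⟩ := (h.lx _ hm e).exists_conj_cent (A := W ⊔ zpowers (u⁻¹ * v)) (mem_sup_right (mem_zpowers _))
    ((sup_le hW (zpowers_le.2 hm)).trans (h.le _ hm e)) (h.le _ hm e hu) fun c => by
      obtain ⟨a, ha, b, hb, e⟩ := (mem_sup_of_cent (cent_mono h.abel hW (zpowers_le.2 hm))).1 c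
      rcases (mem_zp_two (h.sq hm)).1 hb with rfl | rfl
      · exact h1 (by simpa [e] using ha)
      · refine h2 ?_
        have : v = a := by
          rw [← inv_of_sq (h.sq hm)] at e
          rw [eq_mul_inv_of_mul_eq e.symm |>.symm.trans rfl |>.symm]
          group
        exact this ▸ ha
  exact ⟨q, ⟨le_L hm e hq.1, C_anti le_sup_left hq.2⟩, by rw [e']; group⟩

theorem full (h : Sing U) (φ : U ≃* U) :
    ∃ g ∈ ⨆ u ∈ (U : Set G) \ {1}, O[{2}](C1(u)), ∀ u : U, g * (u : G) * g⁻¹ = φ u := by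
  obtain ⟨W, -, ⟨hW, g, hg, e⟩, hm⟩ := exists_maximal_sub (A := ⊥) (fun W => W ≤ U ∧
    ∃ g ∈ ⨆ u ∈ (U : Set G) \ {1}, O[{2}](C1(u)), ∀ u : U, (u : G) ∈ W → g * (u : G) * g⁻¹ = φ u)
    ⟨bot_le, 1, one_mem _, fun u hu => by
      rw [show u = 1 from Subtype.ext (mem_bot.1 hu)]; simp⟩
  refine ⟨g, hg, fun v => e v (by_contra fun hv => ?_)⟩
  have ha : g⁻¹ * φ v * g ∈ U := conj_mem_N' (h.L_norm hg) (φ v).2
  obtain ⟨q, hq, e'⟩ := h.exists_conj hW v.2 ha hv fun c => hv (by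
    have := e ⟨_, ha⟩ c
    simp only [mul_assoc, mul_inv_cancel_left, mul_inv_cancel, mul_one] at this
    rw [φ.injective (Subtype.ext this)]
    simpa [mul_assoc] using c)
  refine hv (hm (W ⊔ zpowers (v : G)) ⟨sup_le hW (zpowers_le.2 v.2), g * q, mul_mem hg hq.1, fun u hu => ?_⟩
    le_sup_left ▸ mem_sup_right (mem_zpowers _))
  have k1 : ∀ u : U, (u : G) ∈ W → g * q * u * (g * q)⁻¹ = φ u := fun u hu => by
    rw [← e u hu, mul_assoc g, ← mem_C.1 hq.2 _ hu]; group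
  obtain ⟨a, ha, b, hb, e⟩ := (mem_sup_of_cent (cent_mono h.abel hW (zpowers_le.2 v.2))).1 hu
  rcases (mem_zp_two (h.sq v.2)).1 hb with rfl | rfl
  · exact k1 u (by simpa [e] using ha)
  · rw [show u = ⟨a, hW ha⟩ * v from Subtype.ext e, map_mul, coe_mul, coe_mul, ← conj_mul, k1 ⟨a, hW ha⟩ ha,
      show g * q * v * (g * q)⁻¹ = g * (q * v * q⁻¹) * g⁻¹ by group, e']
    group

theorem mem_mul (h : Sing U) (hu : u ∈ U) (hv : v ∈ U) (h1 : u = 1 ∨ x ∈ O[{2}](C1(u)))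
    (h2 : v = 1 ∨ x ∈ O[{2}](C1(v))) : u * v = 1 ∨ x ∈ O[{2}](C1(u * v)) := by
  by_cases e1 : u = 1
  · simpa [e1] using h2
  by_cases e2 : v = 1
  · simpa [e2] using h1
  by_cases e : u = v
  · exact .inl (e ▸ h.sq hu)
  have l := h.lx v hv e2
  obtain ⟨y, hy, e'⟩ := l.exists_conj (h.le v hv e2 hu) (by rw [l.lw.zp]; exact not_or.2 ⟨e1, e⟩)
  right
  rw [← e', ← cj_C1, ← cj_pcore, H18.mem_cj]
  exact (conj_mem' (l.lw.norm_of_le (A := O[{2}](C1(u)) ⊓ O[{2}](C1(v))) ⟨h.le u hu e1 hv, l.zZ.1⟩ inf_le_right) hy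
    ⟨h1.resolve_left e1, h2.resolve_left e2⟩).1

end Sing

end H21
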