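import Cfsg.Agent.H21.LX2
import Cfsg.Agent.H26.Transfer

/-! Transfer into the centralizer of an involution with a large extraspecial subgroup (`LX.tr_sq`, `LX.tr_Q`,
`LX.tr_fused`): partial transfers along a chain of index-two steps (`TS`). -/

set_option autoImplicit false

namespace H21

open Subgroup H18 H1 Cfsg MulAction
open H26 (ptr orb mem_orb smul_mem_orb ptr_mul ptr_one ptr_conj coc coc_mul tr)
open scoped commutatorElement Classical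

variable {G : Type*} [Group G] {A : Type*} [CommGroup A] {P P' Q R T : Subgroup G} {x y z g e : G}

/-- `μ` is multiplicative on `P` -/
def MulOn (μ : G → A) (P : Subgroup G) : Prop := ∀ x ∈ P, ∀ y ∈ P, μ (x * y) = μ x * μ y

theorem MulOn.one {μ : G → A} (h : MulOn μ P) : μ 1 = 1 := by simpa using h 1 (one_mem _) 1 (one_mem _)

/-- an index-two step -/
structure TS (P P' : Subgroup G) (μ μ' : G → A) : Prop where
  le : P ≤ P'
  norm : P' ≤ N(P)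
  idx : ∀ x ∈ P', ∀ y ∈ P', x ∉ P → y ∉ P → x⁻¹ * y ∈ P
  mul : MulOn μ P
  mul' : MulOn μ' P'
  inn : ∀ x ∈ P, ∀ e ∈ P', e ∉ P → μ' x = μ x * μ (e⁻¹ * x * e)
  out : ∀ y ∈ P', y ∉ P → μ' y = μ (y * y)

theorem ts_ptr {H : Subgroup G} [Fintype (G ⧸ H)] (φ : H →* A) (c : G ⧸ H) (h1 : P ≤ P') (h2 : P' ≤ N(P))
    (h3 : ∀ x ∈ P', ∀ y ∈ P', x ∉ P → y ∉ P → x⁻¹ * y ∈ P) (h4 : P' ⊓ stabilizer G c ≤ P) :
    TS P P' (ptr φ (orb P c)) (ptr φ (orb P' c)) := by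
  have key : ∀ e ∈ P', e ∉ P → ∀ f : G ⧸ H → A,
      ∏ d ∈ orb P' c, f d = (∏ d ∈ orb P c, f d) * ∏ d ∈ (orb P c).image (e • ·), f d := fun e he he' f => by
    rw [← Finset.prod_union]
    · congr 1
      ext d
      simp only [Finset.mem_union, Finset.mem_image, mem_orb]
      constructor
      · rintro ⟨y, hy, rfl⟩
        by_cases hy' : y ∈ P
        · exact .inl ⟨y, hy', rfl⟩
        · exact .inr ⟨_, ⟨_, h3 e he y hy he' hy', rfl⟩, by rw [← mul_smul, mul_inv_cancel_left]⟩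
      · rintro (⟨y, hy, rfl⟩ | ⟨_, ⟨y, hy, rfl⟩, rfl⟩)
        · exact ⟨y, h1 hy, rfl⟩
        · exact ⟨e * y, mul_mem he (h1 hy), mul_smul _ _ _⟩
    · rw [Finset.disjoint_left]
      intro d hd hd'
      obtain ⟨y, hy, rfl⟩ := mem_orb.1 hd
      obtain ⟨_, hx', e'⟩ := Finset.mem_image.1 hd'
      obtain ⟨x, hx, rfl⟩ := mem_orb.1 hx'
      have : y⁻¹ * (e * x) ∈ P := h4 ⟨P'.mul_mem (P'.inv_mem (h1 hy)) (P'.mul_mem he (h1 hx)),
        mem_stabilizer_iff.2 (by rw [mul_smul, mul_smul, e', inv_smul_smul])⟩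
      exact he' (by simpa using mul_mem (mul_mem hy this) (inv_mem hx))
  refine ⟨h1, h2, h3, fun x _ y hy => ptr_mul φ x fun _ => smul_mem_orb hy,
    fun x _ y hy => ptr_mul φ x fun _ => smul_mem_orb hy, fun x hx e he he' => ?_, fun y hy hy' => ?_⟩
  · rw [← ptr_conj φ e (x := e⁻¹ * x * e) fun _ => smul_mem_orb (conj_mem' h2 he hx),
      show e * (e⁻¹ * x * e) * e⁻¹ = x by group]
    exact key e he he' _
  · rw [ptr, key y hy hy', Finset.prod_image fun _ _ _ _ h => smul_left_cancel y h, ptr]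
    simp only [coc_mul, Finset.prod_mul_distrib]
    exact mul_comm _ _

namespace TS
variable {μ μ' : G → A}

theorem sq_mem (h : TS P P' μ μ') (hy : y ∈ P') : y * y ∈ P := by
  by_cases c : y ∈ P
  · exact mul_mem c c
  · simpa using h.idx _ (inv_mem hy) y hy (by simpa using c) c

theorem up (h : TS P P' μ μ') (hne : ¬ P' ≤ P) {m : ℕ} (hm : ∀ x ∈ P, μ x ^ m = 1) : ∀ x ∈ P', μ' x ^ m = 1 := by
  intro x hx
  obtain ⟨e, he, he'⟩ := SetLike.not_le_iff_exists.1 hne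
  by_cases c : x ∈ P
  · rw [h.inn x c e he he', mul_pow, hm x c, hm _ (conj_mem' h.norm he c), one_mul]
  · rw [h.out x hx c, hm _ (h.sq_mem hx)]

theorem inn' (h : TS P P' μ μ') (hx : x ∈ P) (he : e ∈ P') (he' : e ∉ P) :
    μ' x = μ x ^ 2 * μ (x⁻¹ * (e⁻¹ * x * e)) := by
  rw [h.inn x hx e he he', pow_two, mul_assoc (μ x), ← h.mul _ hx _ (mul_mem (inv_mem hx) (conj_mem' h.norm he hx)),
    mul_inv_cancel_left]

theorem inv (h : TS P P' μ μ') (hne : ¬ P' ≤ P) (hz : z ∈ P') (hc : P' ≤ C1(z)) (h2 : z * z = 1) : μ' z = 1 := by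
  obtain ⟨e, he, he'⟩ := SetLike.not_le_iff_exists.1 hne
  by_cases c : z ∈ P
  · rw [h.inn z c e he he', mul_assoc, ← mem_C1.1 (hc he), inv_mul_cancel_left, ← h.mul z c z c, h2, h.mul.one]
  · rw [h.out z hz c, h2, h.mul.one]

theorem step1 (h : TS P P' μ μ') (l : LW Q z) (hN : P ≤ N(Q)) (he : e ∈ Q ⊓ P') (he' : e ∉ P)
    (h4 : ∀ a : A, a ^ 4 = 1) (hd : ∀ d ∈ Q ⊓ P, μ (d * d) = 1) : ∀ x ∈ P', μ' x ^ 2 = 1 := by
  have k : ∀ x ∈ P, μ' x ^ 2 = 1 := fun x hx => by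
    have m : x⁻¹ * (e⁻¹ * x * e) ∈ Q ⊓ P := ⟨by
      simpa [mul_assoc] using mul_mem (conj_mem' hN hx (inv_mem he.1)) he.1,
      P.mul_mem (P.inv_mem hx) (conj_mem' h.norm he.2 hx)⟩
    rw [h.inn' hx he.2 he', mul_pow, ← pow_mul, h4, one_mul, pow_two, ← h.mul _ m.2 _ m.2, hd _ m]
  intro x hx
  by_cases c : x ∈ P
  · exact k x c
  · have m := h.idx e he.2 x hx he' c
    rw [show x = e * (e⁻¹ * x) by group, h.mul' e he.2 _ (h.le m), mul_pow, k _ m, mul_one, h.out e he.2 he', pow_two,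
      ← h.mul _ (h.sq_mem he.2) _ (h.sq_mem he.2)]
    exact hd _ ⟨Q.mul_mem he.1 he.1, h.sq_mem he.2⟩

theorem step2 (h : TS P P' μ μ') (hN : P ≤ N(Q)) (he : e ∈ Q ⊓ P') (he' : e ∉ P)
    (h2 : ∀ a : A, a ^ 2 = 1) (hd : ∀ d ∈ Q ⊓ P, μ d = 1) : ∀ x ∈ P', μ' x ^ 1 = 1 := by
  have k : ∀ x ∈ P, μ' x = 1 := fun x hx => by
    rw [h.inn' hx he.2 he', h2, one_mul]
    exact hd _ ⟨by simpa [mul_assoc] using mul_mem (conj_mem' hN hx (inv_mem he.1)) he.1,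
      P.mul_mem (P.inv_mem hx) (conj_mem' h.norm he.2 hx)⟩
  intro x hx
  rw [pow_one]
  by_cases c : x ∈ P
  · exact k x c
  · have m := h.idx e he.2 x hx he' c
    rw [show x = e * (e⁻¹ * x) by group, h.mul' e he.2 _ (h.le m), k _ m, mul_one, h.out e he.2 he']
    exact hd _ ⟨Q.mul_mem he.1 he.1, h.sq_mem he.2⟩

theorem step3 (h : TS P P' μ μ') (l : LW Q z) (he : e ∈ Q ⊓ P') (he' : e ∉ P)
    (h2 : ∀ a : A, a ^ 2 = 1) (hz : z ∈ P → μ z = 1) : ∀ x ∈ Q ⊓ P', μ' x = 1 := by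
  have k : ∀ d ∈ P, d ∈ zpowers z → μ d = 1 := fun d hd c => by
    rcases l.zp.1 c with rfl | rfl
    exacts [h.mul.one, hz hd]
  intro x hx
  by_cases c : x ∈ P
  · rw [h.inn' c he.2 he', h2, one_mul]
    exact k _ (P.mul_mem (P.inv_mem c) (conj_mem' h.norm he.2 c))
      (by simpa [mul_assoc] using l.comm _ (inv_mem hx.1) _ (inv_mem he.1))
  · rw [h.out x hx.2 c]
    exact k _ (h.sq_mem hx.2) (l.pow x hx.1)

end TS

variable [Finite G]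

theorem exists_idx_two (hT : PiGrp {2} T) (h : P < T) : ∃ P', P ≤ P' ∧ P' ≤ T ∧ P' ≤ N(P) ∧ P.relIndex P' = 2 := by
  have h1 := hT.nil.lt_norm h
  obtain ⟨X, hX, h2⟩ := ((hT.inf_left (B := N(P))).mim (f := coset P)).exists_sub_card
    (mt (quo_eq_bot_iff inf_le_right).1 h1.2)
  exact ⟨qpre P X, le_qpre, (qpre_le_of_le ⟨h1.le, inf_le_right⟩ hX).trans inf_le_left, qpre_le,
    relIndex_le_qpre.trans h2⟩

omit [Finite G] in
theorem idx_of_two (h : P.relIndex P' = 2) : ∀ x ∈ P', ∀ y ∈ P', x ∉ P → y ∉ P → x⁻¹ * y ∈ P :=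
  fun x hx y hy h1 h2 => (mul_mem_iff_of_index_two h (a := ⟨x⁻¹, inv_mem hx⟩) (b := ⟨y, hy⟩)).2 (by
    simp only [mem_subgroupOf, inv_mem_iff]; exact iff_of_false h1 h2)

section
variable {H : Subgroup G} [Fintype (G ⧸ H)] (φ : H →* A) (c : G ⧸ H)

theorem ptr_up (hT : PiGrp {2} T) {m : ℕ} (h1 : T ⊓ stabilizer G c ≤ P) (h2 : P ≤ T)
    (hm : ∀ x ∈ P, ptr φ (orb P c) x ^ m = 1) : ∀ x ∈ T, ptr φ (orb T c) x ^ m = 1 := by
  obtain ⟨M, h3, ⟨h4, h5⟩, hM⟩ := exists_maximal_sub (fun P => P ≤ T ∧ ∀ x ∈ P, ptr φ (orb P c) x ^ m = 1) ⟨h2, hm⟩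
  by_cases e : M = T
  · exact e ▸ h5
  obtain ⟨M', a1, a2, a3, a4⟩ := exists_idx_two hT (lt_of_le_of_ne h4 e)
  have hne : ¬ M' ≤ M := fun c => by rw [relIndex_eq_one_iff.2 c] at a4; omega
  exact absurd (hM M' ⟨a2, (ts_ptr φ c a1 a3 (idx_of_two a4)
    ((inf_le_inf_right _ a2).trans (h1.trans h3))).up hne h5⟩ a1).le hne

theorem exists_ts (hT : PiGrp {2} T) (hQ : Q ⊴ T) (h1 : T ⊓ stabilizer G c ≤ P) (h2 : P ≤ T) (hn : ¬ Q ≤ P) :
    ∃ P' e, P' ≤ T ∧ e ∈ Q ⊓ P' ∧ e ∉ P ∧ Nat.card (Q ⊓ P' : Subgroup G) = Nat.card (Q ⊓ P : Subgroup G) * 2 ∧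
      TS P P' (ptr φ (orb P c)) (ptr φ (orb P' c)) := by
  obtain ⟨P', a1, a2, a3, a4⟩ := exists_idx_two (hT.of_le (sup_le h2 hQ.1))
    (lt_of_le_of_ne le_sup_left fun e => hn (le_sup_right.trans e.ge))
  have a5 : P ⊔ (Q ⊓ P') = P' := by rw [← (hQ.nrm2' h2).modular a1, inf_eq_right.2 a2]
  have a6 := a2.trans (sup_le h2 hQ.1)
  obtain ⟨e, he, he'⟩ := SetLike.not_le_iff_exists.1 (fun c : Q ⊓ P' ≤ P => by
    rw [relIndex_eq_one_iff.2 (a5.ge.trans (sup_le le_rfl c))] at a4; omega)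
  refine ⟨P', e, a6, he, he', ?_, ts_ptr φ c a1 a3 (idx_of_two a4) ((inf_le_inf_right _ a6).trans h1)⟩
  rw [← H18.card_mul_relIndex' (A := P), ← a4]
  nth_rewrite 3 [← a5]
  rw [sup_comm, relIndex_sup_of_norm (inf_le_right.trans a3), inf_comm, inf_assoc, inf_eq_right.2 a1]

end

theorem tr_eq_of_orb {H : Subgroup G} [Fintype (G ⧸ H)] (φ : H →* A) (hT : T ≤ H) {m : ℕ} (hx : x ∈ T)
    (h : ∀ g : G, g ∉ H → ptr φ (orb T (g : G ⧸ H)) x ^ m = 1) : tr φ x ^ m = φ ⟨x, hT hx⟩ ^ m := by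
  rw [H26.tr_eq_mul_erase φ (hT hx), mul_pow, mul_eq_left]
  refine H26.prod_mem_of_orbits T (powMonoidHom m : A →* A).ker _ _ (fun y hy => H26.smul_mem_erase (hT hy)) fun c hc => ?_
  induction c using QuotientGroup.induction_on with
  | H g => exact h g fun c => by simp [QuotientGroup.eq, c] at hc

theorem tr_eq_one (hres : pResidual 2 G = ⊤) (f : G →* A) (h4 : ∀ a : A, a ^ 4 = 1) (x : G) : f x = 1 :=
  (hres.ge.trans ((closure_le f.ker).2 fun g hg => by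
    have h1 : f g ^ orderOf g = 1 := by rw [← map_pow, pow_orderOf_eq_one, map_one]
    have := (pow_gcd_eq_one.2 ⟨h1, h4 _⟩)
    rwa [show (orderOf g).gcd 4 = 1 from Nat.Coprime.pow_right 2 hg, pow_one] at this)) (mem_top x)

namespace LX
variable [Fintype (G ⧸ C1(z))] (φ : C1(z) →* A)

omit [Finite G] [Fintype (G ⧸ C1(z))] in
theorem stab : stabilizer G (g : G ⧸ C1(z)) = C1(g * z * g⁻¹) := (H26.stabilizer_mk g).trans cj_C1

omit [Fintype (G ⧸ C1(z))] in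
theorem not_le (h : LX Q z) (hg : g ∉ C1(z)) : ¬ Q ≤ T ⊓ stabilizer G (g : G ⧸ C1(z)) := fun c => by
  have := le_C1_iff.1 (c.trans (inf_le_right.trans stab.le))
  rw [h.C_eq, h.lw.zp] at this
  rcases this with e | e
  · exact (h.cj g).ne e
  · exact hg (mem_C1.2 (by rwa [mul_inv_eq_iff_eq_mul] at e))

omit [Fintype (G ⧸ C1(z))] in
theorem abel_of {μ : G → A} (h : LX Q z) (hμ : MulOn μ P) (hz : μ z ≠ 1) : Abel (Q ⊓ P) :=
  cent_iff.2 fun a ha b hb => by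
    have i : ∀ a ∈ P, μ a⁻¹ = (μ a)⁻¹ := fun a ha =>
      eq_inv_of_mul_eq_one_left (by rw [← hμ _ (inv_mem ha) _ ha, inv_mul_cancel, hμ.one])
    rcases h.lw.zp.1 (h.lw.comm a ha.1 b hb.1) with e | e
    · rwa [mul_inv_eq_one, mul_inv_eq_iff_eq_mul] at e
    · refine absurd ?_ hz
      rw [← e, hμ _ (mul_mem (mul_mem ha.2 hb.2) (P.inv_mem ha.2)) _ (P.inv_mem hb.2),
        hμ _ (mul_mem ha.2 hb.2) _ (P.inv_mem ha.2), hμ _ ha.2 _ hb.2, i _ ha.2, i _ hb.2]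
      simp [mul_comm]

omit [Fintype (G ⧸ C1(z))] in
theorem mem_of_card (h : LX Q z) (hx : x * x = 1) (hz : z ∈ C1(x))
    (hc : Nat.card Q = Nat.card (Q ⊓ C1(x) : Subgroup G) * 2) : x ∈ Q := by
  have := h.es.mem_sup_of_idx h.na (P := Q ⊓ C1(x)) inf_le_left (h.zp_eq ▸ zpowers_le.2 ⟨h.zZ.1, hz⟩)
    (fun a ha b hb h1 h2 => by
      simpa using idx_of_two (relIndex_eq_of_mul inf_le_left hc) _ (inv_mem ha) _ (inv_mem hb) (by simpa using h1)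
        (by simpa using h2))
    (h.norm (mem_C1_comm.1 hz)) (le_C1_iff.1 inf_le_right) (.inl hx)
  rwa [sup_eq_left.2 h.self] at this

theorem orb_sq (h : LX Q z) (hT : PiGrp {2} T) (hQ : Q ≤ T) (hz : T ≤ C1(z)) (h4 : ∀ a : A, a ^ 4 = 1)
    (hg : g ∉ C1(z)) : ∀ x ∈ T, ptr φ (orb T (g : G ⧸ C1(z))) x ^ 2 = 1 := by
  have hn : Q ⊴ T := ⟨hQ, hz.trans h.norm⟩
  obtain ⟨P, e, a1, a2, a3, a4, t⟩ := exists_ts φ (g : G ⧸ C1(z)) hT hn le_rfl inf_le_left (h.not_le hg)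
  by_cases c : ∀ d ∈ Q ⊓ (T ⊓ stabilizer G (g : G ⧸ C1(z))),
      ptr φ (orb (T ⊓ stabilizer G (g : G ⧸ C1(z))) (g : G ⧸ C1(z))) (d * d) = 1
  · exact ptr_up φ _ hT t.le a1 (t.step1 h.lw (inf_le_left.trans hn.2) a2 a3 h4 c)
  push Not at c
  obtain ⟨d, hd, c⟩ := c
  have e1 : d * d = z := (h.lw.zp.1 (h.lw.pow d hd.1)).resolve_left fun e => c (by rw [e, ptr_one])
  by_cases hQP : Q ≤ P
  · exfalso
    have ab := h.abel_of t.mul (e1 ▸ c)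
    rw [← inf_assoc, inf_eq_left.2 hQ, stab] at ab a4 hd
    rw [inf_eq_left.2 hQP] at a4
    have hz' : z ∈ C1(g * z * g⁻¹) := by
      have := C1(g * z * g⁻¹).mul_mem hd.2 hd.2
      rwa [e1] at this
    have hx := h.mem_of_card (h.lw.cj g).sq hz' a4
    have := h.es.cent_cent Nat.prime_two (A := zpowers z ⊔ zpowers (g * z * g⁻¹)) (h.zp_eq ▸ le_sup_left)
      (sup_le h.lw.zp_le (zpowers_le.2 hx))
    rw [C_sup, C_zpowers, C_zpowers, ← inf_assoc, inf_eq_left.2 h.lw.cent] at this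
    have el := ((elem_zpowers (p := 2) (by rw [pow_two, h.lw.sq])).sup (elem_zpowers
      (by rw [pow_two, (h.lw.cj g).sq])) (by rwa [C_zpowers, zpowers_le])).pow d (this.le ⟨hd.1, ab hd⟩)
    exact h.ne (by rw [← e1, ← pow_two, el])
  obtain ⟨P', e', b1, b2, b3, -, t'⟩ := exists_ts φ (g : G ⧸ C1(z)) hT hn t.le a1 hQP
  refine ptr_up φ _ hT (t.le.trans t'.le) b1 (t'.step1 h.lw (a1.trans hn.2) b2 b3 h4 fun d hd => ?_)
  rcases h.lw.zp.1 (h.lw.pow d hd.1) with e | e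
  · rw [e, ptr_one]
  · rw [e]; exact t.inv (fun c => a3 (c a2.2)) (e ▸ mul_mem hd.2 hd.2) (a1.trans hz) h.lw.sq

theorem orb_Q (h : LX Q z) (hT : PiGrp {2} T) (hQ : Q ≤ T) (hz : T ≤ C1(z)) (h2 : ∀ a : A, a ^ 2 = 1)
    (hg : g ∉ C1(z)) {n : ℕ} (hn : 2 ≤ n) (hc : Nat.card Q = 2 ^ (2 * n + 1)) :
    ∃ P, T ⊓ stabilizer G (g : G ⧸ C1(z)) ≤ P ∧ P ≤ T ∧ (∀ x ∈ Q ⊓ P, ptr φ (orb P (g : G ⧸ C1(z))) x = 1) ∧
      (3 ≤ n → g * z * g⁻¹ ∉ Q → ¬ Q ≤ P) := by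
  have hN : Q ⊴ T := ⟨hQ, hz.trans h.norm⟩
  obtain ⟨P, e, a1, a2, a3, a4, t⟩ := exists_ts φ (g : G ⧸ C1(z)) hT hN le_rfl inf_le_left (h.not_le hg)
  by_cases c : z ∈ T ⊓ stabilizer G (g : G ⧸ C1(z)) →
      ptr φ (orb (T ⊓ stabilizer G (g : G ⧸ C1(z))) (g : G ⧸ C1(z))) z = 1
  · refine ⟨P, t.le, a1, t.step3 h.lw a2 a3 h2 c, fun h3 hx hQP => hx ?_⟩
    rw [← inf_assoc, inf_eq_left.2 hQ, stab, inf_eq_left.2 hQP] at a4
    refine h.mem_of_card (h.lw.cj g).sq (by_contra fun hz' => ?_) a4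
    have ab : Abel (Q ⊓ C1(g * z * g⁻¹)) := by_contra fun c =>
      hz' (h.es.Z_le_of_not_abel Nat.prime_two inf_le_left c h.zZ).2
    have := h.es.card_abel_le Nat.prime_two hc ab inf_le_left
    rw [hc, show 2 * n + 1 = (n + 1) + 1 + (n - 1) by omega, pow_add, pow_succ] at a4
    have : 2 ^ 1 ≤ 2 ^ (n - 1) := Nat.pow_le_pow_right two_pos (by omega)
    have : 0 < 2 ^ (n + 1) := by positivity
    nlinarith
  push Not at c
  have := h.es.card_abel_le Nat.prime_two hc (h.abel_of t.mul c.2) inf_le_left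
  have p0 : 0 < 2 ^ (n + 1) := by positivity
  obtain ⟨P', e', b1, b2, b3, b4, t'⟩ := exists_ts φ (g : G ⧸ C1(z)) hT hN t.le a1 fun hQP => by
    rw [inf_eq_left.2 hQP, hc, show 2 * n + 1 = (n + 1) + 1 + (n - 1) by omega, pow_add, pow_succ] at a4
    have : 2 ^ 1 ≤ 2 ^ (n - 1) := Nat.pow_le_pow_right two_pos (by omega)
    nlinarith
  refine ⟨P', t.le.trans t'.le, b1, t'.step3 h.lw b2 b3 h2 fun hz' =>
    t.inv (fun c => a3 (c a2.2)) hz' (a1.trans hz) h.lw.sq, fun h3 _ hQP => ?_⟩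
  rw [inf_eq_left.2 hQP, hc, a4, show 2 * n + 1 = (n + 1) + 2 + (n - 2) by omega, pow_add, pow_add] at b4
  have : 2 ^ 1 ≤ 2 ^ (n - 2) := Nat.pow_le_pow_right two_pos (by omega)
  nlinarith

end LX

theorem LX.tr_sq (h : LX Q z) (hres : pResidual 2 G = ⊤) (φ : C1(z) →* A) (h4 : ∀ a : A, a ^ 4 = 1) (x : C1(z))
    (hx : PiElt {2} (x : G)) : φ x ^ 2 = 1 := by
  have := Fintype.ofFinite (G ⧸ C1(z))
  have hT : zpowers (x : G) ⊔ Q ≤ C1(z) := sup_le (zpowers_le.2 x.2) h.lw.cent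
  have := tr_eq_of_orb φ hT (mem_sup_left (mem_zpowers _)) fun g hg => h.orb_sq φ
    ((PiElt.zpowers hx).sup_norm h.lw.pi (zpowers_le.2 (h.norm x.2))) le_sup_right hT h4 hg _
    (mem_sup_left (mem_zpowers _))
  rw [tr_eq_one hres _ h4, one_pow] at this
  exact this.symm

theorem LX.tr_Q (h : LX Q z) (hres : pResidual 2 G = ⊤) (φ : C1(z) →* A) (h2 : ∀ a : A, a ^ 2 = 1) {n : ℕ}
    (hn : 2 ≤ n) (hc : Nat.card Q = 2 ^ (2 * n + 1)) (hx : x ∈ Q) : φ ⟨x, h.lw.cent hx⟩ = 1 := by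
  have := Fintype.ofFinite (G ⧸ C1(z))
  have := tr_eq_of_orb φ h.lw.cent (m := 1) hx fun g hg => by
    obtain ⟨P, a1, a2, a3, -⟩ := h.orb_Q φ h.lw.pi le_rfl h.lw.cent h2 hg hn hc
    exact ptr_up φ _ h.lw.pi a1 a2 (fun x hx => by rw [pow_one, a3 x ⟨a2 hx, hx⟩]) x hx
  rw [tr_eq_one hres _ fun a => by rw [show 4 = 2 * 2 from rfl, pow_mul, h2]] at this
  simpa using this.symm

theorem LX.tr_fused (h : LX Q z) (hres : pResidual 2 G = ⊤) (φ : C1(z) →* A) (h2 : ∀ a : A, a ^ 2 = 1) {n : ℕ}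
    (hn : 3 ≤ n) (hc : Nat.card Q = 2 ^ (2 * n + 1)) (hw : ∀ g, g * z * g⁻¹ ∈ Q → g * z * g⁻¹ = z) (x : C1(z))
    (hx : PiElt {2} (x : G)) : φ x = 1 := by
  have := Fintype.ofFinite (G ⧸ C1(z))
  have hT : zpowers (x : G) ⊔ Q ≤ C1(z) := sup_le (zpowers_le.2 x.2) h.lw.cent
  have hp := (PiElt.zpowers hx).sup_norm h.lw.pi (zpowers_le.2 (h.norm x.2))
  have := tr_eq_of_orb φ hT (m := 1) (mem_sup_left (mem_zpowers _)) fun g hg => by
    obtain ⟨P, a1, a2, a3, a4⟩ := h.orb_Q φ hp le_sup_right hT h2 hg (by omega) hc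
    obtain ⟨P', e', b1, b2, b3, -, t'⟩ := exists_ts φ (g : G ⧸ C1(z)) hp ⟨le_sup_right, hT.trans h.norm⟩ a1 a2
      (a4 hn fun c => hg (mem_C1.2 (by rw [← mul_inv_eq_iff_eq_mul]; exact hw g c)))
    exact ptr_up φ _ hp (a1.trans t'.le) b1 (t'.step2 ((a2.trans hT).trans h.norm) b2 b3 h2 a3) _
      (mem_sup_left (mem_zpowers _))
  rw [tr_eq_one hres _ fun a => by rw [show 4 = 2 * 2 from rfl, pow_mul, h2]] at this
  simpa using this.symm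

end H21
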