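import Cfsg.Agent.H9.Lf0
import Cfsg.Agent.S1163
import Cfsg.Agent.H13.SzClass
import Cfsg.Agent.H13.SzModel
import Cfsg.Agent.H18.BG1

/-! `H21.Lf.pU`: piece `PU` of S3297 (a normal Suzuki subgroup is the whole group); `H21.Lf.sz` collects the facts on
Sylow `2`-subgroups and involutions of a Suzuki group that are used. -/

set_option autoImplicit false

namespace H21.Lf

open Subgroup Cfsg H18
open scoped commutatorElement Pointwise

universe u

theorem sz {X : Type*} [Group X] [Finite X] (h : Lie.IsoSuzuki X) (T : Sylow 2 X) :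
    (∃ k, N((T : Subgroup X)).index = 2 ^ k + 1) ∧
    (∀ g, g ∉ N((T : Subgroup X)) → ∀ g', g' ∉ N((T : Subgroup X)) →
      ∃ s ∈ (T : Subgroup X), (s * g)⁻¹ * g' ∈ N((T : Subgroup X))) ∧
    ∀ x y : X, x ≠ 1 → x * x = 1 → y ≠ 1 → y * y = 1 → IsConj x y := by
  obtain ⟨F, _, _, m, hm, hF, ⟨e⟩⟩ := h
  haveI : H13.Sz.IsSz F m := ⟨hm, hF⟩
  haveI : Finite (Lie.Sz F (2 ^ (m + 1))) := Finite.of_equiv _ e.toEquiv
  obtain ⟨-, S, -, hi, -, hr⟩ := Cfsg.Agent.S1163.result hm hF
  obtain ⟨k, hk⟩ := MulAction.exists_smul_eq (Lie.Sz F (2 ^ (m + 1)))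
    (T.mapSurjective (f := e.toMonoidHom) e.surjective) S
  set f := e.trans (MulAut.conj k) with hf
  have hT : (T : Subgroup X) = (S : Subgroup _).comap f.toMonoidHom := by
    ext x
    rw [← hk, Sylow.coe_subgroup_smul, mem_comap]
    show _ ↔ MulAut.conj k • e x ∈ MulAut.conj k • (T : Subgroup X).map e.toMonoidHom
    constructor
    · intro hx
      exact smul_mem_pointwise_smul _ _ _ (mem_map_of_mem _ hx)
    · intro hx
      have := (smul_mem_pointwise_smul_iff (a := MulAut.conj k) (x := e x)).1 hx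
      obtain ⟨y, hy, e1⟩ := this
      rwa [← e.injective e1]
  have hN : N((T : Subgroup X)) = N((S : Subgroup _)).comap f.toMonoidHom := by
    rw [hT, comap_normalizer_eq_of_surjective _ f.surjective]
  refine ⟨⟨(2 * m + 1) * 2, ?_⟩, fun g hg g' hg' => ?_, fun x y x1 x2 y1 y2 => ?_⟩
  · rw [hN, index_comap_of_surjective _ f.surjective, pow_mul]; exact hi
  · rw [hN] at hg hg' ⊢
    have ne : ∀ a, a ∉ N((S : Subgroup _)).comap f.toMonoidHom →
        (QuotientGroup.mk (f a) : _ ⧸ N((S : Subgroup _))) ≠ QuotientGroup.mk 1 := fun a ha l => ha (by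
      have := inv_mem (QuotientGroup.eq.1 l)
      simpa using this)
    obtain ⟨s, hs, -⟩ := hr _ _ (ne g hg) (ne g' hg')
    refine ⟨f.symm s, by rw [hT]; simp, ?_⟩
    have := QuotientGroup.eq.1 hs
    simpa [mem_comap] using this
  · set φ := e.trans (H13.Sz.lieEquiv F m).symm
    have c : ∀ a : X, a ≠ 1 → a * a = 1 → IsConj (H13.Sz.u m 0 (1 : F)) (φ a) := fun a a1 a2 => by
      have a2' : φ a * φ a = 1 := by rw [← map_mul, a2, map_one]
      rcases H13.Sz.isConj_of_pow_four (c := φ a) (by simpa using a1) (H13.Sz.pow_four_of_mul_self a2') with l | l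
      · exact l.2
      · exact absurd a2' l.1
    have := φ.symm.toMonoidHom.map_isConj ((c x x1 x2).symm.trans (c y y1 y2))
    simpa using this

theorem pU : H9.Lf.PU.{u} := by
  intro G _ _ P L hL hnn hM hPL hA hB hS
  obtain ⟨⟨k, hk⟩, htr, hcl⟩ := sz hS (P.subtype hPL)
  rw [Sylow.coe_subtype, ← subgroupOf_normalizer_eq hPL] at hk htr
  have hP : Hall {2} (P : Subgroup G) ⊤ := hall_sylow_top Nat.prime_two P
  have hfr : L ⊔ N((P : Subgroup G)) = ⊤ := by rw [sup_comm]; exact P.normalizer_sup_eq_top' hPL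
  have dec : ∀ g : G, ∃ l ∈ L, ∃ n ∈ N((P : Subgroup G)), g = l * n := fun g =>
    (mem_sup_of_norm' norm_of_normal).1 (hfr ▸ mem_top g)
  have hi : N((P : Subgroup G)).index = 2 ^ k + 1 := by
    rw [← hk, ← relIndex_top_right, ← hfr]
    exact ((nml_top (K := L)).nrm2 le_top).relIndex_sup
  have two : ∀ {Y : Subgroup G}, PiGrp {2} Y → Y ≤ N((P : Subgroup G)) → Y ≤ P := fun h1 h2 =>
    (hP.of_le le_N le_top).le_of_nml le_rfl h2 h1
  have key : ∀ o : G, PiElt {2}ᶜ o → o ∈ C((P : Subgroup G)) → o = 1 := fun o ho hc => by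
    by_contra o1
    obtain ⟨y, hy, hp⟩ := exists_prime_pow_elt o1
    have yc : y ∈ C((P : Subgroup G)) := zpowers_le.2 hc hy
    haveI := Fact.mk hp
    have m := (piGrp_of_prime hp (card_zpowers' (x := y))).isPGroup.card_modEq_card_fixedPoints
      (G ⧸ N((P : Subgroup G)))
    have fx : ∀ g : G, g⁻¹ * y * g ∈ N((P : Subgroup G)) ↔
        (QuotientGroup.mk g : G ⧸ N((P : Subgroup G))) ∈ MulAction.fixedPoints (zpowers y) _ := fun g => by
      refine ⟨fun l a => ?_, fun l => ?_⟩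
      · have : g⁻¹ * (a : G) * g ∈ N((P : Subgroup G)) :=
          mem_cj.1 (zpowers_le.2 (mem_cj.2 l) a.2)
        exact (QuotientGroup.eq.2 (by simpa [mul_assoc] using this)).symm
      · have := QuotientGroup.eq.1 (l ⟨y, mem_zpowers y⟩).symm
        simpa [mul_assoc] using this
    obtain ⟨g, hg, hgy⟩ : ∃ g, g ∉ N((P : Subgroup G)) ∧ g⁻¹ * y * g ∈ N((P : Subgroup G)) := by
      by_contra hh
      push Not at hh
      have : Nat.card (MulAction.fixedPoints (zpowers y) (G ⧸ N((P : Subgroup G)))) = 1 := by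
        rw [Nat.card_eq_one_iff_exists]
        refine ⟨⟨QuotientGroup.mk 1, (fx 1).1 (by simpa using C_le_N yc)⟩, fun ⟨a, ha⟩ => Subtype.ext ?_⟩
        induction a using QuotientGroup.induction_on with | H a => ?_
        by_contra ne
        exact hh a (fun l => ne (QuotientGroup.eq.2 (by simpa using l))) ((fx a).2 ha)
      rw [this, ← index_eq_card, hi] at m
      have d := (Nat.modEq_iff_dvd' (Nat.le_add_left 1 _)).1 m.symm
      rw [Nat.add_sub_cancel] at d
      exact (ho.of_mem_zpowers hy) _ hp dvd_rfl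
        ((Nat.prime_dvd_prime_iff_eq hp Nat.prime_two).1 (hp.dvd_of_dvd_pow d))
    have all : y ∈ normalCore N((P : Subgroup G)) := by
      intro a
      obtain ⟨l, hl, n, hn, rfl⟩ := dec g
      obtain ⟨l', hl', n', hn', e⟩ := dec a⁻¹
      rw [inv_eq_iff_eq_inv.1 e]
      have h1 : l⁻¹ * y * l ∈ N((P : Subgroup G)) := by
        have := mul_mem (mul_mem hn hgy) (inv_mem hn)
        simpa [mul_assoc] using this
      have h2 : l'⁻¹ * y * l' ∈ N((P : Subgroup G)) := by
        by_cases c : l' ∈ N((P : Subgroup G))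
        · exact mul_mem (mul_mem (inv_mem c) (C_le_N yc)) c
        obtain ⟨s, hs, e⟩ := htr ⟨l, hl⟩ (fun c => hg (mul_mem c hn)) ⟨l', hl'⟩ c
        have e' : ((s : G) * l)⁻¹ * l' ∈ N((P : Subgroup G)) := e
        have := mul_mem (mul_mem (inv_mem e') h1) e'
        have cy : (s : G) * y = y * s := mem_C.1 yc _ hs
        rwa [show (((s : G) * l)⁻¹ * l')⁻¹ * (l⁻¹ * y * l) * (((s : G) * l)⁻¹ * l') =
          l'⁻¹ * ((s : G) * y) * (s : G)⁻¹ * l' by group, cy, ← mul_assoc, mul_inv_cancel_right] at this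
      have := mul_mem (mul_mem (inv_mem hn') h2) hn'
      simpa [mul_assoc] using this
    have hK := hM _ (normalCore_normal _) (ne_bot_of_mem all fun l => by
      rw [l, orderOf_one] at hp; exact Nat.not_prime_one hp)
    exact hnn (norm_top_iff.1 fun g _ => mem_N_of_cj_le (two (hP.pi.cj g)
      ((cj_le_of_mem_N hK (norm_of_normal (mem_top g))).trans (normalCore_le _))))
  have P1 : (P : Subgroup G) ≠ ⊥ := fun l => hnn (by rw [l]; infer_instance)
  obtain ⟨X, hX, cX⟩ := (hP.pi.of_le (inf_le_left : (P : Subgroup G) ⊓ C((P : Subgroup G)) ≤ P)).exists_sub_card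
    (hP.pi.nil.Z_ne_bot P1)
  obtain ⟨z, z1, rfl⟩ := exists_gen_of_prime (cX ▸ Nat.prime_two)
  rw [card_zpowers'] at cX
  have hz := hX (mem_zpowers z)
  have z2 : z * z = 1 := by rw [← pow_two, ← cX, pow_orderOf_eq_one]
  have hC := (hasNormalPComplement_iff Nat.prime_two).1 (hB z hz.1 cX)
  have pz : (P : Subgroup G) ≤ C1(z) := le_C1_iff.2 hz.2
  rw [eq_top_iff, ← hfr]
  refine sup_le le_rfl fun n hn => ?_
  have hn' := conj_mem_N hn hz.1
  obtain ⟨g, hg⟩ := isConj_iff.1 (hcl ⟨z, hPL hz.1⟩ ⟨_, hPL hn'⟩ (fun l => z1 (congrArg Subtype.val l))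
    (Subtype.ext z2) (fun l => z1 (conj_eq_one_iff'.1 (congrArg Subtype.val l))) (Subtype.ext (by
      show n * z * n⁻¹ * (n * z * n⁻¹) = 1
      rw [conj_mul, z2, mul_one, mul_inv_cancel])))
  obtain ⟨a, ha, an, e⟩ := hA z hz.1 _ hn' ⟨g, g.2, congrArg Subtype.val hg⟩
  have c1 : a⁻¹ * n ∈ C1(z) := mem_C1.2 (by
    calc a⁻¹ * n * z = a⁻¹ * (n * z * n⁻¹) * n := by group
      _ = z * (a⁻¹ * n) := by rw [← e]; group)
  have c2 : a⁻¹ * n ∈ N((P : Subgroup G)) := mul_mem (inv_mem an) hn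
  have c3 : a⁻¹ * n ∈ L := mem_of_parts (π := {2})
    (hPL (two piElt_piPart.zpowers (zpowers_le.2 (piPart_mem c2)) (mem_zpowers _))) (by
      rw [key _ piElt_piPart ?_]
      · exact one_mem _
      have o1 : piPart {2}ᶜ (a⁻¹ * n) ∈ O[{2}ᶜ](C1(z)) := hC.mem_of_nml pcore_nml.norm (piPart_mem c1) piElt_piPart
      refine zpowers_le.1 (comm_eq_bot_iff.1 (eq_bot_iff.2 ((le_inf (comm_le_right (zpowers_le.2 (piPart_mem c2)))
        ((comm_mono (zpowers_le.2 o1) le_rfl).trans (comm_le_left (pz.trans pcore_nml.norm)))).trans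
        (hP.pi.inf_eq_bot pcore_pi).le))))
  simpa using mul_mem ha c3

end H21.Lf
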