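import Cfsg.Agent.H9.MS3
import Cfsg.Agent.H21.Crit
/-! `π`-homogeneous groups (`PHom`): for `π` a set of odd primes, a `π`-homogeneous group whose `π'`-subgroups are
solvable is `π'`-closed (`phom_closed`, from the classification of minimal simple groups); `ML.wit`. -/
set_option autoImplicit false
set_option linter.unusedSectionVars false
open Cfsg H18 Subgroup H9 H9.MSi H13 H13.Sz
open scoped MatrixGroups

namespace H21
universe u
variable {G : Type*} [Group G] {π : Set ℕ} {p r : ℕ} {H K X : Subgroup G} {t x g : G}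

/-- a `2`-element normalizes but does not centralize an element of order `r` -/
def Wit (G : Type*) [Group G] (r : ℕ) : Prop := ∃ x t : G, x ^ r = 1 ∧ t ^ 4 = 1 ∧ t * x * t⁻¹ ∈ zpowers x ∧ t * x ≠ x * t

theorem Wit.map {Y : Type*} [Group Y] (h : Wit G r) (f : G →* Y) (hf : Function.Injective f) : Wit Y r :=
  let ⟨x, t, h1, h2, h3, h4⟩ := h
  ⟨f x, f t, by rw [← map_pow, h1, map_one], by rw [← map_pow, h2, map_one], by
    simpa using mem_map_of_mem f h3, fun e => h4 (hf (by simpa using e))⟩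
theorem tri_wit (h : Tri t x p r) : Wit G p := by
  obtain ⟨g, e⟩ := h.inv
  have t2 : g * t * g⁻¹ * (g * t * g⁻¹) = 1 := by rw [conj_mul, h.tt, mul_one, mul_inv_cancel]
  generalize g * t * g⁻¹ = s at e t2
  refine ⟨x, s, h.xp, by rw [show 4 = 2 * 2 from rfl, pow_mul, pow_two s, t2, one_pow], by
    rw [inv_eq_of_mul_self t2, e]; simp, fun c => h.p2 ((Nat.prime_dvd_prime_iff_eq h.pp Nat.prime_two).1 ?_)⟩
  rw [c, mul_assoc, t2, mul_one] at e
  exact h.ox ▸ orderOf_dvd_of_pow_eq_one (by rw [pow_two]; exact mul_eq_one_iff_eq_inv.2 e)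

theorem ML.wit (h : ML G) (hp : p.Prime) (hr : r.Prime) (p2 : p ≠ 2) (r2 : r ≠ 2) (pr : p ≠ r) (dp : p ∣ Nat.card G)
    (dr : r ∣ Nat.card G) : Wit G p ∨ Wit G r := by
  rcases h with ⟨F, _, _, h, ⟨e⟩⟩ | ⟨⟨e⟩⟩ | h
  · rw [Nat.card_congr e.toEquiv] at dp dr
    obtain ⟨n, hc, q⟩ := FiniteField.card F (ringChar F)
    have k : ∀ s, s.Prime → s ∣ Nat.card PSL(2, F) → s ≠ ringChar F →
        s ∣ (Fintype.card F - 1) * (Fintype.card F + 1) := fun s hs d n => (hs.dvd_mul.1 (by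
      rw [← mul_assoc, ← H10.card_PSL2]; exact d.mul_left _)).resolve_left fun d =>
        n ((Nat.prime_dvd_prime_iff_eq hs hc).1 (hs.dvd_of_dvd_pow (by rwa [q] at d)))
    have m : ∀ {s}, Wit PSL(2, F) s → Wit G s := fun h => h.map e.symm.toMonoidHom e.symm.injective
    by_cases h2 : (2 : F) = 0
    · have : ringChar F = 2 := ((Nat.prime_dvd_prime_iff_eq hc Nat.prime_two).1 (ringChar.dvd h2))
      obtain ⟨t, x, h⟩ := tri_even h2 hp hr p2 r2 pr (k p hp dp (this ▸ p2)) (k r hr dr (this ▸ r2))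
      exact .inl (m (tri_wit h))
    by_cases c : p = ringChar F
    · obtain ⟨t, x, h⟩ := tri_odd h2 hr r2 (k r hr dr (c ▸ pr.symm))
      exact .inr (m (tri_wit h))
    · obtain ⟨t, x, h⟩ := tri_odd h2 hp p2 (k p hp dp c)
      exact .inl (m (tri_wit h))
  · obtain ⟨f⟩ := iso33
    obtain ⟨t, x, h⟩ := tri_SL33
    have w : Wit G 3 := (tri_wit h).map (f.trans e.symm).toMonoidHom (f.trans e.symm).injective
    have c := H10.card_PSL (F := ZMod 3) 3 (by norm_num)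
    rw [← Nat.card_congr e.toEquiv, Fin.prod_univ_three, ZMod.card] at c
    have k : ∀ s, s.Prime → s ≠ 2 → s ∣ Nat.card G → s = 3 ∨ s = 13 := fun s hs s2 d => by
      rw [show Nat.card G = 2 ^ 4 * (3 ^ 3 * 13) by norm_num at c; omega, hs.dvd_mul, hs.dvd_mul] at d
      exact (d.resolve_left fun d => s2 ((Nat.prime_dvd_prime_iff_eq hs Nat.prime_two).1 (hs.dvd_of_dvd_pow d))).imp
        (fun d => (Nat.prime_dvd_prime_iff_eq hs Nat.prime_three).1 (hs.dvd_of_dvd_pow d))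
        (Nat.prime_dvd_prime_iff_eq hs (by norm_num)).1
    rcases k p hp p2 dp with rfl | rfl
    · exact .inl w
    · exact .inr ((k r hr r2 dr).resolve_right pr.symm ▸ w)
  obtain ⟨F, _, _, m, _, ⟨e⟩⟩ := H27.isoSuzuki_iff.1 h
  refine .inl (Wit.map ?_ e.symm.toMonoidHom e.symm.injective)
  have := Fact.mk hp
  rw [Nat.card_congr e.toEquiv] at dp
  obtain ⟨z, hz⟩ := exists_prime_orderOf_dvd_card' p dp
  rw [card_Sz, hp.dvd_mul, hp.dvd_mul] at dp
  rcases dp with (d | d) | d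
  · exact absurd ((hp.eq_two_or_odd'.resolve_left p2)) (by
      obtain ⟨n, hc, q⟩ := FiniteField.card F 2
      exact fun _ => p2 ((Nat.prime_dvd_prime_iff_eq hp hc).1 (hp.dvd_of_dvd_pow (q ▸ hp.dvd_of_dvd_pow d))))
  · have el := elliptic_of_orderOf_dvd (fun e => hp.ne_one (by rw [← hz, e, orderOf_one])) (hz ▸ d)
    obtain ⟨c, hc, c4, c2⟩ := el.exists_order_four
    refine ⟨z, c, hz ▸ pow_orderOf_eq_one z, c4, conj_mem_N (Cyc.N_le el.isCyclic (zpowers_le.2 (mem_C1.2 rfl)) hc)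
      (mem_zpowers z), fun e => c2 ?_⟩
    have := Nat.eq_one_of_dvd_coprimes (Odd.coprime_two_left (odd_card_sq_add_one (F := F)) |>.pow_left 2)
      (orderOf_dvd_of_pow_eq_one c4) ((orderOf_dvd_card (mem_C1.2 e)).trans el.card_centralizer_dvd)
    rw [orderOf_eq_one_iff.1 this, one_mul]
  · obtain ⟨r, hr, dr⟩ := Nat.exists_prime_and_dvd (n := Fintype.card F ^ 2 + 1) (by simp)
    obtain ⟨t, x, h⟩ := tri_Sz (m := m) hp hr d dr
    exact tri_wit h

/-- `H` is `π`-homogeneous -/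
def PHom (π : Set ℕ) (H : Subgroup G) : Prop := ∀ X ≤ H, PiGrp π X → ∀ g ∈ H ⊓ N(X), PiElt πᶜ g → g ∈ C(X)

variable [Finite G]
theorem PHom.of_le (h : PHom π H) (hK : K ≤ H) : PHom π K := fun X hX p g hg => h X (hX.trans hK) p g ⟨hK hg.1, hg.2⟩
theorem solv_pi (h2 : 2 ∉ π) (h : PiGrp π H) : Solv H :=
  solv_of_odd fun p hp d m => h2 (Set.mem_singleton_iff.1 m ▸ h p hp d)
theorem PHom.quo (h : PHom π H) (h2 : 2 ∉ π) (hK : K ⊴ H) (hs : PiGrp π K ∨ PiGrp πᶜ K) : PHom π (H ⫽ K) := by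
  intro U hU pU z hz pz
  obtain ⟨Y, KY, YH, rfl⟩ := exists_quo_eq hK hU
  have nY := hK.of_le KY YH
  rcases hs with hs | hs
  · obtain ⟨g, hg, gN, pg, rfl⟩ := exists_piElt_lift hz.1 pz
    have gY : g ∈ N(Y) := zpowers_le.1 (norm_of_quo_norm (zpowers_le.2 gN) nY (by
      rw [mim_zpowers gN]; exact zpowers_le.2 hz.2))
    exact mim_cent (zpowers_le.2 (h Y YH (piGrp_of_quo nY.norm pU hs) g ⟨hg, gY⟩ pg)) (mfun_mem_mim (mem_zpowers g))
  have hl : Hall πᶜ K Y := ⟨KY, hs, ((piGrp_quo_iff nY.norm).1 pU).compl_compl⟩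
  obtain ⟨X, sd⟩ := hl.exists_sd nY.norm
  have hX := sd.hall_compl' hl
  rw [sd.quo] at hz ⊢
  rw [← quo_inf_norm (H1.cop_of_pi sd.norm hX.pi hs (.inl (solv_pi h2 hX.pi))) hK] at hz
  obtain ⟨g, hg, -, pg, rfl⟩ := exists_piElt_lift hz pz
  exact mim_cent (zpowers_le.2 (h X (hX.le.trans YH) hX.pi g hg pg)) (mfun_mem_mim (mem_zpowers g))

theorem PHom.top (h : PHom π H) : PHom π (⊤ : Subgroup H) := fun X _ p g hg pg => mem_C.2 fun y hy => Subtype.ext
  (mem_C.1 (h (X.map H.subtype) (map_subtype_le X) (by rwa [PiGrp, card_map_subtype]) g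
    ⟨g.2, le_normalizer_map _ (mem_map_of_mem H.subtype hg.2)⟩ (by rwa [PiElt, orderOf_coe])) y (mem_map_of_mem _ hy))
theorem PHom.not_ms [MS.{u}] (h2 : 2 ∉ π) {G : Type u} [Group G] [Finite G] (h : PHom π (⊤ : Subgroup G))
    (ms : IsMinimalSimple G) : PiGrp πᶜ (⊤ : Subgroup G) := fun p hp d m => by
  have k : ∀ r, r.Prime → r ∈ π → ¬ Wit G r := fun r hr m ⟨x, t, h1, h4, hn, hc⟩ => hc (mem_C.1 (h (zpowers x) le_top
    (PiElt.zpowers (((piNat_prime hr).2 m).of_dvd (orderOf_dvd_of_pow_eq_one h1))) t ⟨trivial, mem_N_of_finite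
      fun _ ⟨k, hk⟩ => by rw [← hk, ← conj_zpow]; exact zpow_mem hn k⟩
    ((((piNat_prime Nat.prime_two).2 h2).pow 2).of_dvd (orderOf_dvd_of_pow_eq_one h4))) x (mem_zpowers x)).symm
  by_cases e : ∃ r, r.Prime ∧ r ∈ π ∧ r ∣ Nat.card G ∧ r ≠ p
  · obtain ⟨r, hr, m', d', n⟩ := e
    exact (ML.wit (MS.ms G ms) hp hr (fun e => h2 (e ▸ m)) (fun e => h2 (e ▸ m')) n.symm (by simpa using d) d').elim
      (k p hp m) (k r hr m')
  obtain ⟨P, hP⟩ := exists_sylow hp (⊤ : Subgroup G)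
  have := frob_centric hp hP fun D hD _ x hx px => h D le_top (fun q hq d => Set.mem_singleton_iff.1
    (hP.pi.of_le hD q hq d) ▸ m) x ⟨trivial, hx⟩ fun q hq d m => e ⟨q, hq, m, d.trans (orderOf_dvd_natCard x), px q hq d⟩
  rcases ms.1.eq_bot_or_eq_top_of_normal _ (nml_top_iff.1 (pcore_nml (π := {p}ᶜ))) with e | e <;> rw [PNil, e] at this
  · have := solv_top_iff.1 (PiGrp.solv (p := p) (by simpa using this.compl_of_eq_bot))
    have := ms.1
    exact ms.2.1 ⟨⟨IsSimpleGroup.comm_iff_isSolvable.2 ‹_›⟩⟩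
  · exact this.pi p hp d rfl

theorem phom_closed [MS.{u}] (h2 : 2 ∉ π) {G : Type u} [Group G] [Finite G] (H : Subgroup G) (h : PHom π H)
    (hs : ∀ X ≤ H, PiGrp πᶜ X → Solv X) : ∀ x ∈ H, PiElt πᶜ x → x ∈ O[πᶜ](H) := by
  induction hn : Nat.card H using Nat.strong_induction_on generalizing G with | _ n ih =>
  subst hn
  have quo : ∀ K, K ⊴ H → K ≠ ⊥ → PiGrp π K ∨ PiGrp πᶜ K → ∀ x ∈ H, PiElt πᶜ x → cs K x ∈ O[πᶜ](H ⫽ K) :=
    fun K hK K1 pK x hx px => by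
    refine ih _ (card_quo_lt hK K1) _ (h.quo h2 hK pK) (fun U hU pU => ?_) rfl _ (mfun_mem_mim hx) (px.mfun (hK.norm hx))
    obtain ⟨Y, KY, YH, rfl⟩ := exists_quo_eq hK hU
    have nY := hK.of_le KY YH
    rcases pK with pK | pK
    · have hl : Hall π K Y := ⟨KY, pK, (piGrp_quo_iff nY.norm).1 pU⟩
      obtain ⟨X, sd⟩ := hl.exists_sd nY.norm
      exact sd.quo ▸ (hs X (sd.le_right.trans YH) (sd.hall_compl hl).pi).mim
    · exact (hs Y YH (piGrp_of_quo nY.norm pU pK)).mim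
  intro x hx px
  by_cases O1 : O[πᶜ](H) = ⊥
  swap
  · have := quo _ pcore_nml O1 (.inr pcore_pi) x hx px
    rwa [pcore_quo_pcore, mem_bot, cs_eq_one_iff (pcore_nml.norm hx)] at this
  have sub : ∀ M < H, M ⊴ H → PiGrp π M := fun M hM nM p hp d => by_contra fun n => by
    obtain ⟨y, hy, e⟩ := cauchy hp d
    have := O1.le (le_pcore nM.pcore pcore_pi (ih _ (card_lt hM) M (h.of_le hM.le)
      (fun X hX => hs X (hX.trans hM.le)) rfl y hy fun q hq d => (Nat.prime_dvd_prime_iff_eq hq hp).1 (e ▸ d) ▸ n))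
    exact hp.ne_one (by rw [← e, mem_bot.1 this, orderOf_one])
  by_cases M1 : O[π](H) = ⊥
  swap
  · have m := quo _ pcore_nml M1 (.inl pcore_pi) x hx px
    have nL : qpre O[π](H) O[πᶜ](H ⫽ O[π](H)) ⊴ H := nml_qpre pcore_nml pcore_nml
    have hl : Hall π O[π](H) (qpre O[π](H) O[πᶜ](H ⫽ O[π](H))) := ⟨le_qpre, pcore_pi, by rw [relIndex_le_qpre]; exact pcore_pi⟩
    obtain ⟨X, sd⟩ := hl.exists_sd qpre_le
    have hX := sd.hall_compl hl
    have n : X ⊴ _ := (sd.dp (cent_comm.1 fun y hy => h _ pcore_le pcore_pi y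
      ⟨nL.le (sd.le_right hy), sd.norm hy⟩ (hX.pi.elt hy))).nml_right
    exact le_pcore nL.pcore pcore_pi (le_pcore n hX.pi (hX.mem_of_nml n.norm (mem_mpre.2 ⟨pcore_nml.norm hx, m⟩) px))
  by_contra n
  have x1 : x ≠ 1 := by rintro rfl; exact n (one_mem _)
  have simp : ∀ M, M ⊴ H → M = ⊥ ∨ M = H := fun M nM => or_iff_not_imp_right.2 fun e =>
    eq_bot_iff.2 ((le_pcore nM (sub M (nM.le.lt_of_ne e) nM)).trans M1.le)
  have np : ¬ PiGrp πᶜ H := fun p => n (le_pcore ⟨le_rfl, le_N⟩ p hx)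
  suffices ms : IsMinimalSimple H from np (by simpa [PiGrp] using h.top.not_ms h2 ms)
  refine ⟨?_, fun c => ?_, fun X hX => solv_map_subtype.1 ?_⟩
  · have := (nontrivial_iff_ne_bot H).2 fun e => x1 (mem_bot.1 (e.le hx))
    refine ⟨fun N _ => (simp _ (nml_map_subtype (X := N))).imp (map_eq_bot_iff_of_injective _ H.subtype_injective).1
      fun e => map_injective H.subtype_injective (by rw [e, ← MonoidHom.range_eq_map, range_subtype])⟩
  · refine np (((simp (zpowers x) ⟨zpowers_le.2 hx, fun g hg => C1_le_N_zpowers (mem_C1.2 ?_)⟩).resolve_left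
      (by simpa using x1)) ▸ px.zpowers)
    exact congrArg Subtype.val (c.1.comm (⟨g, hg⟩ : H) ⟨x, hx⟩)
  have l : X.map H.subtype < H := (map_subtype_le X).lt_of_ne fun e =>
    hX (map_injective H.subtype_injective (by rw [e, ← MonoidHom.range_eq_map, range_subtype]))
  generalize X.map H.subtype = X at l
  have hl : Hall πᶜ O[πᶜ](X) X := hall_of_sylows pcore_le pcore_pi fun p hp m _ => (exists_sylow hp X).imp fun P hP =>
    ⟨hP, fun y hy => ih _ (card_lt l) X (h.of_le l.le) (fun Y hY => hs Y (hY.trans l.le)) rfl y (hP.le hy)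
      fun q hq d => Set.mem_singleton_iff.1 (hP.pi.elt hy q hq d) ▸ m⟩
  exact solv_of_quo pcore_nml.norm (solv_pi h2 (by simpa using hl.quo_compl pcore_nml.norm))
    (hs _ (pcore_le.trans l.le) pcore_pi)

theorem phom_iff : PHom π (⊤ : Subgroup G) ↔ ∀ H : Subgroup G, H ≠ ⊥ → (∀ p : ℕ, p.Prime → p ∣ Nat.card ↥H → p ∈ π) →
    ∀ p : ℕ, p.Prime → p ∣ (centralizer (H : Set G)).relIndex (normalizer (H : Set G)) → p ∈ π := by
  have nC : ∀ H : Subgroup G, C(H) ⊴ N(H) := fun H => ⟨C_le_N, norm_C le_rfl⟩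
  refine ⟨fun h H _ pH p hp d => by_contra fun n => ?_, fun h X _ pX g hg pg => ?_⟩
  · obtain ⟨P, hP⟩ := exists_sylow hp N(H)
    exact (hP.idx_of_le (K := C(H)) fun y hy => h H le_top pH y ⟨trivial, hP.le hy⟩ fun q hq d =>
      Set.mem_singleton_iff.1 (hP.pi.elt hy q hq d) ▸ n) p hp d rfl
  by_cases e : X = ⊥
  · simp [e]
  have : PiGrp π (N(X) ⫽ C(X)) := (piGrp_quo_iff (nC X).norm).2 (h X e pX)
  exact (cs_eq_one_iff ((nC X).norm hg.2)).1 (orderOf_eq_one_iff.1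
    (PiNat.eq_one (this.elt (mfun_mem_mim hg.2)) (pg.mfun ((nC X).norm hg.2))))
theorem phom_of_closed (h : ∀ x, x ∈ K ↔ PiElt πᶜ x) : PHom π (⊤ : Subgroup G) := fun X _ pX g hg pg => by
  have pK : PiGrp πᶜ K := fun p hp d => by
    obtain ⟨y, hy, e⟩ := cauchy hp d
    exact (h y).1 hy p hp (e ▸ dvd_rfl)
  have nK : X ≤ N(K) := fun x _ => mem_N_of_finite fun y hy => (h _).2 (by
    rw [PiElt, show orderOf (x * y * x⁻¹) = orderOf y from (MulAut.conj x).orderOf_eq y]; exact (h y).1 hy)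
  refine zpowers_le.1 (comm_eq_bot_iff.1 (eq_bot_iff.2 ?_))
  rw [← pX.inf_eq_bot pK]
  exact le_inf (comm_le_right (zpowers_le.2 hg.2)) ((comm_mono (zpowers_le.2 ((h g).2 pg)) le_rfl).trans (comm_le_left nK))
theorem s4046 [MS.{u}] {G : Type u} [Group G] [Finite G] (h2 : 2 ∉ π) (hs : ∀ X : Subgroup G, PiGrp πᶜ X → Solv X)
    (h : PHom π (⊤ : Subgroup G)) : ∃ K : Subgroup G, ∀ x : G, x ∈ K ↔ PiElt πᶜ x :=
  ⟨_, fun x => ⟨pcore_pi.elt, phom_closed h2 ⊤ h (fun X _ => hs X) x trivial⟩⟩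
theorem s4048 [MS.{u}] {G : Type u} [Group G] [Finite G] (h2 : 2 ∉ π) (h4 : (Nat.card G).primeFactors.card = 4)
    (h : PHom π (⊤ : Subgroup G)) : ∃ K : Subgroup G, ∀ x : G, x ∈ K ↔ PiElt πᶜ x := by
  by_cases e : ∃ p r, p.Prime ∧ r.Prime ∧ p ≠ r ∧ p ∈ π ∧ r ∈ π ∧ p ∣ Nat.card G ∧ r ∣ Nat.card G
  · obtain ⟨p, r, hp, hr, n, mp, mr, dp, dr⟩ := e
    have m : ∀ {s}, s.Prime → s ∣ Nat.card G → s ∈ (Nat.card G).primeFactors := fun hs d =>
      Nat.mem_primeFactors.2 ⟨hs, d, Nat.card_pos.ne'⟩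
    obtain ⟨a, b, -, e⟩ := Finset.card_eq_two.1 (show (((Nat.card G).primeFactors.erase p).erase r).card = 2 by
      rw [Finset.card_erase_of_mem (Finset.mem_erase.2 ⟨n.symm, m hr dr⟩), Finset.card_erase_of_mem (m hp dp), h4])
    have k : ∀ c ∈ ({a, b} : Finset ℕ), c.Prime := fun c hc =>
      (Nat.mem_primeFactors.1 (Finset.mem_erase.1 (Finset.mem_erase.1 (e.ge hc)).2).2).1
    refine s4046 h2 (fun X pX => solv_paqb (k a (by simp)) (k b (by simp)) fun s hs d => ?_) h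
    simpa using e.le (Finset.mem_erase.2 ⟨fun e : s = r => pX s hs d (e ▸ mr), Finset.mem_erase.2
      ⟨fun e : s = p => pX s hs d (e ▸ mp),
      m hs (d.trans (card_subgroup_dvd_card X))⟩⟩)
  by_cases e' : ∃ p, p.Prime ∧ p ∈ π ∧ p ∣ Nat.card G
  swap
  · exact ⟨⊤, fun x => iff_of_true trivial fun p hp d m => e' ⟨p, hp, m, d.trans (orderOf_dvd_natCard x)⟩⟩
  obtain ⟨p, hp, m, d⟩ := e'
  have k : ∀ x : G, PiElt {p}ᶜ x ↔ PiElt πᶜ x := fun x => ⟨fun h q hq d' m' => e ⟨q, p, hq, hp, h q hq d', m', m,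
    d'.trans (orderOf_dvd_natCard x), d⟩, fun h q hq d' m' => h q hq d' (Set.mem_singleton_iff.1 m' ▸ m)⟩
  obtain ⟨P, hP⟩ := exists_sylow hp (⊤ : Subgroup G)
  have := frob_centric hp hP fun D hD _ x hx px => h D le_top (fun q hq d => Set.mem_singleton_iff.1
    (hP.pi.of_le hD q hq d) ▸ m) x ⟨trivial, hx⟩ ((k x).1 px)
  exact ⟨_, fun x => ⟨fun hx => (k x).1 (pcore_pi.elt hx), fun hx => this.mem_of_nml pcore_nml.norm trivial ((k x).2 hx)⟩⟩

end H21
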